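import Cfsg.Agent.Lib.WC.Defs

/-!
# Facts on groups isomorphic to `A₅` (all finite checks, transport along `e`).
-/

set_option autoImplicit false

namespace Cfsg.Agent.Lib.WC.A5F

open Subgroup

section Check

set_option maxRecDepth 100000
set_option synthInstance.maxHeartbeats 0
set_option synthInstance.maxSize 100000

theorem a5_card : Nat.card A5 = 60 := by
  rw [Nat.card_eq_fintype_card]
  decide +kernel

theorem a5_center : ∀ x : A5, (∀ y : A5, x * y = y * x) → x = 1 := by decide +kernel

theorem a5_conj_inv : ∀ a b : A5, a * a = 1 → a ≠ 1 → b * b = 1 → b ≠ 1 →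
    ∃ g : A5, g * a * g⁻¹ = b := by decide +kernel

theorem a5_prod_inv : ∀ x : A5, ∃ a b : A5, a * a = 1 ∧ b * b = 1 ∧ x = a * b := by decide +kernel

theorem a5_exists_four : ∀ a : A5, a * a = 1 → a ≠ 1 →
    ∃ b : A5, b * b = 1 ∧ b ≠ 1 ∧ b ≠ a ∧ a * b = b * a := by decide +kernel

theorem a5_exp : ∀ x : A5, x * x * x * x = 1 → x * x = 1 := by decide +kernel

theorem a5_three : ∀ a b : A5, a * a = 1 → b * b = 1 → a ≠ 1 → b ≠ 1 → a ≠ b → a * b = b * a →
    ∃ y : A5, y ≠ 1 ∧ y * y * y = 1 ∧ y * a * y⁻¹ = b ∧ y * b * y⁻¹ = a * b := by decide +kernel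

theorem a5_cent : ∀ a b : A5, a * a = 1 → b * b = 1 → a ≠ 1 → b ≠ 1 → a ≠ b → a * b = b * a →
    ∀ x : A5, x * a = a * x → x * b = b * x → x = 1 ∨ x = a ∨ x = b ∨ x = a * b := by decide +kernel

theorem a5_z : ∀ a b : A5, a * a = 1 → b * b = 1 → a ≠ 1 → b ≠ 1 → a ≠ b → a * b = b * a →
    ∀ y : A5, y ≠ 1 → y * y * y = 1 → y * a * y⁻¹ = b → y * b * y⁻¹ = a * b →
    ∃ z : A5, z * z = 1 ∧ z * y * z⁻¹ = y⁻¹ ∧ (z * a) * (z * a) * (z * a) = 1 ∧
      (z * b) * (z * b) * (z * b) * (z * b) * (z * b) = 1 ∧ z * b ≠ 1 := by decide +kernel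

theorem a5_z_uniq : ∀ a b : A5, a * a = 1 → b * b = 1 → a ≠ 1 → b ≠ 1 → a ≠ b → a * b = b * a →
    ∀ y : A5, y ≠ 1 → y * y * y = 1 → y * a * y⁻¹ = b → y * b * y⁻¹ = a * b →
    ∀ z : A5, z * z = 1 → z * y * z⁻¹ = y⁻¹ → (z * a) * (z * a) * (z * a) = 1 →
    ∀ z' : A5, z' * z' = 1 → z' * y * z'⁻¹ = y⁻¹ → (z' * a) * (z' * a) * (z' * a) = 1 → z = z' := by
  decide +kernel

end Check

variable {A : Type*} [Group A] (e : A ≃* A5)
include e

theorem card_eq : Nat.card A = 60 := by
  rw [Nat.card_congr e.toEquiv, a5_card]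

theorem simple : IsSimpleGroup A :=
  haveI : IsSimpleGroup A5 := alternatingGroup.isSimpleGroup (by simp)
  e.isSimpleGroup

theorem center_triv {x : A} (h : ∀ y : A, x * y = y * x) : x = 1 := by
  apply e.injective
  rw [map_one]
  apply a5_center
  intro y
  have := h (e.symm y)
  have h2 := congrArg e this
  simpa using h2

theorem perfect : commutator A = ⊤ := by
  haveI := simple e
  rcases IsSimpleGroup.eq_bot_or_eq_top_of_normal (commutator A) inferInstance with h | h
  · exfalso
    have hc : ∀ x y : A, x * y = y * x := by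
      intro x y
      have h1 := (commutator_eq_bot_iff_center_eq_top A).1 h
      have h2 : x ∈ center A := by rw [h1]; trivial
      exact ((mem_center_iff.1 h2) y).symm
    have h1 : ∀ x : A, x = 1 := fun x => center_triv e (fun y => hc x y)
    have h2 : Nat.card A = 1 := by
      haveI : Subsingleton A := ⟨fun x y => by rw [h1 x, h1 y]⟩
      exact Nat.card_of_subsingleton (1 : A)
    have h3 := card_eq e
    omega
  · exact h

private theorem inv_iff {a : A} : orderOf a = 2 ↔ a * a = 1 ∧ a ≠ 1 := by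
  constructor
  · intro h
    refine ⟨?_, ?_⟩
    · have := pow_orderOf_eq_one a
      rw [h, pow_two] at this
      exact this
    · rintro rfl
      simp at h
  · rintro ⟨h1, h2⟩
    haveI : Fact (Nat.Prime 2) := ⟨Nat.prime_two⟩
    exact orderOf_eq_prime (by rw [pow_two]; exact h1) h2

theorem conj_inv {a b : A} (ha : orderOf a = 2) (hb : orderOf b = 2) : ∃ g : A, g * a * g⁻¹ = b := by
  obtain ⟨ha1, ha2⟩ := (inv_iff e).1 ha
  obtain ⟨hb1, hb2⟩ := (inv_iff e).1 hb
  obtain ⟨g, hg⟩ := a5_conj_inv (e a) (e b) (by rw [← map_mul, ha1, map_one])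
    (fun h => ha2 (e.injective (by rw [h, map_one]))) (by rw [← map_mul, hb1, map_one])
    (fun h => hb2 (e.injective (by rw [h, map_one])))
  refine ⟨e.symm g, e.injective ?_⟩
  simpa using hg

theorem closure_inv : closure {a : A | orderOf a = 2} = ⊤ := by
  rw [eq_top_iff]
  intro x _
  obtain ⟨a, b, ha, hb, hx⟩ := a5_prod_inv (e x)
  have key : ∀ c : A5, c * c = 1 → e.symm c ∈ closure {a : A | orderOf a = 2} := by
    intro c hc
    by_cases h1 : c = 1
    · rw [h1, map_one]
      exact one_mem _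
    · apply Subgroup.subset_closure
      refine (inv_iff e).2 ⟨e.injective ?_, ?_⟩
      · simpa using hc
      · intro h
        apply h1
        have := congrArg e h
        simpa using this
  have hxx : x = e.symm a * e.symm b := by
    apply e.injective
    simpa using hx
  rw [hxx]
  exact mul_mem (key a ha) (key b hb)

/-- Every involution lies in a four-group. -/
theorem exists_four {a : A} (ha : orderOf a = 2) :
    ∃ b : A, orderOf b = 2 ∧ b ≠ a ∧ a * b = b * a ∧ orderOf (a * b) = 2 := by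
  obtain ⟨ha1, ha2⟩ := (inv_iff e).1 ha
  obtain ⟨b', h1, h2, h3, h4⟩ := a5_exists_four (e a) (by rw [← map_mul, ha1, map_one])
    (fun h => ha2 (e.injective (by rw [h, map_one])))
  have hb1 : e.symm b' * e.symm b' = 1 := by
    apply e.injective
    simpa using h1
  have hb2 : e.symm b' ≠ 1 := by
    intro h
    apply h2
    have := congrArg e h
    simpa using this
  have hb3 : e.symm b' ≠ a := by
    intro h
    apply h3
    have := congrArg e h
    simpa using this
  have hb4 : a * e.symm b' = e.symm b' * a := by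
    apply e.injective
    simpa using h4
  refine ⟨e.symm b', (inv_iff e).2 ⟨hb1, hb2⟩, hb3, hb4, (inv_iff e).2 ⟨?_, ?_⟩⟩
  · calc a * e.symm b' * (a * e.symm b') = a * (e.symm b' * a) * e.symm b' := by group
      _ = a * (a * e.symm b') * e.symm b' := by rw [hb4]
      _ = (a * a) * (e.symm b' * e.symm b') := by group
      _ = 1 := by rw [ha1, hb1, one_mul]
  · intro h
    apply hb3
    have h5 : e.symm b' = a⁻¹ := eq_inv_of_mul_eq_one_right h
    rw [h5]
    exact (eq_inv_of_mul_eq_one_left ha1).symm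

/-- Subgroups of order 4 have exponent 2 and are abelian. -/
theorem four_exp {V : Subgroup A} (hV : Nat.card V = 4) : ∀ v ∈ V, v * v = 1 := by
  intro v hv
  have h1 : v ^ 4 = 1 := by
    have := pow_card_eq_one' (x := (⟨v, hv⟩ : V))
    rw [hV] at this
    have h2 := congrArg Subtype.val this
    simpa using h2
  have h2 := a5_exp (e v) (by
    rw [← map_mul, ← map_mul, ← map_mul]
    have : v * v * v * v = v ^ 4 := by simp only [pow_succ, pow_zero, one_mul]
    rw [this, h1, map_one])
  apply e.injective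
  rw [map_mul, h2, map_one]

/-- The elements of a subgroup of order 4. -/
private theorem four_struct {V : Subgroup A} (hV : Nat.card V = 4) :
    ∃ a ∈ V, ∃ b ∈ V, a * a = 1 ∧ b * b = 1 ∧ a ≠ 1 ∧ b ≠ 1 ∧ a ≠ b ∧ a * b = b * a ∧
      ∀ v ∈ V, v = 1 ∨ v = a ∨ v = b ∨ v = a * b := by
  classical
  haveI : Finite A := Nat.finite_of_card_ne_zero (by rw [card_eq e]; norm_num)
  have hexp := four_exp e hV
  have hn : (V : Set A).ncard = 4 := by
    rw [← hV]
    exact (Nat.card_coe_set_eq (V : Set A)).symm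
  have hfin : (V : Set A).Finite := Set.toFinite _
  have hle : ∀ s : Finset A, (∀ x ∈ s, x ∈ V) → s.card ≤ 4 := by
    intro s hs
    rw [← hn, ← Set.ncard_coe_finset s]
    exact Set.ncard_le_ncard (fun x hx => hs x hx) hfin
  have hex : ∀ s : Finset A, s.card < 4 → ∃ x ∈ V, x ∉ s := by
    intro s hs
    by_contra hcon
    push Not at hcon
    have h1 : (V : Set A) ⊆ s := fun x hx => hcon x hx
    have h2 := Set.ncard_le_ncard h1 (Finset.finite_toSet s)
    rw [hn, Set.ncard_coe_finset] at h2
    omega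
  obtain ⟨a, ha, ha'⟩ := hex {1} (by simp)
  simp only [Finset.mem_singleton] at ha'
  obtain ⟨b, hb, hb'⟩ := hex {1, a} (by
    calc ({1, a} : Finset A).card ≤ 2 := Finset.card_le_two
      _ < 4 := by norm_num)
  simp only [Finset.mem_insert, Finset.mem_singleton, not_or] at hb'
  have haa := hexp a ha
  have hbb := hexp b hb
  have habb := hexp _ (V.mul_mem ha hb)
  have hcomm : a * b = b * a := by
    have h1 : a * b * (a * b) = 1 := habb
    calc a * b = a * b * (a * b) * (b⁻¹ * a⁻¹) := by group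
      _ = b⁻¹ * a⁻¹ := by rw [h1, one_mul]
      _ = b * a := by
        rw [← eq_inv_of_mul_eq_one_left hbb, ← eq_inv_of_mul_eq_one_left haa]
  have hab1 : a * b ≠ 1 := by
    intro h
    apply hb'.2
    have h5 : b = a⁻¹ := eq_inv_of_mul_eq_one_right h
    rw [h5]
    exact (eq_inv_of_mul_eq_one_left haa).symm
  have haba : a * b ≠ a := by
    intro h
    exact hb'.1 (by simpa using h)
  have habb' : a * b ≠ b := by
    intro h
    exact ha' (by simpa using h)
  refine ⟨a, ha, b, hb, haa, hbb, ha', hb'.1, (Ne.symm hb'.2), hcomm, ?_⟩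
  intro v hv
  by_contra hcon
  push Not at hcon
  have hcard : ({1, a, b, a * b, v} : Finset A).card = 5 := by
    rw [Finset.card_insert_of_notMem, Finset.card_insert_of_notMem, Finset.card_insert_of_notMem,
      Finset.card_insert_of_notMem, Finset.card_singleton]
    · simp only [Finset.mem_singleton]
      exact Ne.symm hcon.2.2.2
    · simp only [Finset.mem_insert, Finset.mem_singleton, not_or]
      exact ⟨Ne.symm habb', Ne.symm hcon.2.2.1⟩
    · simp only [Finset.mem_insert, Finset.mem_singleton, not_or]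
      exact ⟨Ne.symm hb'.2, Ne.symm haba, Ne.symm hcon.2.1⟩
    · simp only [Finset.mem_insert, Finset.mem_singleton, not_or]
      exact ⟨Ne.symm ha', Ne.symm hb'.1, Ne.symm hab1, Ne.symm hcon.1⟩
  have := hle {1, a, b, a * b, v} (by
    intro x hx
    simp only [Finset.mem_insert, Finset.mem_singleton] at hx
    rcases hx with rfl | rfl | rfl | rfl | rfl
    · exact V.one_mem
    · exact ha
    · exact hb
    · exact V.mul_mem ha hb
    · exact hv)
  omega

/-- Every involution is conjugate into a subgroup of order 4. -/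
theorem conj_into_four {V : Subgroup A} (hV : Nat.card V = 4) {a : A} (ha : orderOf a = 2) :
    ∃ g : A, g * a * g⁻¹ ∈ V := by
  obtain ⟨v, hv, -, -, hvv, -, hv1, -⟩ := four_struct e hV
  obtain ⟨g, hg⟩ := conj_inv e ha ((inv_iff e).2 ⟨hvv, hv1⟩)
  exact ⟨g, hg ▸ hv⟩

private theorem three_aux {a b : A} (haa : a * a = 1) (hbb : b * b = 1) (ha1 : a ≠ 1) (hb1 : b ≠ 1)
    (hab : a ≠ b) (hc : a * b = b * a) :
    ∃ y : A, y ≠ 1 ∧ y * y * y = 1 ∧ y * a * y⁻¹ = b ∧ y * b * y⁻¹ = a * b := by
  have hcc : ∀ {u : A}, u ≠ 1 → e u ≠ 1 := fun {u} hu h => hu (e.injective (by rw [h, map_one]))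
  obtain ⟨y, h1, h2, h3, h4⟩ := a5_three (e a) (e b) (by rw [← map_mul, haa, map_one])
    (by rw [← map_mul, hbb, map_one]) (hcc ha1) (hcc hb1)
    (fun h => hab (e.injective h)) (by rw [← map_mul, ← map_mul, hc])
  refine ⟨e.symm y, ?_, ?_, ?_, ?_⟩
  · intro h
    apply h1
    have := congrArg e h
    simpa using this
  · apply e.injective
    simpa using h2
  · apply e.injective
    simpa using h3
  · apply e.injective
    simpa using h4

/-- An element of order 3 normalizing `V`, moving all its involutions. -/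
theorem exists_three {V : Subgroup A} (hV : Nat.card V = 4) :
    ∃ y : A, orderOf y = 3 ∧ (∀ v ∈ V, y * v * y⁻¹ ∈ V) ∧ ∀ v ∈ V, v ≠ 1 → y * v * y⁻¹ ≠ v := by
  obtain ⟨a, ha, b, hb, haa, hbb, ha1, hb1, hab, hc, hall⟩ := four_struct e hV
  obtain ⟨y, hy1, hy3, hya, hyb⟩ := three_aux e haa hbb ha1 hb1 hab hc
  have hyab : y * (a * b) * y⁻¹ = a := by
    have : y * (a * b) * y⁻¹ = (y * a * y⁻¹) * (y * b * y⁻¹) := by group
    rw [this, hya, hyb]
    calc b * (a * b) = a * (b * b) := by rw [← mul_assoc, ← hc, mul_assoc]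
      _ = a := by rw [hbb, mul_one]
  haveI : Fact (Nat.Prime 3) := ⟨by norm_num⟩
  refine ⟨y, orderOf_eq_prime (by rw [pow_succ, pow_two]; exact hy3) hy1, ?_, ?_⟩
  · intro v hv
    rcases hall v hv with rfl | rfl | rfl | rfl
    · simpa using V.one_mem
    · rw [hya]; exact hb
    · rw [hyb]; exact V.mul_mem ha hb
    · rw [hyab]; exact ha
  · intro v hv hv1
    have h5 : a * b ≠ a := fun h => hb1 (by simpa using h)
    have h6 : a * b ≠ b := fun h => ha1 (by simpa using h)
    rcases hall v hv with rfl | rfl | rfl | rfl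
    · exact absurd rfl hv1
    · rw [hya]; exact Ne.symm hab
    · rw [hyb]; exact h6
    · rw [hyab]; exact Ne.symm h5

/-- `C_A(V) = V`. -/
theorem cent_four {V : Subgroup A} (hV : Nat.card V = 4) {x : A} (h : ∀ v ∈ V, x * v = v * x) :
    x ∈ V := by
  obtain ⟨a, ha, b, hb, haa, hbb, ha1, hb1, hab, hc, -⟩ := four_struct e hV
  have hcc : ∀ {u : A}, u ≠ 1 → e u ≠ 1 := fun {u} hu h => hu (e.injective (by rw [h, map_one]))
  rcases a5_cent (e a) (e b) (by rw [← map_mul, haa, map_one]) (by rw [← map_mul, hbb, map_one])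
    (hcc ha1) (hcc hb1) (fun h => hab (e.injective h)) (by rw [← map_mul, ← map_mul, hc]) (e x)
    (by rw [← map_mul, ← map_mul, h a ha]) (by rw [← map_mul, ← map_mul, h b hb]) with h1 | h1 | h1 | h1
  · have : x = 1 := e.injective (by rw [h1, map_one])
    rw [this]; exact V.one_mem
  · rw [e.injective h1]; exact ha
  · rw [e.injective h1]; exact hb
  · have : x = a * b := e.injective (by rw [h1, map_mul])
    rw [this]; exact V.mul_mem ha hb

/-- An automorphism fixing `V` pointwise is conjugation by an element of `V`. -/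
theorem aut_four {V : Subgroup A} (hV : Nat.card V = 4) (σ : A ≃* A) (h : ∀ v ∈ V, σ v = v) :
    ∃ a ∈ V, ∀ l : A, σ l = a * l * a⁻¹ := by
  classical
  obtain ⟨a, ha, b, hb, haa, hbb, ha1, hb1, hab, hc, hall⟩ := four_struct e hV
  obtain ⟨y, hy1, hy3, hya, hyb⟩ := three_aux e haa hbb ha1 hb1 hab hc
  have hσa : σ a = a := h a ha
  have hσb : σ b = b := h b hb
  -- `σ y = y w` with `w ∈ V`
  have hya' : σ y * a * (σ y)⁻¹ = b := by
    have := congrArg σ hya
    rw [map_mul, map_mul, map_inv, hσa, hσb] at this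
    exact this
  have hyb' : σ y * b * (σ y)⁻¹ = a * b := by
    have := congrArg σ hyb
    rw [map_mul, map_mul, map_inv, map_mul, hσa, hσb] at this
    exact this
  have hwV : y⁻¹ * σ y ∈ V := by
    apply cent_four e hV
    intro v hv
    have hacomm : y⁻¹ * σ y * a = a * (y⁻¹ * σ y) := by
      have h1 : σ y * a = b * σ y := by
        rw [← hya']; group
      have h2 : y * a = b * y := by
        rw [← hya]; group
      calc y⁻¹ * σ y * a = y⁻¹ * (σ y * a) := by group
        _ = y⁻¹ * (b * σ y) := by rw [h1]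
        _ = (y⁻¹ * b) * σ y := by group
        _ = (a * y⁻¹) * σ y := by
          have : y⁻¹ * b = a * y⁻¹ := by
            rw [← hya]; group
          rw [this]
        _ = a * (y⁻¹ * σ y) := by group
    have hbcomm : y⁻¹ * σ y * b = b * (y⁻¹ * σ y) := by
      have h1 : σ y * b = (a * b) * σ y := by
        rw [← hyb']; group
      have h2 : y * b = (a * b) * y := by
        rw [← hyb]; group
      calc y⁻¹ * σ y * b = y⁻¹ * (σ y * b) := by group
        _ = y⁻¹ * ((a * b) * σ y) := by rw [h1]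
        _ = (y⁻¹ * (a * b)) * σ y := by group
        _ = (b * y⁻¹) * σ y := by
          have : y⁻¹ * (a * b) = b * y⁻¹ := by
            rw [← hyb]; group
          rw [this]
        _ = b * (y⁻¹ * σ y) := by group
    rcases hall v hv with rfl | rfl | rfl | rfl
    · group
    · exact hacomm
    · exact hbcomm
    · calc y⁻¹ * σ y * (a * b) = (y⁻¹ * σ y * a) * b := by group
        _ = a * (y⁻¹ * σ y * b) := by rw [hacomm]; group
        _ = a * (b * (y⁻¹ * σ y)) := by rw [hbcomm]
        _ = a * b * (y⁻¹ * σ y) := by group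
  -- `u` with `u y u⁻¹ = σ y`
  have hyinva : y⁻¹ * a * y = a * b := by
    have h1 : y * (a * b) * y⁻¹ = a := by
      have : y * (a * b) * y⁻¹ = (y * a * y⁻¹) * (y * b * y⁻¹) := by group
      rw [this, hya, hyb]
      calc b * (a * b) = a * (b * b) := by rw [← mul_assoc, ← hc, mul_assoc]
        _ = a := by rw [hbb, mul_one]
    calc y⁻¹ * a * y = y⁻¹ * (y * (a * b) * y⁻¹) * y := by rw [h1]
      _ = a * b := by group
  have hyinvb : y⁻¹ * b * y = a := by
    rw [← hya]; group
  have hyinvab : y⁻¹ * (a * b) * y = b := by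
    rw [← hyb]; group
  have hinva : a⁻¹ = a := (eq_inv_of_mul_eq_one_left haa).symm
  have hinvb : b⁻¹ = b := (eq_inv_of_mul_eq_one_left hbb).symm
  have hinvab : (a * b)⁻¹ = a * b := by
    rw [mul_inv_rev, hinva, hinvb, hc]
  have hbab : b * (a * b) = a := by
    rw [← mul_assoc, ← hc, mul_assoc, hbb, mul_one]
  have haab : a * (a * b) = b := by
    rw [← mul_assoc, haa, one_mul]
  obtain ⟨u, hu, huy⟩ : ∃ u ∈ V, u * y * u⁻¹ = σ y := by
    have hsy : σ y = y * (y⁻¹ * σ y) := by group
    rcases hall _ hwV with hw | hw | hw | hw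
    · refine ⟨1, V.one_mem, ?_⟩
      rw [hsy, hw]; simp
    · -- w = a: u = a b
      refine ⟨a * b, V.mul_mem ha hb, ?_⟩
      have e1 : a * b * y * (a * b)⁻¹ = y * (y⁻¹ * (a * b) * y) * (a * b)⁻¹ := by group
      rw [e1, hyinvab, hinvab, hsy, hw, mul_assoc y, hbab]
    · -- w = b: u = a
      refine ⟨a, ha, ?_⟩
      have e1 : a * y * a⁻¹ = y * (y⁻¹ * a * y) * a⁻¹ := by group
      rw [e1, hyinva, hinva, hsy, hw, mul_assoc y, mul_assoc a, ← hc, haab]
    · -- w = a b: u = b
      refine ⟨b, hb, ?_⟩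
      have e1 : b * y * b⁻¹ = y * (y⁻¹ * b * y) * b⁻¹ := by group
      rw [e1, hyinvb, hinvb, hsy, hw, mul_assoc y]
  refine ⟨u, hu, ?_⟩
  -- the homomorphism `τ`
  let τ : A →* A := (MulAut.conj u⁻¹).toMonoidHom.comp σ.toMonoidHom
  have hτ : ∀ l, τ l = u⁻¹ * σ l * u := by
    intro l
    show u⁻¹ * σ l * (u⁻¹)⁻¹ = _
    rw [inv_inv]
  have hcu : ∀ v ∈ V, u * v = v * u := by
    intro v hv
    have h1 := four_exp e hV _ (V.mul_mem hu hv)
    have h2 := four_exp e hV _ hu
    have h3 := four_exp e hV _ hv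
    calc u * v = u * v * (u * v) * (v⁻¹ * u⁻¹) := by group
      _ = v⁻¹ * u⁻¹ := by rw [h1, one_mul]
      _ = v * u := by
        rw [← eq_inv_of_mul_eq_one_left h3, ← eq_inv_of_mul_eq_one_left h2]
  have hτV : ∀ v ∈ V, τ v = v := by
    intro v hv
    rw [hτ, h v hv, mul_assoc, ← hcu v hv, ← mul_assoc, inv_mul_cancel, one_mul]
  have hτy : τ y = y := by
    rw [hτ, ← huy]; group
  -- the element `z`
  have hcc : ∀ {w : A}, w ≠ 1 → e w ≠ 1 := fun {w} hw h => hw (e.injective (by rw [h, map_one]))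
  obtain ⟨z0, hz1, hz2, hz3, hz4, hz5⟩ := a5_z (e a) (e b) (by rw [← map_mul, haa, map_one])
    (by rw [← map_mul, hbb, map_one]) (hcc ha1) (hcc hb1) (fun h => hab (e.injective h))
    (by rw [← map_mul, ← map_mul, hc]) (e y) (hcc hy1)
    (by rw [← map_mul, ← map_mul, hy3, map_one])
    (by rw [← map_inv, ← map_mul, ← map_mul, hya]) (by rw [← map_inv, ← map_mul, ← map_mul, hyb, map_mul])
  set z : A := e.symm z0 with hzdef
  have hez : e z = z0 := by simp [hzdef]
  have hzz : z * z = 1 := by
    apply e.injective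
    rw [map_mul, hez, hz1, map_one]
  have hzy : z * y * z⁻¹ = y⁻¹ := by
    apply e.injective
    rw [map_mul, map_mul, map_inv, map_inv, hez, hz2]
  have hza : (z * a) * (z * a) * (z * a) = 1 := by
    apply e.injective
    simp only [map_mul, hez, map_one]
    exact hz3
  have hzb : (z * b) * (z * b) * (z * b) * (z * b) * (z * b) = 1 := by
    apply e.injective
    simp only [map_mul, hez, map_one]
    exact hz4
  have hzb1 : z * b ≠ 1 := by
    intro h0
    apply hz5
    have := congrArg e h0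
    simpa [hez] using this
  have hτz : τ z = z := by
    have hm := a5_z_uniq (e a) (e b) (by rw [← map_mul, haa, map_one])
      (by rw [← map_mul, hbb, map_one]) (hcc ha1) (hcc hb1) (fun h => hab (e.injective h))
      (by rw [← map_mul, ← map_mul, hc]) (e y) (hcc hy1)
      (by rw [← map_mul, ← map_mul, hy3, map_one])
      (by rw [← map_inv, ← map_mul, ← map_mul, hya])
      (by rw [← map_inv, ← map_mul, ← map_mul, hyb, map_mul])
      (e (τ z))
      (by rw [← map_mul, ← τ.map_mul, hzz, τ.map_one, map_one])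
      (by
        have := congrArg τ hzy
        rw [map_mul, map_mul, map_inv, map_inv, hτy] at this
        have h2 := congrArg e this
        simp only [map_mul, map_inv] at h2
        exact h2)
      (by
        have := congrArg τ hza
        simp only [map_mul, hτV a ha, map_one] at this
        simp only [← map_mul, this, map_one])
      z0 hz1 hz2 hz3
    apply e.injective
    rw [hm, hez]
  -- the fixed subgroup
  let F : Subgroup A := MonoidHom.eqLocus τ (MonoidHom.id A)
  have hF : ∀ x, x ∈ F ↔ τ x = x := fun x => Iff.rfl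
  have hVF : V ≤ F := fun v hv => (hF v).2 (hτV v hv)
  have hyF : y ∈ F := (hF y).2 hτy
  have hzF : z ∈ F := (hF z).2 hτz
  have hbF : b ∈ F := hVF hb
  have h4 : 4 ∣ Nat.card F := by
    rw [← hV]
    exact card_dvd_of_le hVF
  have h3 : 3 ∣ Nat.card F := by
    have h1 : orderOf (⟨y, hyF⟩ : F) = 3 := by
      rw [Subgroup.orderOf_mk]
      haveI : Fact (Nat.Prime 3) := ⟨by norm_num⟩
      exact orderOf_eq_prime (by rw [pow_succ, pow_two]; exact hy3) hy1
    rw [← h1]
    exact orderOf_dvd_natCard _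
  have h5 : 5 ∣ Nat.card F := by
    have h1 : orderOf (⟨z * b, F.mul_mem hzF hbF⟩ : F) = 5 := by
      rw [Subgroup.orderOf_mk]
      haveI : Fact (Nat.Prime 5) := ⟨by norm_num⟩
      refine orderOf_eq_prime ?_ hzb1
      have : (z * b) ^ 5 = (z * b) * (z * b) * (z * b) * (z * b) * (z * b) := by
        simp only [pow_succ, pow_zero, one_mul]
      rw [this, hzb]
    rw [← h1]
    exact orderOf_dvd_natCard _
  have h60 : 60 ∣ Nat.card F := by
    have h34 : 12 ∣ Nat.card F := by
      have := Nat.Coprime.mul_dvd_of_dvd_of_dvd (by norm_num : Nat.Coprime 3 4) h3 h4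
      simpa using this
    have := Nat.Coprime.mul_dvd_of_dvd_of_dvd (by norm_num : Nat.Coprime 12 5) h34 h5
    simpa using this
  have hcardA := card_eq e
  haveI : Finite A := Nat.finite_of_card_ne_zero (by omega)
  have htop : F = ⊤ := by
    apply Subgroup.eq_top_of_card_eq
    have h6 : Nat.card F ∣ Nat.card A := card_subgroup_dvd_card F
    rw [hcardA] at h6 ⊢
    exact Nat.dvd_antisymm h6 h60
  intro l
  have hl : l ∈ F := by rw [htop]; trivial
  have h7 := (hF l).1 hl
  rw [hτ] at h7
  calc σ l = u * (u⁻¹ * σ l * u) * u⁻¹ := by group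
    _ = u * l * u⁻¹ := by rw [h7]

end Cfsg.Agent.Lib.WC.A5F
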