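import Cfsg.Agent.Lib.WC.Tri

/-!
# First consequences of `Hyp`: structure of `W t`.
-/

set_option autoImplicit false
set_option linter.unusedSectionVars false

namespace Cfsg.Agent.Lib.WC

open Subgroup

universe u

variable {G : Type u} [Group G] [Finite G] {t : G} {S : Sylow 2 G}

theorem W_norm (t c : G) (hc : c * t = t * c) : ∀ x ∈ W t, c * x * c⁻¹ ∈ W t := by
  intro x hx
  have h1 : c * t * c⁻¹ = t := by rw [hc]; group
  have h2 := W_conj c t
  rw [h1] at h2
  rw [h2]
  exact ⟨x, hx, rfl⟩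

theorem L_norm (t c : G) (hc : c * t = t * c) : ∀ x ∈ L t, c * x * c⁻¹ ∈ L t := by
  intro x hx
  have h1 : c * t * c⁻¹ = t := by rw [hc]; group
  have h2 := L_conj c t
  rw [h1] at h2
  rw [h2]
  exact ⟨x, hx, rfl⟩

theorem t_mem_Dt (t : G) : t ∈ Dt t := ⟨1, by group, rfl⟩

theorem t_mem_W' (t : G) : t ∈ W t := subset_closure (t_mem_Dt t)

theorem t_comm_W (t : G) : ∀ x ∈ W t, x * t = t * x := by
  have : W t ≤ centralizer ({t} : Set G) := by
    unfold W
    rw [closure_le]
    rintro x ⟨g, -, hx⟩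
    exact mem_centralizer_singleton_iff.mpr hx
  intro x hx
  exact mem_centralizer_singleton_iff.mp (this hx)

theorem mul2_sq (a : Multiplicative (ZMod 2)) : a * a = 1 := by
  revert a; decide

theorem mul2_ne (a : Multiplicative (ZMod 2)) (h : a ≠ 1) (b : Multiplicative (ZMod 2)) (hb : b ≠ 1) : a = b := by
  revert a b; decide

/-- Elements of `W t` are in `L t` exactly when the first coordinate vanishes. -/
theorem mem_L_iff (e : ↥(W t) ≃* (Multiplicative (ZMod 2) × A5)) (x : W t) :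
    (x : G) ∈ L t ↔ (e x).1 = 1 := by
  have hp : _root_.commutator A5 = ⊤ := A5F.perfect (MulEquiv.refl A5)
  have hc : _root_.commutator (Multiplicative (ZMod 2) × A5) = (⊥ : Subgroup (Multiplicative (ZMod 2))).prod (⊤ : Subgroup A5) := by
    rw [_root_.commutator_def, ← Subgroup.top_prod_top, Subgroup.commutator_prod_prod, ← _root_.commutator_def A5, hp]
    congr 1
    rw [Subgroup.commutator_eq_bot_iff_le_centralizer]
    intro a _ b _
    exact mul_comm _ _
  have h1 : (_root_.commutator ↥(W t)).map e.toMonoidHom = _root_.commutator (Multiplicative (ZMod 2) × A5) := by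
    rw [_root_.commutator_def, _root_.commutator_def, Subgroup.map_commutator]
    have : (⊤ : Subgroup ↥(W t)).map e.toMonoidHom = ⊤ := by
      rw [← MonoidHom.range_eq_map, MonoidHom.range_eq_top]
      exact e.surjective
    rw [this]
  have h2 : (_root_.commutator ↥(W t)).map (W t).subtype = L t := Subgroup.map_subtype_commutator (W t)
  constructor
  · intro hx
    rw [← h2] at hx
    obtain ⟨y, hy, hyx⟩ := hx
    have : y = x := Subtype.ext hyx
    subst this
    have h3 : e.toMonoidHom y ∈ _root_.commutator (Multiplicative (ZMod 2) × A5) := by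
      rw [← h1]; exact ⟨y, hy, rfl⟩
    rw [hc] at h3
    exact (Subgroup.mem_prod.mp h3).1
  · intro hx
    have h3 : e.toMonoidHom x ∈ _root_.commutator (Multiplicative (ZMod 2) × A5) := by
      rw [hc]
      exact Subgroup.mem_prod.mpr ⟨hx, mem_top _⟩
    rw [← h1] at h3
    obtain ⟨y, hy, hyx⟩ := h3
    have : y = x := e.injective hyx
    subst this
    rw [← h2]
    exact ⟨y, hy, rfl⟩

namespace Hyp

variable (h : Hyp t S)
include h

theorem t_mem_W : t ∈ W t := t_mem_W' t

/-- The image of `t` in the product. -/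
theorem e_t (e : ↥(W t) ≃* (Multiplicative (ZMod 2) × A5)) :
    (e ⟨t, t_mem_W' t⟩).1 ≠ 1 ∧ (e ⟨t, t_mem_W' t⟩).2 = 1 := by
  have hc : ∀ y : Multiplicative (ZMod 2) × A5, e ⟨t, t_mem_W' t⟩ * y = y * e ⟨t, t_mem_W' t⟩ := by
    intro y
    obtain ⟨x, rfl⟩ := e.surjective y
    rw [← map_mul, ← map_mul]
    congr 1
    apply Subtype.ext
    exact (t_comm_W t x x.2).symm
  have h2 : (e ⟨t, t_mem_W' t⟩).2 = 1 := by
    apply A5F.center_triv (MulEquiv.refl A5)
    intro y
    have := congrArg Prod.snd (hc (1, y))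
    simpa using this
  refine ⟨?_, h2⟩
  intro h1
  have h3 : e ⟨t, t_mem_W' t⟩ = 1 := Prod.ext h1 h2
  have h4 : (⟨t, t_mem_W' t⟩ : W t) = 1 := e.injective (by rw [h3, map_one])
  have h5 : t = 1 := congrArg Subtype.val h4
  have := h.ord
  rw [h5, orderOf_one] at this
  omega

theorem t_not_mem_L : t ∉ L t := by
  obtain ⟨e⟩ := h.iso
  intro hL
  exact (h.e_t e).1 ((mem_L_iff e ⟨t, t_mem_W' t⟩).mp hL)

theorem L_comm : ∀ l ∈ L t, l * t = t * l := fun l hl => t_comm_W t l (L_le_W t hl)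

theorem L_iso : Nonempty (↥(L t) ≃* A5) := by
  obtain ⟨e⟩ := h.iso
  have hle := L_le_W t
  let φ : ↥(L t) →* A5 :=
    { toFun := fun l => (e ⟨l, hle l.2⟩).2
      map_one' := by
        have : (⟨((1 : L t) : G), hle (1 : L t).2⟩ : W t) = 1 := rfl
        rw [this, map_one]; rfl
      map_mul' := by
        intro a b
        have : (⟨((a * b : L t) : G), hle (a * b).2⟩ : W t) = ⟨a, hle a.2⟩ * ⟨b, hle b.2⟩ := rfl
        rw [this, map_mul]; rfl }
  refine ⟨MulEquiv.ofBijective φ ⟨?_, ?_⟩⟩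
  · rw [injective_iff_map_eq_one]
    intro a ha
    have h1 : (e ⟨a, hle a.2⟩).1 = 1 := (mem_L_iff e ⟨a, hle a.2⟩).mp a.2
    have h3 : e ⟨a, hle a.2⟩ = 1 := Prod.ext h1 ha
    have h4 : (⟨a, hle a.2⟩ : W t) = 1 := e.injective (by rw [h3, map_one])
    exact Subtype.ext (congrArg (Subtype.val (p := fun x => x ∈ W t)) h4)
  · intro y
    have hy : (e (e.symm (1, y))).1 = 1 := by simp
    have hm := (mem_L_iff e (e.symm (1, y))).mpr hy
    refine ⟨⟨_, hm⟩, ?_⟩
    change (e ⟨_, hle hm⟩).2 = y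
    have : (⟨((e.symm (1, y) : W t) : G), hle hm⟩ : W t) = e.symm (1, y) := rfl
    rw [this]
    simp

theorem W_cases : ∀ x ∈ W t, x ∈ L t ∨ t * x ∈ L t := by
  obtain ⟨e⟩ := h.iso
  intro x hx
  by_cases h1 : (e ⟨x, hx⟩).1 = 1
  · exact Or.inl ((mem_L_iff e ⟨x, hx⟩).mpr h1)
  · right
    have hm : t * x ∈ W t := (W t).mul_mem (t_mem_W' t) hx
    apply (mem_L_iff e ⟨t * x, hm⟩).mpr
    have : (⟨t * x, hm⟩ : W t) = ⟨t, t_mem_W' t⟩ * ⟨x, hx⟩ := rfl
    rw [this, map_mul, Prod.fst_mul]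
    rw [mul2_ne _ (h.e_t e).1 _ h1]
    exact mul2_sq _

theorem mem_W_of : ∀ x : G, (x ∈ L t ∨ t * x ∈ L t) → x ∈ W t := by
  rintro x (hx | hx)
  · exact L_le_W t hx
  · have := (W t).mul_mem ((W t).inv_mem (t_mem_W' t)) (L_le_W t hx)
    simpa using this

/-- `Dt t` is the set of all involutions of `W t`. -/
theorem mem_Dt_iff {x : G} : x ∈ Dt t ↔ orderOf x = 2 ∧ x ∈ W t := by
  obtain ⟨e⟩ := h.L_iso
  have htri := tri h.ord S h.mem h.cent (L t) e h.L_comm h.t_not_mem_L (by
    intro x hx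
    rcases h.W_cases x (subset_closure hx) with h1 | h1
    · exact Or.inr (Or.inl h1)
    · exact Or.inr (Or.inr h1))
  rcases htri with h1 | h1
  · exfalso
    obtain ⟨f⟩ := h.iso
    have hW : W t = zpowers t := by
      unfold W
      rw [h1]
      exact Subgroup.zpowers_eq_closure t |>.symm
    have hc : Nat.card (W t) = 2 := by
      rw [hW, Nat.card_zpowers, h.ord]
    have hc' : Nat.card (W t) = 120 := by
      rw [Nat.card_congr f.toEquiv, Nat.card_prod]
      have h1 : Nat.card (Multiplicative (ZMod 2)) = 2 := by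
        rw [Nat.card_congr (Multiplicative.toAdd (α := ZMod 2)), Nat.card_zmod]
      have h2 : Nat.card A5 = 60 := A5F.card_eq (MulEquiv.refl A5)
      rw [h1, h2]
    omega
  · constructor
    · intro hx
      obtain ⟨g, rfl, hc⟩ := hx
      refine ⟨?_, subset_closure ⟨g, rfl, hc⟩⟩
      have : g * t * g⁻¹ = MulAut.conj g t := rfl
      rw [this, MulEquiv.orderOf_eq]
      exact h.ord
    · rintro ⟨h2, h3⟩
      exact h1 x h2 (h.W_cases x h3)

end Hyp

end Cfsg.Agent.Lib.WC
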