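import Cfsg.Agent.Lib.WC.Cent

/-!
# The subgroup `J`: transitivity on `T#`, normalizers, and descent of `Hyp` to subgroups containing `J`.
-/

set_option autoImplicit false

namespace Cfsg.Agent.Lib.WC

open Subgroup

universe u

variable {G : Type u} [Group G] [Finite G] {t : G} {S : Sylow 2 G}

theorem L_le_JJ {k : G} (hk : k ∈ TT t S) (h1 : k ≠ 1) : L k ≤ JJ t S :=
  le_iSup (fun k : {k : G // k ∈ TT t S ∧ k ≠ 1} => L (k : G)) ⟨k, hk, h1⟩

/-- Mod-3 count: `y³ = 1` acting by conjugation on a finite invariant set with at most one fixed point. -/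
theorem card_mod_aux (O : Set G) (y k : G) (hy : y ^ 3 = 1) (hO : ∀ x ∈ O, y * x * y⁻¹ ∈ O)
    (hk : y * k * y⁻¹ = k) (hfix : ∀ x ∈ O, x ≠ k → y * x * y⁻¹ ≠ x) :
    (k ∈ O → Nat.card O % 3 = 1) ∧ (k ∉ O → Nat.card O % 3 = 0) := by
  classical
  have := Fintype.ofFinite O
  let f : Function.End O := fun x => ⟨y * x * y⁻¹, hO x x.2⟩
  have hf : f ^ 3 ^ 1 = 1 := by
    funext x
    apply Subtype.ext
    change ((f ^ 3) x : G) = x
    have h3 : f ^ 3 = f * f * f := by rw [pow_succ, pow_two]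
    rw [h3]
    change y * (y * (y * (x : G) * y⁻¹) * y⁻¹) * y⁻¹ = x
    have h4 : y * y * y = 1 := by rw [← hy, pow_succ, pow_two]
    have h5 : y⁻¹ * y⁻¹ * y⁻¹ = 1 := by
      have := congrArg (·⁻¹) h4
      simpa [mul_assoc] using this
    calc y * (y * (y * (x : G) * y⁻¹) * y⁻¹) * y⁻¹ = (y * y * y) * (x : G) * (y⁻¹ * y⁻¹ * y⁻¹) := by group
      _ = x := by rw [h4, h5]; group
  haveI : Fact (Nat.Prime 3) := ⟨by norm_num⟩
  have hmod := Equiv.Perm.card_fixedPoints_modEq hf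
  rw [← Nat.card_eq_fintype_card, ← Nat.card_eq_fintype_card] at hmod
  constructor
  · intro hkO
    have hu : Nat.card (Function.fixedPoints f) = 1 := by
      rw [Nat.card_eq_one_iff_unique]
      refine ⟨⟨?_⟩, ⟨⟨⟨k, hkO⟩, Subtype.ext hk⟩⟩⟩
      rintro ⟨⟨a, ha⟩, ha'⟩ ⟨⟨b, hb⟩, hb'⟩
      have ha2 : y * a * y⁻¹ = a := congrArg Subtype.val ha'
      have hb2 : y * b * y⁻¹ = b := congrArg Subtype.val hb'
      have e1 : a = k := by
        by_contra hne
        exact hfix a ha hne ha2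
      have e2 : b = k := by
        by_contra hne
        exact hfix b hb hne hb2
      apply Subtype.ext
      apply Subtype.ext
      simp [e1, e2]
    rw [hu] at hmod
    exact hmod
  · intro hkO
    have hu : Nat.card (Function.fixedPoints f) = 0 := by
      rw [Nat.card_eq_zero]
      left
      constructor
      rintro ⟨⟨a, ha⟩, ha'⟩
      have ha2 : y * a * y⁻¹ = a := congrArg Subtype.val ha'
      have e1 : a = k := by
        by_contra hne
        exact hfix a ha hne ha2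
      exact hkO (e1 ▸ ha)
    rw [hu] at hmod
    exact hmod

/-- `L k` is generated by involutions. -/
theorem L_le_of_inv {k : G} {S' : Sylow 2 G} (hk : Hyp k S') (K : Subgroup G)
    (hinv : ∀ x ∈ L k, orderOf x = 2 → x ∈ K) : L k ≤ K := by
  obtain ⟨e⟩ := hk.L_iso
  have hcl := A5F.closure_inv e
  intro x hx
  have hm : (⟨x, hx⟩ : L k) ∈ closure {a : L k | orderOf a = 2} := by rw [hcl]; trivial
  have hle : closure {a : L k | orderOf a = 2} ≤ K.subgroupOf (L k) := by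
    rw [closure_le]
    intro a ha
    rw [SetLike.mem_coe, mem_subgroupOf]
    refine hinv a a.2 ?_
    rw [Subgroup.orderOf_coe]
    exact ha
  exact mem_subgroupOf.mp (hle hm)

namespace Hyp

variable (h : Hyp t S)
include h

theorem card_V {k : G} (hk : k ∈ TT t S) (h1 : k ≠ 1) :
    Nat.card ((TT t S ⊓ L k).subgroupOf (L k)) = 4 := by
  rw [Nat.card_congr (Subgroup.subgroupOfEquivOfLe (inf_le_right : TT t S ⊓ L k ≤ L k)).toEquiv]
  exact h.card_T_Lk hk h1

/-- The 3-elements `y_k`. -/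
theorem exists_y {k : G} (hk : k ∈ TT t S) (h1 : k ≠ 1) :
    ∃ y ∈ L k, y ∈ normalizer (TT t S : Set G) ∧ y * k = k * y ∧ y ^ 3 = 1 ∧
      ∀ x ∈ TT t S, x ≠ 1 → x ≠ k → y * x * y⁻¹ ≠ x := by
  have hk' := (h.hyp_T hk h1).1
  obtain ⟨e⟩ := hk'.L_iso
  obtain ⟨y, hy3, hyN, hyM⟩ := A5F.exists_three e (h.card_V hk h1)
  have hyk : (y : G) * k = k * y := hk'.L_comm y y.2
  have hkk : k * k = 1 := h.T_exp k hk
  have hy33 : (y : G) ^ 3 = 1 := by
    have := pow_orderOf_eq_one y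
    rw [hy3] at this
    have h2 := congrArg (Subtype.val) this
    simpa using h2
  have hV : ∀ v ∈ TT t S ⊓ L k, (y : G) * v * (y : G)⁻¹ ∈ TT t S ⊓ L k := by
    intro v hv
    have := hyN ⟨v, hv.2⟩ (by rw [mem_subgroupOf]; exact hv)
    rw [mem_subgroupOf] at this
    simpa using this
  have hfw : ∀ x ∈ TT t S, (y : G) * x * (y : G)⁻¹ ∈ TT t S := by
    intro x hx
    rcases h.T_cases_k hk h1 hx with hL | hL
    · exact (hV x ⟨hx, hL⟩).1
    · have h2 := (hV (k * x) ⟨(TT t S).mul_mem hk hx, hL⟩).1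
      have h3 : (y : G) * x * (y : G)⁻¹ = k⁻¹ * ((y : G) * (k * x) * (y : G)⁻¹) := by
        have : (y : G) * (k * x) * (y : G)⁻¹ = k * ((y : G) * x * (y : G)⁻¹) := by
          calc (y : G) * (k * x) * (y : G)⁻¹ = ((y : G) * k) * x * (y : G)⁻¹ := by group
            _ = k * ((y : G) * x * (y : G)⁻¹) := by rw [hyk]; group
        rw [this]; group
      rw [h3]
      exact (TT t S).mul_mem ((TT t S).inv_mem hk) h2
  refine ⟨y, y.2, ?_, hyk, hy33, ?_⟩
  · rw [mem_normalizer_iff]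
    intro x
    refine ⟨hfw x, ?_⟩
    intro hx
    have h2 := hfw _ (hfw _ hx)
    have h3 : (y : G) * ((y : G) * ((y : G) * x * (y : G)⁻¹) * (y : G)⁻¹) * (y : G)⁻¹ = x := by
      have h4 : (y : G) * y * y = 1 := by rw [← hy33, pow_succ, pow_two]
      have h5 : (y : G)⁻¹ * (y : G)⁻¹ * (y : G)⁻¹ = 1 := by
        have := congrArg (·⁻¹) h4
        simpa [mul_assoc] using this
      calc (y : G) * ((y : G) * ((y : G) * x * (y : G)⁻¹) * (y : G)⁻¹) * (y : G)⁻¹
          = ((y : G) * y * y) * x * ((y : G)⁻¹ * (y : G)⁻¹ * (y : G)⁻¹) := by group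
        _ = x := by rw [h4, h5]; group
    rw [h3] at h2
    exact h2
  · intro x hx hx1 hxk hfix
    have hne := fun (v : G) (hv : v ∈ L k) (hvT : v ∈ TT t S) (hv1 : v ≠ 1) (hfv : (y : G) * v * (y : G)⁻¹ = v) =>
      hyM ⟨v, hv⟩ (by rw [mem_subgroupOf]; exact ⟨hvT, hv⟩) (by
        intro h0
        exact hv1 (congrArg Subtype.val h0)) (by
        apply Subtype.ext
        simpa using hfv)
    rcases h.T_cases_k hk h1 hx with hL | hL
    · exact hne x hL hx hx1 hfix
    · refine hne (k * x) hL ((TT t S).mul_mem hk hx) ?_ ?_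
      · intro h0
        apply hxk
        have : x = k⁻¹ := eq_inv_of_mul_eq_one_right h0
        rw [this]
        exact inv_eq_of_mul_eq_one_left hkk
      · calc (y : G) * (k * x) * (y : G)⁻¹ = ((y : G) * k) * x * (y : G)⁻¹ := by group
          _ = k * ((y : G) * x * (y : G)⁻¹) := by rw [hyk]; group
          _ = k * x := by rw [hfix]

/-- Any subgroup containing all the `L k` is transitive on `T#` (inside `N(T)`). -/
theorem trans_of_le (H : Subgroup G) (hH : ∀ k ∈ TT t S, k ≠ 1 → L k ≤ H) {a b : G}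
    (ha : a ∈ TT t S) (ha1 : a ≠ 1) (hb : b ∈ TT t S) (hb1 : b ≠ 1) :
    ∃ n ∈ H, n ∈ normalizer (TT t S : Set G) ∧ n * a * n⁻¹ = b := by
  by_contra hcon
  let O : Set G := {x | ∃ n ∈ H, n ∈ normalizer (TT t S : Set G) ∧ n * a * n⁻¹ = x}
  have hOT : ∀ x ∈ O, x ∈ TT t S ∧ x ≠ 1 := by
    rintro x ⟨n, -, hn, rfl⟩
    refine ⟨(mem_normalizer_iff.mp hn a).mp ha, ?_⟩
    intro h0
    apply ha1
    have : a = n⁻¹ * (n * a * n⁻¹) * n := by group
    rw [this, h0]
    group
  have hmain : ∀ k ∈ TT t S, k ≠ 1 →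
      (k ∈ O → Nat.card O % 3 = 1) ∧ (k ∉ O → Nat.card O % 3 = 0) := by
    intro k hk hk1
    obtain ⟨y, hyL, hyN, hyk, hy3, hyM⟩ := h.exists_y hk hk1
    apply card_mod_aux O y k hy3
    · rintro x ⟨n, hnH, hn, rfl⟩
      refine ⟨y * n, H.mul_mem (hH k hk hk1 hyL) hnH, (normalizer _).mul_mem hyN hn, by group⟩
    · rw [hyk]; group
    · intro x hx hxk
      exact hyM x (hOT x hx).1 (hOT x hx).2 hxk
  have hao : a ∈ O := ⟨1, H.one_mem, (normalizer _).one_mem, by group⟩
  have hbo : b ∉ O := by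
    rintro ⟨n, h1, h2, h3⟩
    exact hcon ⟨n, h1, h2, h3⟩
  have h1 := (hmain a ha ha1).1 hao
  have h2 := (hmain b hb hb1).2 hbo
  omega

theorem L_le_of_JJ_le (H : Subgroup G) (hH : JJ t S ≤ H) : ∀ k ∈ TT t S, k ≠ 1 → L k ≤ H :=
  fun _ hk h1 => (L_le_JJ hk h1).trans hH

/-- Any subgroup containing all the `L k` conjugates `t` to every member of `Dt t`. -/
theorem Dt_conj_of_le (H : Subgroup G) (hH : ∀ k ∈ TT t S, k ≠ 1 → L k ≤ H) {x : G} (hx : x ∈ Dt t) :
    ∃ a ∈ H, x = a * t * a⁻¹ := by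
  have htT := h.t_mem_T
  have ht1 : t ≠ 1 := by
    intro h0
    have := h.ord
    rw [h0, orderOf_one] at this
    omega
  have hxm := (h.mem_Dt_iff).mp hx
  have hx1 : x ≠ 1 := by
    intro h0
    have := hxm.1
    rw [h0, orderOf_one] at this
    omega
  have hxx : x * x = 1 := by
    have := pow_orderOf_eq_one x
    rw [hxm.1, pow_two] at this
    exact this
  have htt : t * t = 1 := h.T_exp t htT
  obtain ⟨_, _, hxt⟩ := hx
  -- Step: some `L t`-conjugate of `x` lies in `T`.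
  have hstep : ∃ g ∈ L t, g * x * g⁻¹ ∈ TT t S := by
    obtain ⟨e⟩ := h.L_iso
    have hint : ∀ u ∈ L t, orderOf u = 2 → ∃ g ∈ L t, g * u * g⁻¹ ∈ TT t S ⊓ L t := by
      intro u hu hu2
      obtain ⟨g, hg⟩ := A5F.conj_into_four e (h.card_V htT ht1) (a := ⟨u, hu⟩) (by
        rw [← Subgroup.orderOf_coe]; exact hu2)
      rw [mem_subgroupOf] at hg
      refine ⟨g, g.2, ?_⟩
      simpa using hg
    rcases h.W_cases x hxm.2 with hL | hL
    · obtain ⟨g, hg, hg2⟩ := hint x hL hxm.1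
      exact ⟨g, hg, hg2.1⟩
    · by_cases hxe : x = t
      · refine ⟨1, (L t).one_mem, ?_⟩
        rw [hxe]
        simpa using htT
      · have hu2 : orderOf (t * x) = 2 := by
          apply orderOf_eq_prime
          · calc (t * x) ^ 2 = t * (x * t) * x := by rw [pow_two]; group
              _ = t * (t * x) * x := by rw [hxt]
              _ = (t * t) * (x * x) := by group
              _ = 1 := by rw [htt, hxx]; group
          · intro h0
            apply hxe
            have : x = t⁻¹ := eq_inv_of_mul_eq_one_right h0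
            rw [this]
            exact inv_eq_of_mul_eq_one_left htt
        obtain ⟨g, hg, hg2⟩ := hint (t * x) hL hu2
        refine ⟨g, hg, ?_⟩
        have hgt : g * t = t * g := h.L_comm g hg
        have : g * x * g⁻¹ = t⁻¹ * (g * (t * x) * g⁻¹) := by
          calc g * x * g⁻¹ = t⁻¹ * ((t * g) * x * g⁻¹) := by group
            _ = t⁻¹ * ((g * t) * x * g⁻¹) := by rw [hgt]
            _ = t⁻¹ * (g * (t * x) * g⁻¹) := by group
        rw [this]
        exact (TT t S).mul_mem ((TT t S).inv_mem htT) hg2.1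
  obtain ⟨g, hg, hgT⟩ := hstep
  have hg1 : g * x * g⁻¹ ≠ 1 := by
    intro h0
    apply hx1
    have : x = g⁻¹ * (g * x * g⁻¹) * g := by group
    rw [this, h0]
    group
  obtain ⟨n, hnH, -, hn⟩ := h.trans_of_le H hH hgT hg1 htT ht1
  refine ⟨(n * g)⁻¹, H.inv_mem (H.mul_mem hnH (hH t htT ht1 hg)), ?_⟩
  rw [← hn]
  group

theorem T_le_JJ : TT t S ≤ JJ t S := by
  have htT := h.t_mem_T
  have ht1 : t ≠ 1 := by
    intro h0
    have := h.ord
    rw [h0, orderOf_one] at this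
    omega
  intro x hx
  by_cases hx1 : x = 1
  · rw [hx1]; exact (JJ t S).one_mem
  have hcard := h.card_T_L
  obtain ⟨v, hv, hv1⟩ : ∃ v ∈ TT t S ⊓ L t, v ≠ 1 := by
    rcases Subgroup.bot_or_exists_ne_one (TT t S ⊓ L t) with h0 | h0
    · rw [h0] at hcard
      simp at hcard
    · exact h0
  obtain ⟨n, hn, hnx⟩ := h.T_fusion hv.1 hv1 hx hx1
  have hnt : n * t * n⁻¹ ∈ TT t S := (mem_normalizer_iff.mp hn t).mp htT
  have hnt1 : n * t * n⁻¹ ≠ 1 := by
    intro h0
    apply ht1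
    have : t = n⁻¹ * (n * t * n⁻¹) * n := by group
    rw [this, h0]
    group
  have hxL : x ∈ L (n * t * n⁻¹) := by
    rw [L_conj]
    exact ⟨v, hv.2, hnx⟩
  exact L_le_JJ hnt hnt1 hxL

theorem JJ_le_nc : JJ t S ≤ normalClosure ({t} : Set G) := by
  apply iSup_le
  rintro ⟨k, hk, hk1⟩
  have hk' := (h.hyp_T hk hk1).1
  apply L_le_of_inv hk'
  intro x hx hx2
  have hxD : x ∈ Dt k := hk'.mem_Dt_iff.mpr ⟨hx2, L_le_W k hx⟩
  obtain ⟨g, rfl, -⟩ := hxD
  obtain ⟨g', rfl⟩ := h.T_conj hk hk1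
  have : t ∈ normalClosure ({t} : Set G) := subset_normalClosure rfl
  have h2 := (normalClosure_normal (s := ({t} : Set G))).conj_mem t this (g * g')
  have h3 : g * (g' * t * g'⁻¹) * g⁻¹ = g * g' * t * (g * g')⁻¹ := by group
  rw [h3]
  exact h2

theorem norm_T_le : normalizer (TT t S : Set G) ≤ normalizer (JJ t S : Set G) := by
  have hmap : ∀ n ∈ normalizer (TT t S : Set G), ∀ x ∈ JJ t S, n * x * n⁻¹ ∈ JJ t S := by
    intro n hn x hx
    have hle : JJ t S ≤ (JJ t S).comap (MulAut.conj n).toMonoidHom := by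
      apply iSup_le
      rintro ⟨k, hk, hk1⟩ y hy
      change n * y * n⁻¹ ∈ JJ t S
      have hnk : n * k * n⁻¹ ∈ TT t S := (mem_normalizer_iff.mp hn k).mp hk
      have hnk1 : n * k * n⁻¹ ≠ 1 := by
        intro h0
        apply hk1
        have : k = n⁻¹ * (n * k * n⁻¹) * n := by group
        rw [this, h0]
        group
      refine L_le_JJ hnk hnk1 ?_
      rw [L_conj]
      exact ⟨y, hy, rfl⟩
    exact hle hx
  intro n hn
  rw [mem_normalizer_iff]
  intro x
  refine ⟨hmap n hn x, ?_⟩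
  intro hx
  have := hmap n⁻¹ ((normalizer _).inv_mem hn) _ hx
  have h2 : n⁻¹ * (n * x * n⁻¹) * n⁻¹⁻¹ = x := by group
  rwa [h2] at this

theorem cent_le_norm {k : G} (hk : k ∈ TT t S) (h1 : k ≠ 1) :
    centralizer ({k} : Set G) ≤ normalizer (JJ t S : Set G) := by
  intro c hc
  have hc' : c * k = k * c := (mem_centralizer_singleton_iff.mp hc)
  obtain ⟨l, hl, n, hn, rfl, -⟩ := h.frat hk h1 hc'
  refine (normalizer _).mul_mem ?_ (h.norm_T_le hn)
  exact le_normalizer (L_le_JJ hk h1 hl)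

/-- For a subgroup containing `T` there is a Sylow 2-subgroup over `T`. -/
theorem exists_sylow_over (H : Subgroup G) (hT : TT t S ≤ H) :
    ∃ P : Sylow 2 H, TT t S ≤ (P : Subgroup H).map H.subtype := by
  have hp : IsPGroup 2 ((TT t S).subgroupOf H) := by
    apply IsPGroup.of_card (n := 3)
    rw [Nat.card_congr (Subgroup.subgroupOfEquivOfLe hT).toEquiv, h.card_T]
    norm_num
  obtain ⟨P, hP⟩ := hp.exists_le_sylow
  refine ⟨P, ?_⟩
  intro x hx
  exact ⟨⟨x, hT hx⟩, hP (by rw [mem_subgroupOf]; exact hx), rfl⟩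

/-- `Hyp` passes to subgroups containing `J`. -/
theorem hyp_sub (H : Subgroup G) (hH : JJ t S ≤ H) (ht : t ∈ H) (P : Sylow 2 H)
    (hP : TT t S ≤ (P : Subgroup H).map H.subtype) :
    Hyp (⟨t, ht⟩ : H) P ∧ (W (⟨t, ht⟩ : H)).map H.subtype = W t := by
  have htT := h.t_mem_T
  have hHk := L_le_of_JJ_le h H hH
  have hWmap : (W (⟨t, ht⟩ : H)).map H.subtype = W t := by
    unfold W
    rw [MonoidHom.map_closure]
    congr 1
    ext x
    constructor
    · rintro ⟨y, ⟨g, hg, hc⟩, rfl⟩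
      refine ⟨(g : G), ?_, ?_⟩
      · have := congrArg Subtype.val hg
        simpa using this
      · have := congrArg Subtype.val hc
        simpa using this
    · intro hx
      obtain ⟨a, haH, hxa⟩ := h.Dt_conj_of_le H hHk hx
      have hxH : x ∈ H := by
        rw [hxa]
        exact H.mul_mem (H.mul_mem haH ht) (H.inv_mem haH)
      refine ⟨⟨x, hxH⟩, ⟨⟨a, haH⟩, ?_, ?_⟩, rfl⟩
      · apply Subtype.ext
        simpa using hxa
      · apply Subtype.ext
        obtain ⟨_, _, hc⟩ := hx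
        exact hc
  refine ⟨⟨?_, ?_, ?_, ?_⟩, hWmap⟩
  · rw [← Subgroup.orderOf_coe]; exact h.ord
  · obtain ⟨y, hy, hyt⟩ := hP htT
    have : y = ⟨t, ht⟩ := Subtype.ext hyt
    rw [← this]
    exact hy
  · intro s hs
    apply Subtype.ext
    -- the image of `P` is a 2-subgroup of `G`, extend it to a Sylow subgroup
    have hpg : IsPGroup 2 ((P : Subgroup H).map H.subtype) := P.2.map _
    obtain ⟨S', hS'⟩ := hpg.exists_le_sylow
    have hle : TT t S ≤ (S' : Subgroup G) := hP.trans hS'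
    have hsS' : (s : G) ∈ (S' : Subgroup G) := hS' ⟨s, hs, rfl⟩
    exact (h.sylow_over S' hle).2 s hsS' t htT
  · obtain ⟨f⟩ := h.iso
    have e1 : ↥(W (⟨t, ht⟩ : H)) ≃* ↥((W (⟨t, ht⟩ : H)).map H.subtype) :=
      (W (⟨t, ht⟩ : H)).equivMapOfInjective H.subtype H.subtype_injective
    have e2 : ↥((W (⟨t, ht⟩ : H)).map H.subtype) ≃* ↥(W t) := MulEquiv.subgroupCongr hWmap
    exact ⟨(e1.trans e2).trans f⟩

/-- The normal closure of `t` in `H ≥ J` contains `J`. -/
theorem JJ_le_nc_sub (H : Subgroup G) (hH : JJ t S ≤ H) (ht : t ∈ H) :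
    (JJ t S).subgroupOf H ≤ normalClosure ({(⟨t, ht⟩ : H)} : Set H) := by
  have htT := h.t_mem_T
  have ht1 : t ≠ 1 := by
    intro h0
    have := h.ord
    rw [h0, orderOf_one] at this
    omega
  have hHk := L_le_of_JJ_le h H hH
  have key : JJ t S ≤ (normalClosure ({(⟨t, ht⟩ : H)} : Set H)).map H.subtype := by
    apply iSup_le
    rintro ⟨k, hk, hk1⟩
    have hk2 := h.hyp_T hk hk1
    have hk' := hk2.1
    apply L_le_of_inv hk'
    intro x hx hx2
    have hxD : x ∈ Dt k := hk'.mem_Dt_iff.mpr ⟨hx2, L_le_W k hx⟩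
    obtain ⟨a, ha, hxa⟩ := hk'.Dt_conj_of_le H (by
      intro k' hk'' hk1'
      rw [hk2.2] at hk''
      exact hHk k' hk'' hk1') hxD
    obtain ⟨n, hn, -, hnt⟩ := h.trans_of_le H hHk htT ht1 hk hk1
    have hm : (⟨t, ht⟩ : H) ∈ normalClosure ({(⟨t, ht⟩ : H)} : Set H) := subset_normalClosure rfl
    have h2 := (normalClosure_normal (s := ({(⟨t, ht⟩ : H)} : Set H))).conj_mem _ hm (⟨a, ha⟩ * ⟨n, hn⟩)
    refine ⟨_, h2, ?_⟩
    rw [hxa, ← hnt]
    simp [mul_assoc]
  intro x hx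
  rw [mem_subgroupOf] at hx
  obtain ⟨y, hy, hyx⟩ := key hx
  have : y = x := Subtype.ext hyx
  rw [← this]
  exact hy

end Hyp

end Cfsg.Agent.Lib.WC
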