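import Cfsg.Agent.Lib.WC.Cent
import Cfsg.Agent.Lib.ZStar.Main

/-!
# Involutions of `C(T)` outside `T`: the counting argument, using the `Z*`-theorem.
-/

set_option autoImplicit false

namespace Cfsg.Agent.Lib.WC

open Subgroup

universe u

variable {G : Type u} [Group G] [Finite G] {t : G} {S : Sylow 2 G}

/-- `Z*` in usable form: an isolated involution `j` of `X`, and `Λ ≤ X` with `Λ ≅ A₅`, `a ∈ Λ`: if `j`, `j'` are isolated and
`a = j` or `a = j * j'`, `a` is central in `X/O(X)`, impossible for `a ∈ Λ`, `a ≠ 1`. -/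
theorem not_isolated_pair {X : Type u} [Group X] [Finite X] {j j' a : X}
    (hj : Cfsg.IsIsolatedInvolution j) (hj' : Cfsg.IsIsolatedInvolution j') (hjj' : j * j' = j' * j)
    (ha : a = j' ∨ a = j * j') (ha1 : a ≠ 1)
    (Λ : Subgroup X) (e : Λ ≃* A5) (haΛ : a ∈ Λ) : False := by
  classical
  have hZ := Cfsg.Agent.Lib.ZStar.Main.zstar X
  have hOn : (Cfsg.pPrimeCore 2 X).Normal := inferInstance
  have key : ∀ g : X, a * g * a⁻¹ * g⁻¹ ∈ Cfsg.pPrimeCore 2 X := by
    intro g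
    rcases ha with rfl | rfl
    · exact hZ _ hj' g
    · have h1 := hZ _ hj g
      have h2 := hZ _ hj' g
      have e1 : j * j' * g * (j * j')⁻¹ * g⁻¹
          = j * (j' * g * j'⁻¹ * g⁻¹) * j⁻¹ * (j * g * j⁻¹ * g⁻¹) := by group
      rw [e1]
      exact mul_mem (hOn.conj_mem _ h2 _) h1
  have hcop : (Nat.card (Cfsg.pPrimeCore 2 X)).Coprime 2 :=
    Cfsg.Agent.Lib.Core.Basic.pPrimeCore_coprime
  have htriv : ∀ l ∈ Λ, l ∈ Cfsg.pPrimeCore 2 X → l = 1 := by
    haveI := A5F.simple e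
    have hN : ((Cfsg.pPrimeCore 2 X).subgroupOf Λ).Normal := Subgroup.Normal.subgroupOf hOn Λ
    rcases hN.eq_bot_or_eq_top with h0 | h0
    · intro l hl hlO
      have : (⟨l, hl⟩ : Λ) ∈ (Cfsg.pPrimeCore 2 X).subgroupOf Λ := hlO
      rw [h0, Subgroup.mem_bot] at this
      exact congrArg Subtype.val this
    · exfalso
      have hle : Λ ≤ Cfsg.pPrimeCore 2 X := by
        intro l hl
        have : (⟨l, hl⟩ : Λ) ∈ (Cfsg.pPrimeCore 2 X).subgroupOf Λ := by rw [h0]; trivial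
        exact this
      have hd : Nat.card Λ ∣ Nat.card (Cfsg.pPrimeCore 2 X) := Subgroup.card_dvd_of_le hle
      rw [A5F.card_eq e] at hd
      have h2 : 2 ∣ Nat.card (Cfsg.pPrimeCore 2 X) := dvd_trans (by norm_num) hd
      have := Nat.Coprime.eq_one_of_dvd hcop.symm h2
      omega
  have hcomm : ∀ y : Λ, (⟨a, haΛ⟩ : Λ) * y = y * ⟨a, haΛ⟩ := by
    intro y
    apply Subtype.ext
    have h1 := htriv (a * y * a⁻¹ * (y : X)⁻¹)
      (mul_mem (mul_mem (mul_mem haΛ y.2) (inv_mem haΛ)) (inv_mem y.2)) (key y)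
    have h2 : a * (y : X) = y * a := by
      have := mul_eq_one_iff_eq_inv.mp h1
      rw [inv_inv] at this
      exact mul_inv_eq_iff_eq_mul.mp this
    exact h2
  have := A5F.center_triv e hcomm
  exact ha1 (congrArg Subtype.val this)

namespace Hyp

variable (h : Hyp t S)
include h

/-- The trichotomy inside `C(y)`. -/
theorem tri_cent {y : G} (hyC : ∀ x ∈ TT t S, y * x = x * y)
    {k : G} (hk : k ∈ TT t S) (hk1 : k ≠ 1) (h1 : Ec y k) :
    (∃ hkX : k ∈ centralizer ({y} : Set G),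
      Cfsg.IsIsolatedInvolution (⟨k, hkX⟩ : centralizer ({y} : Set G))) ∨
    (∀ k' ∈ TT t S, k' ≠ 1 → Ec y k') := by
  classical
  haveI : Fact (Nat.Prime 2) := ⟨Nat.prime_two⟩
  set X : Subgroup G := centralizer ({y} : Set G) with hX
  have memX : ∀ {c : G}, c * y = y * c → c ∈ X := by
    intro c hc
    rw [hX, Subgroup.mem_centralizer_singleton_iff]
    exact hc
  have memX' : ∀ {c : G}, c ∈ X → c * y = y * c := by
    intro c hc
    rw [hX, Subgroup.mem_centralizer_singleton_iff] at hc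
    exact hc
  have hTX : TT t S ≤ X := fun x hx => memX (hyC x hx).symm
  have hHk := (h.hyp_T hk hk1).1
  have hLX : L k ≤ X := fun l hl => memX (h1 l hl).symm
  have hkX : k ∈ X := hTX hk
  obtain ⟨eL⟩ := hHk.L_iso
  let Λ : Subgroup X := (L k).subgroupOf X
  let e : Λ ≃* A5 := (Subgroup.subgroupOfEquivOfLe hLX).trans eL
  -- Sylow of X above T
  have hTp : IsPGroup 2 ((TT t S).subgroupOf X) := by
    apply IsPGroup.of_card (n := 3)
    rw [Nat.card_congr (Subgroup.subgroupOfEquivOfLe hTX).toEquiv, h.card_T]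
    norm_num
  obtain ⟨P, hP⟩ := hTp.exists_le_sylow
  have hPG : IsPGroup 2 ((P : Subgroup X).map X.subtype) := P.isPGroup'.map _
  obtain ⟨S', hS'⟩ := hPG.exists_le_sylow
  have hTS' : TT t S ≤ (S' : Subgroup G) := by
    intro x hx
    apply hS'
    exact ⟨⟨x, hTX hx⟩, hP hx, rfl⟩
  have hcS' := (h.sylow_over S' hTS').2
  have hkord : orderOf (⟨k, hkX⟩ : X) = 2 := by
    rw [Subgroup.orderOf_mk]
    exact hHk.ord
  have hT := tri (i := (⟨k, hkX⟩ : X)) hkord P (hP hk)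
    (fun s hs => Subtype.ext (hcS' s.1 (hS' ⟨s, hs, rfl⟩) k hk)) Λ e
    (fun l hl => Subtype.ext (hHk.L_comm l.1 hl))
    (fun hm => hHk.t_not_mem_L hm)
    (by
      rintro x ⟨g, hg, hgc⟩
      right
      have hx1 : (x : G) ∈ Dt k := by
        refine ⟨g.1, congrArg Subtype.val hg, congrArg Subtype.val hgc⟩
      have hx2 := (hHk.mem_Dt_iff.mp hx1).2
      exact hHk.W_cases _ hx2)
  rcases hT with hT | hT
  · left
    refine ⟨hkX, hkord, fun g hg => ?_⟩
    have hm : g * (⟨k, hkX⟩ : X) * g⁻¹ ∈ Dt (⟨k, hkX⟩ : X) := ⟨g, rfl, hg.eq.symm⟩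
    rw [hT] at hm
    exact hm
  · right
    intro k' hk' hk'1
    have hk'k' : k' * k' = 1 := h.T_exp _ hk'
    have hord : orderOf (⟨k', hTX hk'⟩ : X) = 2 := by
      rw [Subgroup.orderOf_mk]
      exact orderOf_eq_prime (by rw [pow_two]; exact hk'k') hk'1
    obtain ⟨g, hg, -⟩ := hT _ hord (h.T_cases_k hk hk1 hk')
    have hg' : k' = g.1 * k * g.1⁻¹ := congrArg Subtype.val hg
    intro l' hl'
    rw [hg', L_conj] at hl'
    obtain ⟨l, hl, rfl⟩ := hl'
    have hgy := memX' g.2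
    have hl1 := h1 l hl
    show y * (g.1 * l * g.1⁻¹) = (g.1 * l * g.1⁻¹) * y
    have hgy' : y * g.1⁻¹ = g.1⁻¹ * y := (Commute.inv_left (show Commute g.1 y from hgy)).eq.symm
    calc y * (g.1 * l * g.1⁻¹) = (y * g.1) * l * g.1⁻¹ := by group
      _ = (g.1 * y) * l * g.1⁻¹ := by rw [hgy]
      _ = g.1 * (y * l) * g.1⁻¹ := by group
      _ = g.1 * (l * y) * g.1⁻¹ := by rw [hl1]
      _ = g.1 * l * (y * g.1⁻¹) := by group
      _ = g.1 * l * (g.1⁻¹ * y) := by rw [hgy']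
      _ = (g.1 * l * g.1⁻¹) * y := by group

/-- An involution of `C(T)` centralizing two of the `L k` centralizes all of them. -/
theorem two_ec {y : G} (hy : orderOf y = 2) (hyC : ∀ x ∈ TT t S, y * x = x * y)
    {k₁ k₂ : G} (hk₁ : k₁ ∈ TT t S) (hk₁1 : k₁ ≠ 1) (hk₂ : k₂ ∈ TT t S) (hk₂1 : k₂ ≠ 1) (hne : k₁ ≠ k₂)
    (h1 : Ec y k₁) (h2 : Ec y k₂) {k : G} (hk : k ∈ TT t S) (hk1 : k ≠ 1) : Ec y k := by
  classical
  rcases h.tri_cent hyC hk₁ hk₁1 h1 with ⟨hX1, hi1⟩ | h3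
  · rcases h.tri_cent hyC hk₂ hk₂1 h2 with ⟨hX2, hi2⟩ | h3
    · exfalso
      set X : Subgroup G := centralizer ({y} : Set G) with hX
      have hHk := (h.hyp_T hk₁ hk₁1).1
      have hLX : L k₁ ≤ X := fun l hl => by
        rw [hX, Subgroup.mem_centralizer_singleton_iff]
        exact (h1 l hl).symm
      obtain ⟨eL⟩ := hHk.L_iso
      let e : ((L k₁).subgroupOf X) ≃* A5 := (Subgroup.subgroupOfEquivOfLe hLX).trans eL
      have hc : (⟨k₁, hX1⟩ : X) * ⟨k₂, hX2⟩ = ⟨k₂, hX2⟩ * ⟨k₁, hX1⟩ :=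
        Subtype.ext (h.T_comm _ hk₁ _ hk₂)
      have hk1k1 : k₁ * k₁ = 1 := h.T_exp _ hk₁
      rcases h.T_cases_k hk₁ hk₁1 hk₂ with hm | hm
      · exact not_isolated_pair hi1 hi2 hc (a := ⟨k₂, hX2⟩) (Or.inl rfl)
          (fun h0 => hk₂1 (congrArg Subtype.val h0)) _ e hm
      · refine not_isolated_pair hi1 hi2 hc (a := ⟨k₁, hX1⟩ * ⟨k₂, hX2⟩) (Or.inr rfl)
          (fun h0 => hne ?_) _ e hm
        have h5 : k₁ * k₂ = 1 := congrArg Subtype.val h0
        have h6 : k₂ = k₁⁻¹ := eq_inv_of_mul_eq_one_right h5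
        rw [h6, inv_eq_of_mul_eq_one_left hk1k1]
    · exact h3 k hk hk1
  · exact h3 k hk hk1

/-- An involution of `C(T)` outside `T` is `τ y`, with `y` centralizing all the `L k`. -/
theorem z10 {x : G} (hx : orderOf x = 2) (hxC : ∀ z ∈ TT t S, x * z = z * x) (hxT : x ∉ TT t S) :
    ∃ τ ∈ TT t S, ∀ k ∈ TT t S, k ≠ 1 → Ec (x * τ) k := by
  classical
  have hxx : x * x = 1 := by
    have := pow_orderOf_eq_one x
    rw [hx, pow_two] at this
    exact this
  -- For each `k`, a `v k`.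
  have hv : ∀ k : {k : TT t S // k ≠ 1}, ∃ v ∈ TT t S, Ec (x * v) k.1 := by
    intro k
    have hk1 : (k.1 : G) ≠ 1 := fun h0 => k.2 (Subtype.ext h0)
    obtain ⟨v, hv, hv2⟩ := h.exists_v k.1.2 hk1 hxC
    exact ⟨v, hv.1, hv2⟩
  choose v hvT hvE using hv
  -- the map `(k, b) ↦ v k * k^b`
  let f : {k : TT t S // k ≠ 1} × Bool → TT t S := fun p =>
    if p.2 then ⟨v p.1, hvT p.1⟩ * p.1.1 else ⟨v p.1, hvT p.1⟩
  have hfE : ∀ p, Ec (x * (f p : G)) p.1.1 := by
    rintro ⟨k, b⟩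
    cases b
    · simpa [f] using hvE k
    · intro l hl
      have hkk : Ec (k.1 : G) k.1 := by
        have hk1 : (k.1 : G) ≠ 1 := fun h0 => k.2 (Subtype.ext h0)
        exact (h.Ec_T k.1.2 hk1 k.1.2).2 (Or.inr rfl)
      have h1 := hvE k l hl
      have h2 := hkk l hl
      simp only [f, Bool.true_eq, if_true, Subgroup.coe_mul]
      calc x * (v k * k.1) * l = (x * v k) * (k.1 * l) := by group
        _ = (x * v k) * (l * k.1) := by rw [h2]
        _ = ((x * v k) * l) * k.1 := by group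
        _ = (l * (x * v k)) * k.1 := by rw [h1]
        _ = l * (x * (v k * k.1)) := by group
  have hcT : Nat.card (TT t S) = 8 := h.card_T
  haveI : Fintype (TT t S) := Fintype.ofFinite _
  have hcD : Nat.card ({k : TT t S // k ≠ 1} × Bool) = 14 := by
    have hc7 : Nat.card {k : TT t S // k ≠ 1} = 7 := by
      rw [Nat.card_eq_fintype_card, Fintype.card_subtype_compl (fun k : TT t S => k = 1),
        Fintype.card_subtype_eq, ← Nat.card_eq_fintype_card, hcT]
    rw [Nat.card_prod, hc7, Nat.card_eq_fintype_card (α := Bool), Fintype.card_bool]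
  have hni : ¬ Function.Injective f := by
    intro hinj
    have := Nat.card_le_card_of_injective f hinj
    omega
  rw [Function.Injective] at hni
  push Not at hni
  obtain ⟨⟨k₁, b₁⟩, ⟨k₂, b₂⟩, hff, hne⟩ := hni
  have hk12 : k₁ ≠ k₂ := by
    rintro rfl
    apply hne
    have hb : b₁ = b₂ := by
      cases b₁ <;> cases b₂ <;> first | rfl | skip
      · exfalso
        simp only [f, Bool.false_eq_true, if_false, if_true] at hff
        exact k₁.2 (left_eq_mul.mp hff)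
      · exfalso
        simp only [f, Bool.false_eq_true, if_false, if_true] at hff
        exact k₁.2 (mul_eq_left.mp hff)
    rw [hb]
  have hE1 := hfE (k₁, b₁)
  have hE2 := hfE (k₂, b₂)
  rw [hff] at hE1
  set τ : TT t S := f (k₂, b₂) with hτ
  have hτ2 : (τ : G) * τ = 1 := h.T_exp _ τ.2
  have hcomm : x * τ = τ * x := hxC _ τ.2
  have hord : orderOf (x * (τ : G)) = 2 := by
    apply orderOf_eq_prime
    · rw [pow_two]
      calc x * τ * (x * τ) = x * (τ * x) * τ := by group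
        _ = x * (x * τ) * τ := by rw [hcomm]
        _ = (x * x) * (τ * τ) := by group
        _ = 1 := by rw [hxx, hτ2, one_mul]
    · intro h0
      apply hxT
      have h6 : x = (τ : G)⁻¹ := eq_inv_of_mul_eq_one_left h0
      rw [h6]
      exact inv_mem τ.2
  have hyC : ∀ z ∈ TT t S, x * τ * z = z * (x * τ) := by
    intro z hz
    calc x * τ * z = x * (τ * z) := by group
      _ = x * (z * τ) := by rw [h.T_comm _ τ.2 _ hz]
      _ = (x * z) * τ := by group
      _ = (z * x) * τ := by rw [hxC z hz]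
      _ = z * (x * τ) := by group
  refine ⟨τ, τ.2, fun k hk hk1 => ?_⟩
  have hk₁1 : (k₁.1 : G) ≠ 1 := fun h0 => k₁.2 (Subtype.ext h0)
  have hk₂1 : (k₂.1 : G) ≠ 1 := fun h0 => k₂.2 (Subtype.ext h0)
  refine h.two_ec hord hyC k₁.1.2 hk₁1 k₂.1.2 hk₂1 ?_ hE1 hE2 hk hk1
  intro h0
  exact hk12 (Subtype.ext (Subtype.ext h0))

end Hyp

end Cfsg.Agent.Lib.WC
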