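import Mathlib
import Cfsg.Agent.Lib.WC.Trans
import Cfsg.Agent.Lib.WC.Z10
import Cfsg.Agent.Lib.J1Rec.JSide
import Cfsg.Agent.S1644
import Cfsg.Agent.Lib.CoprimeGen.Basic
import Cfsg.Agent.Lib.Core.Basic

set_option autoImplicit false
set_option linter.unusedSectionVars false
set_option linter.style.haveILetI false

namespace Cfsg.Agent.Lib.WC

open Subgroup

universe u

variable {G : Type u} [Group G] [Finite G] {t : G} {S : Sylow 2 G}

/-- The odd radical has odd order. -/
theorem oddCore_not_dvd : ¬ 2 ∣ Nat.card (Cfsg.oddCore G) := by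
  have h := Cfsg.Agent.Lib.Core.Basic.pPrimeCore_coprime (p := 2) (G := G)
  intro hd
  have := Nat.dvd_gcd hd (dvd_refl 2)
  rw [Nat.Coprime.gcd_eq_one h] at this
  omega

/-- No involution in the odd radical. -/
theorem not_mem_oddCore {x : G} (hx : orderOf x = 2) : x ∉ Cfsg.oddCore G := by
  intro hm
  apply oddCore_not_dvd (G := G)
  have := Subgroup.orderOf_dvd_natCard (Cfsg.oddCore G) hm
  rwa [hx] at this

/-- Elements of the odd radical of even power vanish. -/
theorem eq_one_of_mem_oddCore_sq {x : G} (hx : x ∈ Cfsg.oddCore G) (h2 : x * x = 1) : x = 1 := by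
  by_contra hne
  exact not_mem_oddCore (orderOf_eq_prime (by rw [pow_two]; exact h2) hne) hx

namespace Hyp

variable (h : Hyp t S)
include h

/-- Odd elements of `C(T)` centralize every `L k`; in particular `J = G` puts them in the centre. -/
theorem odd_Ec {c : G} (hc : ∀ x ∈ TT t S, c * x = x * c) (hodd : Odd (orderOf c)) {k : G}
    (hk : k ∈ TT t S) (h1 : k ≠ 1) : Ec c k := by
  obtain ⟨v, hv, hw⟩ := h.exists_v hk h1 hc
  have hvT : v ∈ TT t S := hv.1
  have hvv : v * v = 1 := h.T_exp v hvT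
  have hcv : Commute c v := hc v hvT
  obtain ⟨m, hm⟩ := hodd
  have hpow : (c * v) ^ orderOf c = v := by
    rw [hcv.mul_pow, pow_orderOf_eq_one, one_mul, hm, pow_succ, pow_mul, pow_two, hvv, one_pow,
      one_mul]
  have hEv : Ec v k := by
    intro l hl
    have hw' : Commute (c * v) l := hw l hl
    have h2 := hw'.pow_left (orderOf c)
    rw [hpow] at h2
    exact h2
  have e : c = (c * v) * v := by rw [mul_assoc, hvv, mul_one]
  rw [e]
  exact h.Ec_mul_aux hw hEv

/-- An element centralizing `J` is central when `J = G`. -/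
theorem central_of_Ec (hJ : JJ t S = ⊤) {c : G} (hc : ∀ k ∈ TT t S, k ≠ 1 → Ec c k) (g : G) :
    c * g = g * c := by
  have hle : JJ t S ≤ centralizer ({c} : Set G) := by
    apply iSup_le
    rintro ⟨k, hk, hk1⟩ l hl
    rw [mem_centralizer_singleton_iff]
    exact (hc k hk hk1 l hl).symm
  rw [hJ] at hle
  have := mem_centralizer_singleton_iff.mp (hle (mem_top g))
  exact this.symm

/-- D1: `S = T` when `J = G` and no involution is central. -/
theorem S_eq_T_of_JJ (hJ : JJ t S = ⊤)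
    (hnz : ∀ x : G, orderOf x = 2 → centralizer ({x} : Set G) ≠ ⊤) : (S : Subgroup G) = TT t S := by
  by_contra hne
  obtain ⟨x, hxS, hx2, hxT⟩ := h.exists_inv hne
  have hxC : ∀ z ∈ TT t S, x * z = z * x := fun z hz => h.T_central z hz x hxS
  obtain ⟨τ, hτ, hec⟩ := h.z10 hx2 hxC hxT
  have hxx : x * x = 1 := by
    have := pow_orderOf_eq_one x
    rwa [hx2, pow_two] at this
  have hττ : τ * τ = 1 := h.T_exp τ hτ
  have he1 : x * τ ≠ 1 := by
    intro he
    apply hxT
    have : x = τ := by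
      calc x = x * (τ * τ) := by rw [hττ, mul_one]
        _ = (x * τ) * τ := by group
        _ = τ := by rw [he, one_mul]
    rw [this]; exact hτ
  have hee : x * τ * (x * τ) = 1 := by
    calc x * τ * (x * τ) = x * (τ * x) * τ := by group
      _ = x * (x * τ) * τ := by rw [hxC τ hτ]
      _ = (x * x) * (τ * τ) := by group
      _ = 1 := by rw [hxx, hττ, one_mul]
  have hord : orderOf (x * τ) = 2 := orderOf_eq_prime (by rw [pow_two]; exact hee) he1
  apply hnz _ hord
  rw [eq_top_iff]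
  intro g _
  rw [mem_centralizer_singleton_iff]
  exact (h.central_of_Ec hJ hec g).symm

/-- For `i ∈ T#`, an element of `O(G)` commuting with `i` centralizes `L i`. -/
theorem oddCore_Ec {i y : G} (hi : i ∈ TT t S) (hi1 : i ≠ 1) (hy : y ∈ Cfsg.oddCore G)
    (hyi : y * i = i * y) : Ec y i := by
  obtain ⟨e⟩ := (h.hyp_T hi hi1).1.L_iso
  haveI hs : IsSimpleGroup (L i) := A5F.simple e
  set N := Cfsg.oddCore G with hN
  have hNn : N.Normal := inferInstance
  let K : Subgroup (L i) := N.subgroupOf (L i)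
  haveI hKn : K.Normal := by
    refine ⟨fun a ha b => ?_⟩
    rw [mem_subgroupOf] at ha ⊢
    simpa using hNn.conj_mem _ ha (b : G)
  rcases hKn.eq_bot_or_eq_top with hK | hK
  · intro l hl
    have hc : y * l * y⁻¹ * l⁻¹ ∈ N := by
      have h1 : l * y⁻¹ * l⁻¹ ∈ N := hNn.conj_mem _ (N.inv_mem hy) l
      have : y * l * y⁻¹ * l⁻¹ = y * (l * y⁻¹ * l⁻¹) := by group
      rw [this]
      exact N.mul_mem hy h1
    have hc2 : y * l * y⁻¹ * l⁻¹ ∈ L i :=
      (L i).mul_mem (L_norm i y hyi l hl) ((L i).inv_mem hl)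
    have hK1 : (⟨_, hc2⟩ : L i) ∈ K := mem_subgroupOf.mpr hc
    rw [hK, mem_bot] at hK1
    have h3 : y * l * y⁻¹ * l⁻¹ = 1 := congrArg Subtype.val hK1
    have h4 : y * l = l * y := by
      calc y * l = (y * l * y⁻¹ * l⁻¹) * (l * y) := by group
        _ = l * y := by rw [h3, one_mul]
    exact h4
  · exfalso
    have hle : L i ≤ N := by
      intro l hl
      have : (⟨l, hl⟩ : L i) ∈ K := by rw [hK]; exact mem_top _
      exact mem_subgroupOf.mp this
    have hd : Nat.card (L i) ∣ Nat.card N := Subgroup.card_dvd_of_le hle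
    rw [A5F.card_eq e] at hd
    exact oddCore_not_dvd (G := G) (dvd_trans (by norm_num) hd)

/-- The elements of `O(G)` have odd order. -/
theorem odd_order_of_mem {y : G} (hy : y ∈ Cfsg.oddCore G) : Odd (orderOf y) := by
  rw [← Nat.not_even_iff_odd, even_iff_two_dvd]
  intro hd
  exact oddCore_not_dvd (G := G) (hd.trans (Subgroup.orderOf_dvd_natCard _ hy))

/-- D2: if `S = T`, every element of `O(G)` is central when `J = G`. -/
theorem oddCore_central (hJ : JJ t S = ⊤) (hS : (S : Subgroup G) = TT t S) :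
    ∀ x ∈ Cfsg.oddCore G, ∀ g : G, x * g = g * x := by
  -- step 1: elements commuting with a nonidentity element of `T`
  have step1 : ∀ i ∈ TT t S, i ≠ 1 → ∀ y ∈ Cfsg.oddCore G, y * i = i * y → ∀ g : G, y * g = g * y := by
    intro i hi hi1 y hy hyi g
    have hE := h.oddCore_Ec hi hi1 hy hyi
    have hT : ∀ x ∈ TT t S, y * x = x * y := by
      intro x hx
      rcases h.T_cases_k hi hi1 hx with h1 | h1
      · exact hE x h1
      · have h2 := hE _ h1
        have h3 : x = i⁻¹ * (i * x) := by group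
        rw [h3]
        have h4 : Commute y (i⁻¹ * (i * x)) :=
          Commute.mul_right (Commute.inv_right hyi) h2
        exact h4
    exact h.central_of_Ec hJ (fun k hk hk1 => h.odd_Ec hT (h.odd_order_of_mem hy) hk hk1) g
  have hElem : Cfsg.IsElementaryAbelian 2 (TT t S) := by
    refine ⟨⟨⟨fun a b => Subtype.ext (h.T_comm a a.2 b b.2)⟩⟩, fun a ha => ?_⟩
    rw [pow_two]; exact h.T_exp a ha
  haveI : Fact (Nat.Prime 2) := ⟨Nat.prime_two⟩
  have hNn : (Cfsg.oddCore G).Normal := inferInstance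
  have hj := Cfsg.Agent.Lib.CoprimeGen.Basic.eq_hyperJoin (p := 2) hElem oddCore_not_dvd
    (by rw [normalizer_eq_top_iff.mpr hNn]; exact le_top)
  have hle : Cfsg.Agent.Lib.CoprimeGen.Basic.hyperJoin 2 (TT t S) (Cfsg.oddCore G) ≤ Subgroup.center G := by
    apply iSup_le
    rintro ⟨B, hB, hi⟩ y ⟨hy1, hy2⟩
    -- `B` contains a nonidentity element
    rcases B.bot_or_exists_ne_one with hb | ⟨i, hiB, hi1⟩
    · exfalso
      rw [hb, Subgroup.relIndex_bot_left, h.card_T] at hi
      omega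
    · rw [Subgroup.mem_center_iff]
      intro g
      have h1 : i * y = y * i := mem_centralizer_iff.mp hy2 i hiB
      exact (step1 i (hB hiB) hi1 y hy1 h1.symm g).symm
  intro x hx g
  rw [hj] at hx
  have := hle hx
  rw [Subgroup.mem_center_iff] at this
  exact (this g).symm

omit h in
/-- Every involution is conjugate into `S`. -/
theorem conj_into_sylow {z : G} (hz : orderOf z = 2) : ∃ g : G, g * z * g⁻¹ ∈ (S : Subgroup G) := by
  haveI : Fact (Nat.Prime 2) := ⟨Nat.prime_two⟩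
  have hp : IsPGroup 2 (zpowers z) :=
    IsPGroup.of_card (n := 1) (by rw [Nat.card_zpowers, hz, pow_one])
  obtain ⟨P, hP⟩ := hp.exists_le_sylow
  obtain ⟨g, hg⟩ := MulAction.exists_smul_eq G P S
  refine ⟨g, ?_⟩
  have hzP : z ∈ (P : Subgroup G) := hP (mem_zpowers z)
  rw [← hg]
  exact Subgroup.smul_mem_pointwise_smul z (MulAut.conj g) (P : Subgroup G) hzP

/-- D3: if `J = G`, `S = T`: `G / O(G)` is simple. -/
theorem quot_simple (hJ : JJ t S = ⊤) (hS : (S : Subgroup G) = TT t S) :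
    IsSimpleGroup (G ⧸ Cfsg.oddCore G) := by
  have hNn : (Cfsg.oddCore G).Normal := inferInstance
  haveI hnt : Nontrivial (G ⧸ Cfsg.oddCore G) := by
    refine ⟨⟨((t : G) : G ⧸ Cfsg.oddCore G), 1, ?_⟩⟩
    intro he
    rw [QuotientGroup.eq_one_iff] at he
    exact not_mem_oddCore h.ord he
  refine ⟨fun Q₀ hQ₀ => ?_⟩
  by_cases hb : Q₀ = ⊥
  · left; exact hb
  right
  set Q := Q₀.comap (QuotientGroup.mk' (Cfsg.oddCore G)) with hQ
  have hQn : Q.Normal := hQ₀.comap _
  have hdvd : 2 ∣ Nat.card Q := by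
    by_contra hnd
    have hcop : (Nat.card Q).Coprime 2 :=
      ((Nat.Prime.coprime_iff_not_dvd Nat.prime_two).mpr hnd).symm
    have hle := Cfsg.Agent.Lib.Core.Basic.le_pPrimeCore hQn hcop
    apply hb
    rw [eq_bot_iff]
    intro q hq
    obtain ⟨x, rfl⟩ := QuotientGroup.mk_surjective q
    have hxQ : x ∈ Q := hq
    rw [mem_bot, QuotientGroup.eq_one_iff]
    exact hle hxQ
  haveI : Fact (Nat.Prime 2) := ⟨Nat.prime_two⟩
  obtain ⟨z, hz⟩ := exists_prime_orderOf_dvd_card' 2 hdvd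
  have hzo : orderOf (z : G) = 2 := by rwa [Subgroup.orderOf_coe]
  obtain ⟨g, hg⟩ := conj_into_sylow (S := S) hzo
  rw [hS] at hg
  have hz1 : (z : G) ≠ 1 := by
    intro he
    rw [he, orderOf_one] at hzo
    omega
  have hk1 : g * (z : G) * g⁻¹ ≠ 1 := by
    intro he
    apply hz1
    have : (z : G) = g⁻¹ * (g * (z : G) * g⁻¹) * g := by group
    rw [this, he]
    group
  have hkQ : g * (z : G) * g⁻¹ ∈ Q := hQn.conj_mem _ z.2 g
  obtain ⟨a, ha⟩ := h.T_conj hg hk1
  have htQ : t ∈ Q := by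
    have h1 := hQn.conj_mem _ hkQ a⁻¹
    rw [ha] at h1
    have e : a⁻¹ * (a * t * a⁻¹) * a⁻¹⁻¹ = t := by group
    rwa [e] at h1
  have hnc : normalClosure ({t} : Set G) ≤ Q :=
    normalClosure_le_normal (by simpa using htQ)
  have htop : Q = ⊤ := top_le_iff.mp (hJ ▸ h.JJ_le_nc.trans hnc)
  rw [eq_top_iff]
  intro q _
  obtain ⟨x, rfl⟩ := QuotientGroup.mk_surjective q
  have hxQ : x ∈ Q := htop ▸ mem_top x
  exact hxQ

omit h in
/-- Listing a four-group. -/
theorem four_list {V : Subgroup G} (hV : Nat.card V = 4) {a b u : G} (ha : a ∈ V) (hb : b ∈ V)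
    (hu : u ∈ V) (ha1 : a ≠ 1) (hb1 : b ≠ 1) (hab : a ≠ b) (hbb : b * b = 1) :
    u = 1 ∨ u = a ∨ u = b ∨ u = a * b := by
  classical
  have h1 : a * b ≠ 1 := by
    intro he
    apply hab
    calc a = a * (b * b) := by rw [hbb, mul_one]
      _ = (a * b) * b := by group
      _ = b := by rw [he, one_mul]
  have h2 : a * b ≠ a := fun he => hb1 (mul_eq_left.mp he)
  have h3 : a * b ≠ b := fun he => ha1 (mul_eq_right.mp he)
  let F : Finset G := {1, a, b, a * b}
  have hFc : F.card = 4 := by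
    have e1 : (1 : G) ∉ ({a, b, a * b} : Finset G) := by
      simp only [Finset.mem_insert, Finset.mem_singleton, not_or]
      exact ⟨ha1.symm, hb1.symm, h1.symm⟩
    have e2 : a ∉ ({b, a * b} : Finset G) := by
      simp only [Finset.mem_insert, Finset.mem_singleton, not_or]
      exact ⟨hab, h2.symm⟩
    have e3 : b ∉ ({a * b} : Finset G) := by
      simp only [Finset.mem_singleton]
      exact h3.symm
    rw [Finset.card_insert_of_notMem e1, Finset.card_insert_of_notMem e2,
      Finset.card_insert_of_notMem e3, Finset.card_singleton]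
  have hsub : ((F : Finset G) : Set G) ⊆ (V : Set G) := by
    intro x hx
    simp only [F, Finset.coe_insert, Finset.coe_singleton, Set.mem_insert_iff,
      Set.mem_singleton_iff] at hx
    rcases hx with rfl | rfl | rfl | rfl
    · exact V.one_mem
    · exact ha
    · exact hb
    · exact V.mul_mem ha hb
  have hV' : (V : Set G).ncard = 4 := by
    rw [← Nat.card_coe_set_eq]; exact hV
  have hF' : ((F : Finset G) : Set G).ncard = 4 := by
    rw [Set.ncard_coe_finset, hFc]
  have heq : ((F : Finset G) : Set G) = (V : Set G) :=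
    Set.eq_of_subset_of_ncard_le hsub (by omega) (Set.toFinite _)
  have hu' : u ∈ ((F : Finset G) : Set G) := heq ▸ hu
  simpa [F] using hu'

/-- With `S = T`, every element of `N(T)` has an odd power in `T`. -/
theorem exists_odd_pow_mem (hS : (S : Subgroup G) = TT t S) {m : G}
    (hm : m ∈ normalizer (TT t S : Set G)) : ∃ b : ℕ, Odd b ∧ m ^ b ∈ TT t S := by
  haveI : Fact (Nat.Prime 2) := ⟨Nat.prime_two⟩
  have hpos : orderOf m ≠ 0 := (orderOf_pos m).ne'
  obtain ⟨a, b, hb, hab⟩ := Nat.exists_eq_two_pow_mul_odd hpos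
  refine ⟨b, hb, ?_⟩
  have hone : (m ^ b) ^ (2 ^ a) = 1 := by
    rw [← pow_mul, mul_comm, ← hab, pow_orderOf_eq_one]
  have hp : IsPGroup 2 (zpowers (m ^ b)) := by
    obtain ⟨k, -, hk⟩ := (Nat.dvd_prime_pow Nat.prime_two).mp (orderOf_dvd_of_pow_eq_one hone)
    exact IsPGroup.of_card (n := k) (by rw [Nat.card_zpowers, hk])
  have h1 : m ^ b ∈ normalizer (((S : Subgroup G)) : Set G) := by
    rw [hS]
    exact (normalizer (TT t S : Set G)).pow_mem hm b
  have h2 := hp.inf_normalizer_sylow S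
  have h3 : m ^ b ∈ zpowers (m ^ b) ⊓ normalizer (S : Set G) :=
    ⟨mem_zpowers _, h1⟩
  rw [h2] at h3
  rw [← hS]
  exact h3.2

/-- With `S = T`, `J = G`: elements of `C(T)` are in `T · O(G)`. -/
theorem cent_decomp (hJ : JJ t S = ⊤) (hS : (S : Subgroup G) = TT t S) {m : G}
    (hm : ∀ x ∈ TT t S, m * x = x * m) : ∃ τ ∈ TT t S, ∃ z ∈ Cfsg.oddCore G, m = τ * z := by
  have hmn : m ∈ normalizer (TT t S : Set G) := by
    rw [mem_normalizer_iff]
    intro x
    constructor
    · intro hx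
      have : m * x * m⁻¹ = x := by rw [hm x hx]; group
      rwa [this]
    · intro hx
      have hxx : x = m⁻¹ * (m * x * m⁻¹) * m := by group
      have h1 := hm _ hx
      have : m * x * m⁻¹ = x := by
        have h2 : m * (m * x * m⁻¹) * m⁻¹ = (m * x * m⁻¹) := by rw [h1]; group
        have h3 : m * (m * x * m⁻¹) = (m * x * m⁻¹) * m := h1
        have h4 : m * x = x * m := by
          have e : m * x = m⁻¹ * (m * (m * x * m⁻¹)) * m := by group
          rw [e, h3]; group
        rw [h4]; group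
      rwa [this] at hx
  obtain ⟨b, hb, hτ⟩ := h.exists_odd_pow_mem hS hmn
  have hττ := h.T_exp _ hτ
  set τ := m ^ b with hτdef
  have hcomm : Commute m τ := (Commute.refl m).pow_right b
  have hzb : (m * τ) ^ b = 1 := by
    rw [hcomm.mul_pow, ← hτdef]
    obtain ⟨r, hr⟩ := hb
    have : τ ^ b = τ := by
      rw [hr, pow_succ, pow_mul, pow_two, hττ, one_pow, one_mul]
    rw [this, hττ]
  have hzodd : Odd (orderOf (m * τ)) := by
    have hd := orderOf_dvd_of_pow_eq_one hzb
    exact Odd.of_dvd_nat hb hd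
  have hzC : ∀ x ∈ TT t S, (m * τ) * x = x * (m * τ) := by
    intro x hx
    have h1 : Commute m x := hm x hx
    have h2 : Commute τ x := h.T_comm τ hτ x hx
    exact Commute.mul_left h1 h2
  have hzcen : ∀ g : G, (m * τ) * g = g * (m * τ) :=
    h.central_of_Ec hJ (fun k hk hk1 => h.odd_Ec hzC hzodd hk hk1)
  have hzN : m * τ ∈ Cfsg.oddCore G := by
    have hn : (zpowers (m * τ)).Normal := by
      refine ⟨fun x hx g => ?_⟩
      obtain ⟨k, rfl⟩ := hx
      refine ⟨k, ?_⟩
      have hc : Commute g (m * τ) := (hzcen g).symm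
      simp only []
      rw [(hc.zpow_right k).eq]
      group
    have hcop : (Nat.card (zpowers (m * τ))).Coprime 2 := by
      rw [Nat.card_zpowers]
      exact Nat.Coprime.symm (Nat.coprime_two_left.mpr hzodd)
    exact Cfsg.Agent.Lib.Core.Basic.le_pPrimeCore hn hcop (mem_zpowers _)
  refine ⟨τ, hτ, m * τ, hzN, ?_⟩
  have : τ * (m * τ) = m * (τ * τ) := by
    rw [← mul_assoc, ← hcomm.eq, mul_assoc]
  rw [this, hττ, mul_one]

/-- An element of `N(T)` commuting with `t` and fixing a nonidentity element of `T ∩ L t`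
centralizes `T`. -/
theorem cent_of_fix (hS : (S : Subgroup G) = TT t S) {m v : G}
    (hm : m ∈ normalizer (TT t S : Set G)) (hmt : m * t = t * m) (hvT : v ∈ TT t S) (hvL : v ∈ L t)
    (hv1 : v ≠ 1) (hfix : m * v * m⁻¹ = v) : ∀ x ∈ TT t S, m * x = x * m := by
  have hσT : ∀ x ∈ TT t S, m * x * m⁻¹ ∈ TT t S := fun x hx => (mem_normalizer_iff.mp hm x).mp hx
  have hvv := h.T_exp v hvT
  have hV : Nat.card ↥(TT t S ⊓ L t) = 4 := h.card_T_L
  -- `σ² = 1` on `T ∩ L t`
  have h2V : ∀ x ∈ TT t S ⊓ L t, m * (m * x * m⁻¹) * m⁻¹ = x := by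
    intro x hx
    by_cases hx1 : x = 1
    · rw [hx1]; group
    by_cases hxv : x = v
    · rw [hxv, hfix, hfix]
    have hxx := h.T_exp x hx.1
    have hu : m * x * m⁻¹ ∈ TT t S ⊓ L t := ⟨hσT x hx.1, L_norm t m hmt x hx.2⟩
    rcases four_list hV ⟨hvT, hvL⟩ hx hu hv1 hx1 (Ne.symm hxv) hxx with h1 | h1 | h1 | h1
    · exfalso
      apply hx1
      have : x = m⁻¹ * (m * x * m⁻¹) * m := by group
      rw [this, h1]; group
    · exfalso
      apply hxv
      have h2 : m * x * m⁻¹ = m * v * m⁻¹ := by rw [h1, hfix]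
      exact mul_left_cancel (mul_right_cancel h2)
    · rw [h1, h1]
    · rw [h1]
      have e : m * (v * x) * m⁻¹ = (m * v * m⁻¹) * (m * x * m⁻¹) := by group
      rw [e, hfix, h1, ← mul_assoc, hvv, one_mul]
  -- `σ² = 1` on `T`
  have h2T : ∀ x ∈ TT t S, Commute (m ^ 2) x := by
    have key : ∀ x ∈ TT t S, m * (m * x * m⁻¹) * m⁻¹ = x := by
      intro x hx
      rcases h.T_cases x hx with h1 | h1
      · exact h2V x ⟨hx, h1⟩
      · have h3 := h2V (t * x) ⟨(TT t S).mul_mem h.t_mem_T hx, h1⟩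
        have e : m * (m * (t * x) * m⁻¹) * m⁻¹
            = (m * (m * t * m⁻¹) * m⁻¹) * (m * (m * x * m⁻¹) * m⁻¹) := by group
        have ht0 : m * t * m⁻¹ = t := by
          rw [hmt]; group
        have ht : m * (m * t * m⁻¹) * m⁻¹ = t := by
          rw [ht0, ht0]
        rw [e, ht] at h3
        exact mul_left_cancel h3
    intro x hx
    have h1 := key x hx
    show m ^ 2 * x = x * m ^ 2
    rw [pow_two]
    calc m * m * x = (m * (m * x * m⁻¹) * m⁻¹) * (m * m) := by group
      _ = x * (m * m) := by rw [h1]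
  obtain ⟨b, ⟨r, hr⟩, hτ⟩ := h.exists_odd_pow_mem hS hm
  intro x hx
  have h1 : Commute (m ^ b) x := h.T_comm _ hτ x hx
  have h2 : m = ((m ^ 2) ^ r)⁻¹ * m ^ b := by
    rw [hr, ← pow_mul, pow_succ]
    group
  have h3 : Commute m x := by
    rw [h2]
    exact Commute.mul_left (((h2T x hx).pow_left r).inv_left) h1
  exact h3

/-- The order-3 element moves a given element of `N(T) ∩ C(t)` into the stabilizer of an element of
`(T ∩ L t)#`. -/
theorem exists_fix {n : G} (hn : n ∈ normalizer (TT t S : Set G)) (hnt : n * t = t * n) :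
    ∃ v ∈ TT t S, v ∈ L t ∧ v ≠ 1 ∧ ∃ w ∈ L t, w ∈ normalizer (TT t S : Set G) ∧ w * t = t * w ∧
      (w * n) * v * (w * n)⁻¹ = v := by
  have ht1 : t ≠ 1 := by
    intro he
    have := h.ord
    rw [he, orderOf_one] at this
    omega
  obtain ⟨y, hyL, hyN, hyt, hy3, hyfix⟩ := h.exists_y h.t_mem_T ht1
  have hV : Nat.card ↥(TT t S ⊓ L t) = 4 := h.card_T_L
  -- a nonidentity element of the four-group
  obtain ⟨v, hvV, hv1⟩ : ∃ v ∈ TT t S ⊓ L t, v ≠ 1 := by
    rcases (TT t S ⊓ L t).bot_or_exists_ne_one with hb | hb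
    · rw [hb] at hV
      simp at hV
    · exact hb
  have hnot_t : ∀ x ∈ L t, x ≠ t := fun x hx he => h.t_not_mem_L (he ▸ hx)
  have hcV : ∀ a : G, a ∈ normalizer (TT t S : Set G) → a * t = t * a → ∀ x ∈ TT t S ⊓ L t,
      a * x * a⁻¹ ∈ TT t S ⊓ L t := fun a ha hat x hx =>
    ⟨(mem_normalizer_iff.mp ha x).mp hx.1, L_norm t a hat x hx.2⟩
  have hne1 : ∀ (a x : G), x ≠ 1 → a * x * a⁻¹ ≠ 1 := by
    intro a x hx he
    apply hx
    have : x = a⁻¹ * (a * x * a⁻¹) * a := by group
    rw [this, he]; group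
  set v₂ := y * v * y⁻¹ with hv₂
  set v₃ := y * v₂ * y⁻¹ with hv₃
  have hv₂V : v₂ ∈ TT t S ⊓ L t := hcV y hyN hyt v hvV
  have hv₃V : v₃ ∈ TT t S ⊓ L t := hcV y hyN hyt v₂ hv₂V
  have hv₂1 : v₂ ≠ 1 := hne1 y v hv1
  have hv₃1 : v₃ ≠ 1 := hne1 y v₂ hv₂1
  have h12 : v ≠ v₂ := (hyfix v hvV.1 hv1 (hnot_t v hvV.2)).symm
  have h23 : v₂ ≠ v₃ := (hyfix v₂ hv₂V.1 hv₂1 (hnot_t v₂ hv₂V.2)).symm
  have hyinv : y * y * y = 1 := by
    have := hy3
    rw [pow_succ, pow_two] at this
    exact this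
  have h13 : v ≠ v₃ := by
    intro he
    apply h12
    -- `v = y² v y⁻²`, conjugating by `y`
    have e : y * (y * v * y⁻¹) * y⁻¹ = v := by rw [← hv₂, ← hv₃]; exact he.symm
    have e2 : y * v * y⁻¹ = y * (y * (y * v * y⁻¹) * y⁻¹) * y⁻¹ := by rw [e]
    have e3 : y * (y * (y * v * y⁻¹) * y⁻¹) * y⁻¹ = (y * y * y) * v * (y * y * y)⁻¹ := by group
    rw [e3, hyinv] at e2
    simp only [inv_one, one_mul, mul_one] at e2
    exact e2.symm
  have hv₂v₂ := h.T_exp v₂ hv₂V.1
  rcases four_list hV hvV hv₂V hv₃V hv1 hv₂1 h12 hv₂v₂ with h1 | h1 | h1 | h1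
  · exact absurd h1 hv₃1
  · exact absurd h1.symm h13
  · exact absurd h1.symm h23
  · -- `v₃ = v v₂`
    have hu := hcV n hn hnt v hvV
    have hinv : y⁻¹ * y⁻¹ = y := by
      calc y⁻¹ * y⁻¹ = y⁻¹ * y⁻¹ * (y * y * y) := by rw [hyinv, mul_one]
        _ = y := by group
    refine ⟨v, hvV.1, hvV.2, hv1, ?_⟩
    rcases four_list hV hvV hv₂V hu hv1 hv₂1 h12 hv₂v₂ with h2 | h2 | h2 | h2
    · exact absurd h2 (hne1 n v hv1)
    · exact ⟨1, (L t).one_mem, (normalizer _).one_mem, by group, by rw [one_mul]; exact h2⟩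
    · refine ⟨y⁻¹, (L t).inv_mem hyL, (normalizer _).inv_mem hyN, ?_, ?_⟩
      · calc y⁻¹ * t = y⁻¹ * (t * y) * y⁻¹ := by group
          _ = y⁻¹ * (y * t) * y⁻¹ := by rw [hyt]
          _ = t * y⁻¹ := by group
      · have e : (y⁻¹ * n) * v * (y⁻¹ * n)⁻¹ = y⁻¹ * (n * v * n⁻¹) * y := by group
        rw [e, h2, hv₂]
        group
    · refine ⟨y, hyL, hyN, hyt, ?_⟩
      have e : (y * n) * v * (y * n)⁻¹ = y * (n * v * n⁻¹) * y⁻¹ := by group
      rw [e, h2, ← h1, hv₃, hv₂]
      have e2 : y * (y * (y * v * y⁻¹) * y⁻¹) * y⁻¹ = (y * y * y) * v * (y * y * y)⁻¹ := by group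
      rw [e2, hyinv]
      group

/-- `C(t) = W · O(G)`. -/
theorem cent_t_decomp (hJ : JJ t S = ⊤) (hS : (S : Subgroup G) = TT t S) {c : G}
    (hc : c * t = t * c) : ∃ w ∈ W t, ∃ z ∈ Cfsg.oddCore G, c = w * z := by
  have ht1 : t ≠ 1 := by
    intro he
    have := h.ord
    rw [he, orderOf_one] at this
    omega
  obtain ⟨l, hl, n, hn, rfl, hnt⟩ := h.frat h.t_mem_T ht1 hc
  obtain ⟨v, hvT, hvL, hv1, w, hwL, hwN, hwt, hfix⟩ := h.exists_fix hn hnt
  have hmN : w * n ∈ normalizer (TT t S : Set G) := (normalizer _).mul_mem hwN hn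
  have hmt : (w * n) * t = t * (w * n) := by
    rw [mul_assoc, hnt, ← mul_assoc, hwt, mul_assoc]
  have hmC := h.cent_of_fix hS hmN hmt hvT hvL hv1 hfix
  obtain ⟨τ, hτ, z, hz, hm⟩ := h.cent_decomp hJ hS hmC
  refine ⟨l * w⁻¹ * τ, (W t).mul_mem ((W t).mul_mem (L_le_W t hl) ((W t).inv_mem (L_le_W t hwL)))
    hτ.2, z, hz, ?_⟩
  have : n = w⁻¹ * (τ * z) := by rw [← hm]; group
  rw [this]; group

/-- `W ∩ O(G) = 1`. -/
theorem W_inf_oddCore (hJ : JJ t S = ⊤) (hS : (S : Subgroup G) = TT t S) {w : G} (hw : w ∈ W t)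
    (hwN : w ∈ Cfsg.oddCore G) : w = 1 := by
  have ht1 : t ≠ 1 := by
    intro he
    have := h.ord
    rw [he, orderOf_one] at this
    omega
  have hcen := h.oddCore_central hJ hS w hwN
  rcases h.W_cases w hw with h1 | h1
  · exact h.central_trivial_aux h.t_mem_T ht1 h1 (fun l _ => hcen l)
  · exfalso
    have h2 : t * w = 1 := by
      refine h.central_trivial_aux h.t_mem_T ht1 h1 (fun l hl => ?_)
      have h3 : Commute t l := (h.L_comm l hl).symm
      have h4 : Commute w l := hcen l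
      exact Commute.mul_left h3 h4
    have h3 : w = t := by
      have h4 := h.t_sq
      calc w = (t * t) * w := by rw [h4, one_mul]
        _ = t * (t * w) := by group
        _ = t := by rw [h2, mul_one]
    exact not_mem_oddCore h.ord (h3 ▸ hwN)

/-- Commuting with `t` modulo `O(G)` means commuting with `t`. -/
theorem comm_of_quot (hJ : JJ t S = ⊤) (hS : (S : Subgroup G) = TT t S) {c : G}
    (hc : c * t * c⁻¹ * t⁻¹ ∈ Cfsg.oddCore G) : c * t = t * c := by
  have hcen := h.oddCore_central hJ hS _ hc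
  set z := c * t * c⁻¹ * t⁻¹ with hz
  have ht := h.t_sq
  have e1 : c * t * c⁻¹ = z * t := by rw [hz]; group
  have e2 : (z * t) * (z * t) = z * z := by
    calc (z * t) * (z * t) = z * (t * z) * t := by group
      _ = z * (z * t) * t := by rw [hcen t]
      _ = z * z * (t * t) := by group
      _ = z * z := by rw [ht, mul_one]
  have e3 : (c * t * c⁻¹) * (c * t * c⁻¹) = 1 := by
    calc (c * t * c⁻¹) * (c * t * c⁻¹) = c * (t * t) * c⁻¹ := by group
      _ = 1 := by rw [ht]; group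
  rw [e1, e2] at e3
  have hz1 : z = 1 := eq_one_of_mem_oddCore_sq hc e3
  have e4 : c * t * c⁻¹ = t := by rw [e1, hz1, one_mul]
  calc c * t = (c * t * c⁻¹) * c := by group
    _ = t * c := by rw [e4]

/-- D4: `G / O(G) ≅ J₁`. -/
theorem quot_J1 (hJ : JJ t S = ⊤) (hS : (S : Subgroup G) = TT t S) :
    Cfsg.Spor.IsoJ1 (G ⧸ Cfsg.oddCore G) := by
  haveI := h.quot_simple hJ hS
  haveI : Fact (Nat.Prime 2) := ⟨Nat.prime_two⟩
  have hNn : (Cfsg.oddCore G).Normal := inferInstance
  let π : G →* G ⧸ Cfsg.oddCore G := QuotientGroup.mk' (Cfsg.oddCore G)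
  have hπ : Function.Surjective π := QuotientGroup.mk'_surjective _
  have hπ1 : ∀ x : G, π x = 1 ↔ x ∈ Cfsg.oddCore G := fun x => QuotientGroup.eq_one_iff x
  let Sb : Sylow 2 (G ⧸ Cfsg.oddCore G) := S.mapSurjective hπ
  have hSb : (Sb : Subgroup (G ⧸ Cfsg.oddCore G)) = (S : Subgroup G).map π :=
    Sylow.coe_mapSurjective hπ S
  have hinj : Function.Injective (π.comp (S : Subgroup G).subtype) := by
    rw [injective_iff_map_eq_one]
    rintro ⟨a, ha⟩ h1
    have h2 : a ∈ Cfsg.oddCore G := (hπ1 a).mp h1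
    have h3 : a ∈ TT t S := hS ▸ ha
    exact Subtype.ext (eq_one_of_mem_oddCore_sq h2 (h.T_exp a h3))
  have hcard : Nat.card Sb = 8 := by
    have h1 : Nat.card ↥(Sb : Subgroup (G ⧸ Cfsg.oddCore G)) = 8 := by
      rw [hSb]
      have e := Nat.card_congr (MonoidHom.ofInjective hinj).toEquiv
      have e2 : (π.comp (S : Subgroup G).subtype).range = (S : Subgroup G).map π := by
        rw [MonoidHom.range_comp, Subgroup.range_subtype]
      rw [e2] at e
      rw [← e, hS]
      exact h.card_T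
    exact h1
  have hcomm : IsMulCommutative (Sb : Subgroup (G ⧸ Cfsg.oddCore G)) := by
    refine ⟨⟨fun a b => Subtype.ext ?_⟩⟩
    obtain ⟨a, ha⟩ := a
    obtain ⟨b, hb⟩ := b
    rw [hSb] at ha hb
    obtain ⟨a, ha', rfl⟩ := ha
    obtain ⟨b, hb', rfl⟩ := hb
    show π a * π b = π b * π a
    rw [← map_mul, ← map_mul, h.T_comm a (hS ▸ ha') b (hS ▸ hb')]
  have htb : orderOf (π t) = 2 := by
    apply orderOf_eq_prime
    · rw [pow_two, ← map_mul, h.t_sq, map_one]
    · intro he
      exact not_mem_oddCore h.ord ((hπ1 t).mp he)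
  have hcentr : ∀ w : W t, π (w : G) ∈ centralizer ({π t} : Set (G ⧸ Cfsg.oddCore G)) := by
    intro w
    rw [mem_centralizer_singleton_iff, ← map_mul, ← map_mul, t_comm_W t w w.2]
  let φ : W t →* centralizer ({π t} : Set (G ⧸ Cfsg.oddCore G)) :=
    (π.comp (W t).subtype).codRestrict _ hcentr
  have hφ : Function.Bijective φ := by
    constructor
    · rw [injective_iff_map_eq_one]
      rintro ⟨w, hw⟩ h1
      have h2 : π w = 1 := congrArg Subtype.val h1
      exact Subtype.ext (h.W_inf_oddCore hJ hS hw ((hπ1 w).mp h2))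
    · rintro ⟨q, hq⟩
      obtain ⟨c, rfl⟩ := hπ q
      have h1 : π c * π t = π t * π c := by
        have := mem_centralizer_singleton_iff.mp hq
        exact this
      have h2 : c * t * c⁻¹ * t⁻¹ ∈ Cfsg.oddCore G := by
        rw [← hπ1]
        simp only [map_mul, map_inv]
        rw [h1]
        group
      have h3 := h.comm_of_quot hJ hS h2
      obtain ⟨w, hw, z, hz, rfl⟩ := h.cent_t_decomp hJ hS h3
      refine ⟨⟨w, hw⟩, Subtype.ext ?_⟩
      show π w = π (w * z)
      rw [map_mul, (hπ1 z).mpr hz, mul_one]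
  obtain ⟨eW⟩ := h.iso
  exact Cfsg.Agent.S1644.result Sb hcomm hcard (π t) htb ((MulEquiv.ofBijective φ hφ).symm.trans eW)

/-- `G` is perfect when `J = G`. -/
theorem perfect_of (hJ : JJ t S = ⊤) : commutator G = ⊤ := by
  rw [eq_top_iff, ← hJ]
  apply iSup_le
  rintro ⟨k, hk, hk1⟩
  obtain ⟨e⟩ := (h.hyp_T hk hk1).1.L_iso
  have hp := A5F.perfect e
  have hthis : ⁅L k, L k⁆ = L k := by
    rw [← Subgroup.map_subtype_commutator, hp, ← MonoidHom.range_eq_map, Subgroup.range_subtype]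
  show L k ≤ commutator G
  rw [← hthis, commutator_def]
  exact Subgroup.commutator_mono le_top le_top

omit h in
set_option maxRecDepth 100000 in
/-- Squares dividing `|J₁|`. -/
theorem sq_dvd_card_J : ∀ p < 420, p * p ∣ 175560 → p ≤ 2 := by decide

/-- D5: `O(G) = 1` (central in a perfect group with cyclic Sylow quotient: transfer). -/
theorem oddCore_bot (hJ : JJ t S = ⊤) (hS : (S : Subgroup G) = TT t S)
    (hq : Cfsg.Spor.IsoJ1 (G ⧸ Cfsg.oddCore G)) : Cfsg.oddCore G = ⊥ := by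
  classical
  by_contra hne
  have hcentral := h.oddCore_central hJ hS
  obtain ⟨x', hx', hx'1⟩ := ((Cfsg.oddCore G).bot_or_exists_ne_one).resolve_left hne
  obtain ⟨p, hp, hpd⟩ := Nat.exists_prime_and_dvd (orderOf_eq_one_iff.not.mpr hx'1)
  haveI : Fact p.Prime := ⟨hp⟩
  have hxord : orderOf (x' ^ (orderOf x' / p)) = p :=
    orderOf_pow_orderOf_div (orderOf_pos x').ne' hpd
  set x := x' ^ (orderOf x' / p) with hx
  have hxN : x ∈ Cfsg.oddCore G := (Cfsg.oddCore G).pow_mem hx' _
  have hp2 : p ≠ 2 := by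
    rintro rfl
    exact not_mem_oddCore hxord hxN
  have hxc : ∀ g : G, x * g = g * x := hcentral x hxN
  obtain ⟨P⟩ : Nonempty (Sylow p G) := inferInstance
  -- `x ∈ P`
  have hxP : x ∈ (P : Subgroup G) := by
    have hpg : IsPGroup p (zpowers x) :=
      IsPGroup.of_card (n := 1) (by rw [Nat.card_zpowers, hxord, pow_one])
    have h2 := hpg.inf_normalizer_sylow P
    have h3 : x ∈ zpowers x ⊓ normalizer (P : Set G) := by
      refine Subgroup.mem_inf.mpr ⟨mem_zpowers x, ?_⟩
      show x ∈ normalizer (((P : Subgroup G)) : Set G)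
      rw [mem_normalizer_iff]
      intro y
      have : x * y * x⁻¹ = y := by rw [hxc y]; group
      rw [this]
    rw [h2] at h3
    exact h3.2
  -- `P` is abelian
  let f : (P : Subgroup G) →* G ⧸ Cfsg.oddCore G :=
    (QuotientGroup.mk' (Cfsg.oddCore G)).comp (P : Subgroup G).subtype
  have hRcard : Nat.card f.range ∣ p := by
    have h1 : Nat.card f.range ∣ Nat.card (G ⧸ Cfsg.oddCore G) := Subgroup.card_subgroup_dvd_card _
    have h2 : Nat.card (G ⧸ Cfsg.oddCore G) = 175560 := by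
      obtain ⟨e⟩ := hq
      rw [Nat.card_congr e.toEquiv]
      exact Cfsg.Agent.Lib.J1Rec.JSide.card_J
    have h3 : Nat.card f.range ∣ Nat.card (P : Subgroup G) := by
      have := Subgroup.card_range_dvd f
      exact this
    obtain ⟨n, hn⟩ := IsPGroup.iff_card.mp P.isPGroup'
    rw [hn] at h3
    obtain ⟨j, hj, hjc⟩ := (Nat.dvd_prime_pow hp).mp h3
    rw [h2, hjc] at h1
    rw [hjc]
    rcases j with _ | _ | j
    · simp
    · simp
    · exfalso
      have h4 : p * p ∣ 175560 := by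
        refine dvd_trans ?_ h1
        exact ⟨p ^ j, by ring⟩
      have h5 : p * p ≤ 175560 := Nat.le_of_dvd (by norm_num) h4
      have h6 : p < 420 := by nlinarith
      have h7 := sq_dvd_card_J p h6 h4
      have h8 := hp.two_le
      omega
  haveI hcyc : IsCyclic f.range := isCyclic_of_card_dvd_prime hRcard
  have hker : f.rangeRestrict.ker ≤ Subgroup.center (P : Subgroup G) := by
    rw [MonoidHom.ker_rangeRestrict]
    rintro ⟨a, ha⟩ h1
    have h2 : a ∈ Cfsg.oddCore G := (QuotientGroup.eq_one_iff a).mp h1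
    rw [Subgroup.mem_center_iff]
    rintro ⟨b, hb⟩
    exact Subtype.ext (hcentral a h2 b).symm
  have hcomm : ∀ a b : (P : Subgroup G), a * b = b * a :=
    (f.rangeRestrict.isMulCommutative_of_isCyclic_of_ker_le_center hker).is_comm.comm
  letI : CommGroup (P : Subgroup G) := { (inferInstance : Group (P : Subgroup G)) with mul_comm := hcomm }
  haveI : (P : Subgroup G).FiniteIndex := inferInstance
  let V : G →* (P : Subgroup G) := MonoidHom.transfer (MonoidHom.id (P : Subgroup G))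
  have hV1 : V x = 1 := by
    have h1 : x ∈ commutator G := by rw [h.perfect_of hJ]; exact mem_top x
    exact Abelianization.commutator_subset_ker V h1
  have hV2 := MonoidHom.transfer_eq_pow (MonoidHom.id (P : Subgroup G)) x (by
    intro k g₀ _
    have h1 : x ^ k * g₀ = g₀ * x ^ k := ((Commute.pow_left (hxc g₀) k)).eq
    rw [mul_assoc, h1]
    group)
  have hpow : x ^ (P : Subgroup G).index = 1 := by
    have h1 : V x = MonoidHom.id (P : Subgroup G) _ := hV2
    rw [hV1] at h1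
    exact (congrArg Subtype.val h1).symm
  have hd := orderOf_dvd_of_pow_eq_one hpow
  rw [hxord] at hd
  exact P.not_dvd_index hd

/-- Case 2. -/
theorem case2 (hJ : JJ t S = ⊤)
    (hnz : ∀ x : G, orderOf x = 2 → centralizer ({x} : Set G) ≠ ⊤) :
    Cfsg.Spor.IsoJ1 ↥(normalClosure ({t} : Set G)) := by
  have hS := h.S_eq_T_of_JJ hJ hnz
  have hq := h.quot_J1 hJ hS
  have hbot := h.oddCore_bot hJ hS hq
  have htop : normalClosure ({t} : Set G) = ⊤ := top_le_iff.mp (hJ ▸ h.JJ_le_nc)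
  obtain ⟨e⟩ := hq
  have e2 : G ⧸ Cfsg.oddCore G ≃* G :=
    (QuotientGroup.quotientMulEquivOfEq hbot).trans QuotientGroup.quotientBot
  exact ⟨(MulEquiv.subgroupCongr htop).trans (Subgroup.topEquiv.trans (e2.symm.trans e))⟩

end Hyp

end Cfsg.Agent.Lib.WC
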