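import Cfsg.Agent.Lib.WC.TFacts
import Cfsg.Agent.Lib.WC.A5F

/-!
# The centralizer of `T` and its action on the `L k`.
-/

set_option autoImplicit false

namespace Cfsg.Agent.Lib.WC

open Subgroup
open scoped Pointwise

universe u

variable {G : Type u} [Group G] [Finite G] {t : G} {S : Sylow 2 G}

/-- A finite group: conjugation mapping a subgroup into itself normalizes it. -/
theorem conj_le_mem_norm {H : Subgroup G} {n : G} (hn : ∀ x ∈ H, n * x * n⁻¹ ∈ H) :
    n ∈ normalizer (H : Set G) := by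
  rw [Subgroup.mem_normalizer_iff]
  intro x
  constructor
  · exact hn x
  · intro hx
    obtain ⟨m, hm, hnm⟩ := isOfFinOrder_iff_pow_eq_one.1 (isOfFinOrder_of_finite n)
    have h1 : ∀ (j : ℕ) (y : G), y ∈ H → n ^ j * y * (n ^ j)⁻¹ ∈ H := by
      intro j
      induction j with
      | zero => intro y hy; simpa using hy
      | succ j ih =>
        intro y hy
        have h2 := ih _ (hn y hy)
        have e : n ^ (j + 1) * y * (n ^ (j + 1))⁻¹ = n ^ j * (n * y * n⁻¹) * (n ^ j)⁻¹ := by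
          rw [pow_succ]
          group
        rwa [e]
    have h2 := h1 (m - 1) _ hx
    have h3 : n ^ (m - 1) * n = 1 := by
      rw [← pow_succ, Nat.sub_add_cancel hm, hnm]
    have e : n ^ (m - 1) * (n * x * n⁻¹) * (n ^ (m - 1))⁻¹ = x := by
      have h4 : n ^ (m - 1) = n⁻¹ := eq_inv_of_mul_eq_one_left h3
      rw [h4]
      group
    rwa [e] at h2

namespace Hyp

variable (h : Hyp t S)
include h

/-- `Ec` is multiplicative. -/
theorem Ec_mul_aux {a b k : G} (ha : Ec a k) (hb : Ec b k) : Ec (a * b) k := by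
  intro l hl
  rw [mul_assoc, hb l hl, ← mul_assoc, ha l hl, mul_assoc]

/-- An element of `L k` (or anything) commuting with `L k` and lying in `L k` is trivial. -/
theorem central_trivial_aux {k : G} (hk : k ∈ TT t S) (h1 : k ≠ 1) {x : G} (hx : x ∈ L k)
    (hc : Ec x k) : x = 1 := by
  obtain ⟨e⟩ := (h.hyp_T hk h1).1.L_iso
  have h2 : (⟨x, hx⟩ : L k) = 1 := by
    apply A5F.center_triv e
    rintro ⟨y, hy⟩
    exact Subtype.ext (hc y hy)
  exact congrArg Subtype.val h2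

/-- For `k ∈ T#`, `T ∩ L k` has order 4. -/
theorem card_T_Lk {k : G} (hk : k ∈ TT t S) (h1 : k ≠ 1) : Nat.card ↥(TT t S ⊓ L k) = 4 := by 
  obtain ⟨h2, h3⟩ := h.hyp_T hk h1
  have := h2.card_T_L
  rwa [h3] at this

/-- `T = ⟨k⟩ × (T ∩ L k)`. -/
theorem T_cases_k {k : G} (hk : k ∈ TT t S) (h1 : k ≠ 1) {x : G} (hx : x ∈ TT t S) :
    x ∈ L k ∨ k * x ∈ L k := by 
  obtain ⟨h2, h3⟩ := h.hyp_T hk h1
  exact h2.T_cases x (h3 ▸ hx)

/-- An element centralizing `T` acts on `L k` as an element of `T ∩ L k`. -/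
theorem exists_v {k : G} (hk : k ∈ TT t S) (h1 : k ≠ 1) {c : G} (hc : ∀ x ∈ TT t S, c * x = x * c) :
    ∃ v ∈ TT t S ⊓ L k, Ec (c * v) k := by 
  classical
  obtain ⟨h2, h3⟩ := h.hyp_T hk h1
  obtain ⟨e⟩ := h2.L_iso
  have hck : c * k = k * c := hc k hk
  have hnorm := L_norm k c hck
  -- conjugation by `c` on `L k`
  let σ : ↥(L k) ≃* ↥(L k) :=
    { toFun := fun l => ⟨c * l * c⁻¹, hnorm l l.2⟩
      invFun := fun l => ⟨c⁻¹ * l * c, by
        have := L_norm k c⁻¹ (by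
          calc c⁻¹ * k = c⁻¹ * (k * c) * c⁻¹ := by group
            _ = c⁻¹ * (c * k) * c⁻¹ := by rw [hck]
            _ = k * c⁻¹ := by group) l l.2
        simpa using this⟩
      left_inv := fun l => Subtype.ext (by simp [mul_assoc])
      right_inv := fun l => Subtype.ext (by simp [mul_assoc])
      map_mul' := fun a b => Subtype.ext (by simp [mul_assoc]) }
  have hσ : ∀ l : ↥(L k), ((σ l : ↥(L k)) : G) = c * l * c⁻¹ := fun _ => rfl
  have hV : Nat.card ↥((TT t S).subgroupOf (L k)) = 4 := by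
    rw [← h.card_T_Lk hk h1, ← Subgroup.inf_subgroupOf_right]
    exact Nat.card_congr (Subgroup.subgroupOfEquivOfLe (inf_le_right : TT t S ⊓ L k ≤ L k)).toEquiv
  obtain ⟨a, ha, hal⟩ := A5F.aut_four e hV σ (by
    intro v hv
    apply Subtype.ext
    rw [hσ]
    have := hc _ (Subgroup.mem_subgroupOf.1 hv)
    rw [this]
    group)
  have haT : (a : G) ∈ TT t S := Subgroup.mem_subgroupOf.1 ha
  have haa : (a : G) * a = 1 := h.T_exp _ haT
  refine ⟨a, ⟨haT, a.2⟩, ?_⟩
  intro l hl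
  have h4 : c * (a * l * (a : G)⁻¹) * c⁻¹ = a * (a * l * (a : G)⁻¹) * (a : G)⁻¹ := by
    have hm : (a : G) * l * (a : G)⁻¹ ∈ L k :=
      (L k).mul_mem ((L k).mul_mem a.2 hl) ((L k).inv_mem a.2)
    have := congrArg Subtype.val (hal ⟨_, hm⟩)
    simpa [hσ] using this
  have hinv : (a : G)⁻¹ = a := inv_eq_of_mul_eq_one_left haa
  rw [hinv] at h4
  have h5 : (a : G) * (a * l * a) * a = l := by
    calc (a : G) * (a * l * a) * a = (a * a) * l * (a * a) := by group
      _ = l := by rw [haa]; group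
  rw [h5] at h4
  calc c * a * l = c * (a * l * a) * c⁻¹ * c * a := by
        calc c * a * l = c * (a * l * (a * a)) := by rw [haa]; group
          _ = c * (a * l * a) * c⁻¹ * c * a := by group
    _ = l * (c * a) := by rw [h4]; group

/-- The elements of `T` centralizing `L k`. -/
theorem Ec_T {k : G} (hk : k ∈ TT t S) (h1 : k ≠ 1) {τ : G} (hτ : τ ∈ TT t S) :
    Ec τ k ↔ τ = 1 ∨ τ = k := by 
  obtain ⟨h2, h3⟩ := h.hyp_T hk h1
  have hkk : k * k = 1 := h.T_exp k hk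
  have hkEc : Ec k k := fun l hl => (h2.L_comm l hl).symm
  constructor
  · intro hE
    rcases h.T_cases_k hk h1 hτ with h4 | h4
    · exact Or.inl (h.central_trivial_aux hk h1 h4 hE)
    · right
      have h5 := h.central_trivial_aux hk h1 h4 (h.Ec_mul_aux hkEc hE)
      have h6 : k⁻¹ = k := inv_eq_of_mul_eq_one_left hkk
      have h7 := eq_inv_of_mul_eq_one_right h5
      rw [h7, h6]
  · rintro (rfl | rfl)
    · intro l _
      simp
    · exact hkEc

/-- If `s` centralizes `T` and `s² ∈ T` then `s² = 1`. -/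
theorem sq_one {s : G} (hs : ∀ x ∈ TT t S, s * x = x * s) (hsq : s * s ∈ TT t S) : s * s = 1 := by 
  by_contra hne
  -- a `k ∈ T#` different from `s²`
  obtain ⟨k, hk, hk1, hks⟩ : ∃ k ∈ TT t S, k ≠ 1 ∧ k ≠ s * s := by
    by_contra hno
    push_neg at hno
    have h1 : ((TT t S : Subgroup G) : Set G) ⊆ {1, s * s} := by
      intro x hx
      by_cases hx1 : x = 1
      · exact Or.inl hx1
      · exact Or.inr (hno x hx hx1)
    have h2 := Set.ncard_le_ncard h1 (Set.toFinite _)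
    have h3 : ((TT t S : Subgroup G) : Set G).ncard = 8 := h.card_T
    have h4 : ({1, s * s} : Set G).ncard ≤ 2 := Set.ncard_insert_le _ _ |>.trans (by simp)
    omega
  obtain ⟨v, ⟨hvT, hvL⟩, hE⟩ := h.exists_v hk hk1 hs
  have hvv : v * v = 1 := h.T_exp v hvT
  have hsv : s * v = v * s := hs v hvT
  have h1 : Ec (s * s) k := by
    have h2 : s * s = (s * v) * (s * v) := by
      calc s * s = s * (v * v) * s := by rw [hvv]; group
        _ = s * v * (v * s) := by group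
        _ = s * v * (s * v) := by rw [hsv]
    rw [h2]
    exact h.Ec_mul_aux hE hE
  rcases (h.Ec_T hk hk1 hsq).1 h1 with h2 | h2
  · exact hne h2
  · exact hks h2.symm

/-- If `S ≠ T` there is an involution in `S` outside `T`. -/
theorem exists_inv (hne : (S : Subgroup G) ≠ TT t S) :
    ∃ x ∈ (S : Subgroup G), orderOf x = 2 ∧ x ∉ TT t S := by 
  classical
  have hle : TT t S ≤ (S : Subgroup G) := inf_le_left
  obtain ⟨s, hs, hsT⟩ : ∃ s ∈ (S : Subgroup G), s ∉ TT t S := by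
    by_contra hno
    push_neg at hno
    exact hne (le_antisymm hno hle)
  obtain ⟨k, hk⟩ := S.isPGroup' ⟨s, hs⟩
  have hk' : s ^ 2 ^ k = 1 := by
    simpa using congrArg Subtype.val hk
  have hex : ∃ j, s ^ 2 ^ j ∈ TT t S := ⟨k, by rw [hk']; exact (TT t S).one_mem⟩
  let j := Nat.find hex
  have hj : s ^ 2 ^ j ∈ TT t S := Nat.find_spec hex
  have hj0 : j ≠ 0 := by
    intro h0
    rw [h0] at hj
    simp at hj
    exact hsT hj
  obtain ⟨i, hi⟩ := Nat.exists_eq_succ_of_ne_zero hj0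
  have hni : s ^ 2 ^ i ∉ TT t S := Nat.find_min hex (by omega : i < j)
  set y := s ^ 2 ^ i with hy
  have hyS : y ∈ (S : Subgroup G) := (S : Subgroup G).pow_mem hs _
  have hyy : y * y ∈ TT t S := by
    have e : y * y = s ^ 2 ^ j := by
      rw [hi, hy, ← pow_add, pow_succ]
      congr 1
      ring
    rw [e]
    exact hj
  have hy2 := h.sq_one (s := y) (fun x hx => h.T_central x hx y hyS) hyy
  refine ⟨y, hyS, ?_, hni⟩
  apply orderOf_eq_prime
  · rw [pow_two]
    exact hy2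
  · intro h0
    exact hni (h0 ▸ (TT t S).one_mem)

/-- Frattini: `C(k) = L k · N_{C(k)}(T)`. -/
theorem frat {k : G} (hk : k ∈ TT t S) (h1 : k ≠ 1) {c : G} (hc : c * k = k * c) :
    ∃ l ∈ L k, ∃ n ∈ normalizer (TT t S : Set G), c = l * n ∧ n * k = k * n := by 
  classical
  obtain ⟨h2, h3⟩ := h.hyp_T hk h1
  obtain ⟨e⟩ := h2.L_iso
  haveI : Fact (Nat.Prime 2) := ⟨Nat.prime_two⟩
  have hnorm := L_norm k c hc
  have hcinv : c⁻¹ * k = k * c⁻¹ := by
    calc c⁻¹ * k = c⁻¹ * (k * c) * c⁻¹ := by group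
      _ = c⁻¹ * (c * k) * c⁻¹ := by rw [hc]
      _ = k * c⁻¹ := by group
  have hnorm' := L_norm k c⁻¹ hcinv
  -- `V` and its image as subgroups of `L k`
  set V : Subgroup ↥(L k) := (TT t S).subgroupOf (L k) with hVdef
  have hVc : Nat.card V = 4 := by
    rw [hVdef, ← h.card_T_Lk hk h1, ← Subgroup.inf_subgroupOf_right]
    exact Nat.card_congr (Subgroup.subgroupOfEquivOfLe (inf_le_right : TT t S ⊓ L k ≤ L k)).toEquiv
  let σ : ↥(L k) ≃* ↥(L k) :=
    { toFun := fun l => ⟨c * l * c⁻¹, hnorm l l.2⟩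
      invFun := fun l => ⟨c⁻¹ * l * c, by
        have := hnorm' l l.2
        simpa using this⟩
      left_inv := fun l => Subtype.ext (by simp [mul_assoc])
      right_inv := fun l => Subtype.ext (by simp [mul_assoc])
      map_mul' := fun a b => Subtype.ext (by simp [mul_assoc]) }
  have hLcard : Nat.card ↥(L k) = 60 := A5F.card_eq e
  -- a subgroup of order 4 of `L k` is Sylow
  have hsyl : ∀ W : Subgroup ↥(L k), Nat.card W = 4 → ∃ P : Sylow 2 ↥(L k), (P : Subgroup ↥(L k)) = W := by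
    intro W hW
    have hp : IsPGroup 2 W := IsPGroup.of_card (n := 2) (by rw [hW]; norm_num)
    obtain ⟨P, hP⟩ := hp.exists_le_sylow
    refine ⟨P, ?_⟩
    obtain ⟨a, ha⟩ := IsPGroup.iff_card.1 P.isPGroup'
    have h4 : 2 ^ a ∣ 60 := by
      rw [← ha, ← hLcard]
      exact Subgroup.card_subgroup_dvd_card _
    have h5 : a ≤ 2 := by
      by_contra h6
      have h7 : 2 ^ 3 ∣ 2 ^ a := pow_dvd_pow 2 (by omega)
      have h8 := h7.trans h4
      norm_num at h8
    have h9 : 2 ^ a ≤ 2 ^ 2 := Nat.pow_le_pow_right (by norm_num) h5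
    exact (Subgroup.eq_of_le_of_card_ge hP (by rw [hW, ha]; simpa using h9)).symm
  obtain ⟨P₁, hP₁⟩ := hsyl V hVc
  obtain ⟨P₂, hP₂⟩ := hsyl (V.map σ.toMonoidHom) (by
    rw [Subgroup.card_map_of_injective σ.injective, hVc])
  obtain ⟨g, hg⟩ := MulAction.exists_smul_eq ↥(L k) P₁ P₂
  have hsm : MulAut.conj g • V = V.map σ.toMonoidHom := by
    have h4 := congrArg (fun P : Sylow 2 ↥(L k) => (P : Subgroup ↥(L k))) hg
    simp only [Sylow.coe_subgroup_smul] at h4
    rw [hP₁, hP₂] at h4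
    exact h4
  have hg' : ∀ x ∈ TT t S, x ∈ L k → (g : G)⁻¹ * (c * x * c⁻¹) * g ∈ TT t S := by
    intro x hxT hxL
    have hv : (⟨x, hxL⟩ : ↥(L k)) ∈ V := Subgroup.mem_subgroupOf.2 hxT
    have h5 : σ ⟨x, hxL⟩ ∈ V.map σ.toMonoidHom := ⟨_, hv, rfl⟩
    rw [← hsm] at h5
    obtain ⟨u, hu, hue⟩ := (Subgroup.mem_smul_pointwise_iff_exists _ _ _).1 h5
    have h6 : (g : G) * (u : G) * (g : G)⁻¹ = c * x * c⁻¹ := congrArg Subtype.val hue
    have h7 : (u : G) ∈ TT t S := Subgroup.mem_subgroupOf.1 hu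
    rw [← h6]
    have e8 : (g : G)⁻¹ * ((g : G) * (u : G) * (g : G)⁻¹) * g = u := by group
    rwa [e8]
  have hgk : (g : G) * k = k * g := h2.L_comm g g.2
  have hgik : (g : G)⁻¹ * k = k * (g : G)⁻¹ := by
    calc (g : G)⁻¹ * k = (g : G)⁻¹ * (k * g) * (g : G)⁻¹ := by group
      _ = (g : G)⁻¹ * (g * k) * (g : G)⁻¹ := by rw [hgk]
      _ = k * (g : G)⁻¹ := by group
  have hn : ((g : G)⁻¹ * c) * k = k * ((g : G)⁻¹ * c) := by
    rw [mul_assoc, hc, ← mul_assoc, hgik, mul_assoc]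
  refine ⟨g, g.2, (g : G)⁻¹ * c, conj_le_mem_norm ?_, by group, hn⟩
  intro x hx
  have hform : ∀ y : G, ((g : G)⁻¹ * c) * y * ((g : G)⁻¹ * c)⁻¹ = (g : G)⁻¹ * (c * y * c⁻¹) * g := by
    intro y
    group
  rw [hform]
  rcases h.T_cases_k hk h1 hx with h4 | h4
  · exact hg' x hx h4
  · have h5 := hg' (k * x) ((TT t S).mul_mem hk hx) h4
    have e : (g : G)⁻¹ * (c * (k * x) * c⁻¹) * g = k * ((g : G)⁻¹ * (c * x * c⁻¹) * g) := by
      have hci : c⁻¹ * k = k * c⁻¹ := hcinv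
      calc (g : G)⁻¹ * (c * (k * x) * c⁻¹) * g = (g : G)⁻¹ * ((c * k) * x * c⁻¹) * g := by group
        _ = ((g : G)⁻¹ * k) * (c * x * c⁻¹) * g := by rw [hc]; group
        _ = k * ((g : G)⁻¹ * (c * x * c⁻¹) * g) := by rw [hgik]; group
    rw [e] at h5
    have h6 := (TT t S).mul_mem hk h5
    have hkk : k * k = 1 := h.T_exp k hk
    have e2 : k * (k * ((g : G)⁻¹ * (c * x * c⁻¹) * g)) = (g : G)⁻¹ * (c * x * c⁻¹) * g := by
      rw [← mul_assoc, hkk, one_mul]
    rwa [e2] at h6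

end Hyp

end Cfsg.Agent.Lib.WC
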