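import Mathlib
import Cfsg.Prelude.Def_Spor_J1

/-!
# S3239: weak closure `Z₂ × A₅` of a 2-central involution.  Definitions.
See PLAN.md in this folder for the paper proof.
-/

set_option autoImplicit false

namespace Cfsg.Agent.Lib.WC

open Subgroup

universe u

/-- The alternating group on five letters. -/
abbrev A5 := ↥(alternatingGroup (Fin 5))

variable {G : Type u} [Group G]

/-- Conjugates of `t` commuting with `t`. -/
def Dt (t : G) : Set G := {x : G | ∃ g : G, x = g * t * g⁻¹ ∧ x * t = t * x}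

/-- The weak closure of `t` in its centralizer. -/
def W (t : G) : Subgroup G := closure (Dt t)

/-- The derived subgroup of `W t`. -/
def L (t : G) : Subgroup G := ⁅W t, W t⁆

/-- The hypotheses of S3239. -/
structure Hyp [Finite G] (t : G) (S : Sylow 2 G) : Prop where
  ord : orderOf t = 2
  mem : t ∈ (S : Subgroup G)
  cent : ∀ s ∈ (S : Subgroup G), s * t = t * s
  iso : Nonempty (↥(W t) ≃* (Multiplicative (ZMod 2) × A5))

/-- `T = S ∩ W`. -/
def TT (t : G) (S : Sylow 2 G) : Subgroup G := (S : Subgroup G) ⊓ W t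

/-- `J = ⟨L k : k ∈ T#⟩`. -/
def JJ (t : G) (S : Sylow 2 G) : Subgroup G := ⨆ k : {k : G // k ∈ TT t S ∧ k ≠ 1}, L (k : G)

/-- `c` centralizes `L k`. -/
def Ec (c k : G) : Prop := ∀ l ∈ L k, c * l = l * c

/-- The theorem for `G`. -/
def Main (G : Type u) [Group G] [Finite G] : Prop :=
  ∀ (t : G) (S : Sylow 2 G), Hyp t S → Cfsg.Spor.IsoJ1 ↥(normalClosure ({t} : Set G))

theorem L_le_W (t : G) : L t ≤ W t := by
  unfold L
  rw [commutator_le]
  intro a ha b hb
  exact (W t).mul_mem ((W t).mul_mem (W t |>.mul_mem ha hb) ((W t).inv_mem ha)) ((W t).inv_mem hb)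

theorem Dt_conj (g t : G) : Dt (g * t * g⁻¹) = (fun x => g * x * g⁻¹) '' Dt t := by
  ext x
  constructor
  · rintro ⟨a, rfl, hc⟩
    refine ⟨g⁻¹ * a * g * t * (g⁻¹ * a * g)⁻¹, ⟨g⁻¹ * a * g, rfl, ?_⟩, by group⟩
    have : g⁻¹ * (a * (g * t * g⁻¹) * a⁻¹ * (g * t * g⁻¹)) * g
        = g⁻¹ * ((g * t * g⁻¹) * (a * (g * t * g⁻¹) * a⁻¹)) * g := by rw [hc]
    simpa [mul_assoc] using this
  · rintro ⟨y, ⟨a, rfl, hc⟩, rfl⟩
    refine ⟨g * a * g⁻¹, by group, ?_⟩
    have : g * (a * t * a⁻¹ * t) * g⁻¹ = g * (t * (a * t * a⁻¹)) * g⁻¹ := by rw [hc]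
    simpa [mul_assoc] using this

theorem W_conj (g t : G) : W (g * t * g⁻¹) = (W t).map (MulAut.conj g).toMonoidHom := by
  unfold W
  rw [Dt_conj, MonoidHom.map_closure]
  rfl

theorem L_conj (g t : G) : L (g * t * g⁻¹) = (L t).map (MulAut.conj g).toMonoidHom := by
  unfold L
  rw [W_conj, Subgroup.map_commutator]

end Cfsg.Agent.Lib.WC
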