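import Cfsg.Agent.Lib.WC.Trans
import Cfsg.Agent.Lib.J1Rec.JSide
import Cfsg.Agent.Lib.Schur.Stem
import Cfsg.Agent.Lib.QuadAct.Basic

/-!
# Case 0: a central involution.
-/

set_option autoImplicit false

namespace Cfsg.Agent.Lib.WC

open Subgroup
open scoped commutatorElement

universe u

variable {G : Type u} [Group G] [Finite G] {t : G} {S : Sylow 2 G}

namespace QuotAux

/-- No element can send `t` to `e t`: the class of `t` has odd length. -/
theorem no_flip (h : Hyp t S) {e : G} (he2 : e * e = 1) (he1 : e ≠ 1) (hez : ∀ g : G, e * g = g * e) {y : G}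
    (hy : y * t * y⁻¹ = e * t) : False := by
  let H : Subgroup G := centralizer ({t} : Set G)
  have hSH : (S : Subgroup G) ≤ H := fun s hs => mem_centralizer_singleton_iff.2 (h.cent s hs)
  have hodd : ¬ 2 ∣ H.index := fun hd => S.not_dvd_index (hd.trans (Subgroup.index_dvd_of_le hSH))
  have hmemH : ∀ g : G, g ∈ H ↔ g * t * g⁻¹ = t := by
    intro g
    rw [mem_centralizer_singleton_iff]
    constructor
    · intro h1
      rw [h1, mul_inv_cancel_right]
    · intro h1
      calc g * t = (g * t * g⁻¹) * g := by group
        _ = t * g := by rw [h1]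
  have hce : ∀ (g x : G), g * (e * x) * g⁻¹ = e * (g * x * g⁻¹) := by
    intro g x
    have : g * e = e * g := (hez g).symm
    calc g * (e * x) * g⁻¹ = (g * e) * x * g⁻¹ := by group
      _ = (e * g) * x * g⁻¹ := by rw [this]
      _ = e * (g * x * g⁻¹) := by group
  let C : Subgroup G :=
    { carrier := {g | g * t * g⁻¹ = t ∨ g * t * g⁻¹ = e * t}
      one_mem' := by
        left
        simp
      mul_mem' := by
        rintro a b (ha | ha) (hb | hb)
        · left
          calc a * b * t * (a * b)⁻¹ = a * (b * t * b⁻¹) * a⁻¹ := by group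
            _ = t := by rw [hb, ha]
        · right
          calc a * b * t * (a * b)⁻¹ = a * (b * t * b⁻¹) * a⁻¹ := by group
            _ = e * t := by rw [hb, hce, ha]
        · right
          calc a * b * t * (a * b)⁻¹ = a * (b * t * b⁻¹) * a⁻¹ := by group
            _ = e * t := by rw [hb, ha]
        · left
          calc a * b * t * (a * b)⁻¹ = a * (b * t * b⁻¹) * a⁻¹ := by group
            _ = t := by rw [hb, hce, ha, ← mul_assoc, he2, one_mul]
      inv_mem' := by
        rintro a (ha | ha)
        · left
          nth_rewrite 1 [← ha]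
          group
        · right
          have h1 : a⁻¹ * (e * t) * a = t := by
            rw [← ha]
            group
          have h2 : a⁻¹ * (e * t) * a = e * (a⁻¹ * t * a) := by
            have := hce a⁻¹ t
            simpa using this
          rw [h2] at h1
          have h3 : a⁻¹ * t * a⁻¹⁻¹ = a⁻¹ * t * a := by group
          have h4 : a⁻¹ * t * a = e * t := by
            calc a⁻¹ * t * a = (e * e) * (a⁻¹ * t * a) := by rw [he2, one_mul]
              _ = e * (e * (a⁻¹ * t * a)) := by rw [mul_assoc]
              _ = e * t := by rw [h1]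
          show a⁻¹ * t * a⁻¹⁻¹ = e * t
          rw [h3, h4] }
  have hmemC : ∀ g : G, g ∈ C ↔ g * t * g⁻¹ = t ∨ g * t * g⁻¹ = e * t := fun g => Iff.rfl
  have hHC : H ≤ C := fun g hg => Or.inl ((hmemH g).1 hg)
  have hyC : y ∈ C := Or.inr hy
  have hne : e * t ≠ t := by
    intro h1
    exact he1 (mul_eq_right.1 h1)
  have hi : (H.subgroupOf C).index = 2 := by
    rw [Subgroup.index_eq_two_iff]
    refine ⟨⟨y, hyC⟩, ?_⟩
    rintro ⟨b, hb⟩
    have e1 : (⟨b, hb⟩ * ⟨y, hyC⟩ : C) ∈ H.subgroupOf C ↔ b * y ∈ H := by
      rw [Subgroup.mem_subgroupOf]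
      rfl
    have e2 : (⟨b, hb⟩ : C) ∈ H.subgroupOf C ↔ b ∈ H := by
      rw [Subgroup.mem_subgroupOf]
    rw [e1, e2, hmemH, hmemH]
    have e3 : b * y * t * (b * y)⁻¹ = e * (b * t * b⁻¹) := by
      calc b * y * t * (b * y)⁻¹ = b * (y * t * y⁻¹) * b⁻¹ := by group
        _ = e * (b * t * b⁻¹) := by rw [hy, hce]
    rw [e3]
    rcases hb with hb | hb
    · right
      rw [hb]
      exact ⟨rfl, hne⟩
    · left
      rw [hb, ← mul_assoc, he2, one_mul]
      exact ⟨rfl, hne⟩
  have h2 : H.relIndex C * C.index = H.index := Subgroup.relIndex_mul_index hHC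
  apply hodd
  rw [← h2]
  exact ⟨C.index, by rw [Subgroup.relIndex, hi]⟩

/-- `e` is not in `W t`. -/
theorem e_not_mem_W (h : Hyp t S) {e : G} (he2 : e * e = 1) (he1 : e ≠ 1) (hez : ∀ g : G, e * g = g * e) : e ∉ W t ∧ t ≠ e := by
  have hcen : ∀ x ∈ L t, (∀ l ∈ L t, x * l = l * x) → x = 1 := by
    intro x hx hl
    obtain ⟨f⟩ := h.L_iso
    have h1 : (⟨x, hx⟩ : L t) = 1 := by
      apply A5F.center_triv f
      rintro ⟨y, hy⟩
      exact Subtype.ext (hl y hy)
    exact congrArg Subtype.val h1
  have hne : t ≠ e := by
    rintro rfl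
    have h1 : TT t S ≤ zpowers t := by
      intro x hx
      by_cases hx1 : x = 1
      · rw [hx1]
        exact one_mem _
      · obtain ⟨g, rfl⟩ := h.T_conj hx hx1
        have : g * t * g⁻¹ = t := by rw [← hez g]; group
        rw [this]
        exact mem_zpowers t
    have h2 := Subgroup.card_le_of_le h1
    rw [h.card_T, Nat.card_zpowers, h.ord] at h2
    omega
  refine ⟨fun hm => ?_, hne⟩
  rcases h.W_cases e hm with hL | hL
  · exact he1 (hcen e hL fun l _ => hez l)
  · have h1 := hcen (t * e) hL fun l hl => by
      rw [mul_assoc, hez l, ← mul_assoc, ← mul_assoc, ← h.L_comm l hl]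
    apply hne
    have h3 : t * t = 1 := by rw [← pow_two, ← h.ord, pow_orderOf_eq_one]
    calc t = t * (e * e) := by rw [he2, mul_one]
      _ = (t * e) * e := by group
      _ = e := by rw [h1, one_mul]

end QuotAux

/-- The Janko group is perfect. -/
theorem J1_perfect : commutator Cfsg.Spor.J1 = ⊤ := by
  haveI := Cfsg.Agent.Lib.J1Rec.JSide.simple_J
  have hc := Cfsg.Agent.Lib.J1Rec.JSide.card_J
  rcases IsSimpleGroup.eq_bot_or_eq_top_of_normal (commutator Cfsg.Spor.J1) inferInstance with h0 | h0
  · exfalso
    have hcomm : ∀ a b : Cfsg.Spor.J1, a * b = b * a := by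
      intro a b
      have h1 : ⁅a, b⁆ ∈ commutator Cfsg.Spor.J1 := by
        rw [commutator_def]
        exact Subgroup.commutator_mem_commutator (Subgroup.mem_top a) (Subgroup.mem_top b)
      rw [h0, Subgroup.mem_bot] at h1
      exact commutatorElement_eq_one_iff_mul_comm.1 h1
    have hdvd : 2 ^ 1 ∣ Nat.card Cfsg.Spor.J1 := by rw [hc]; norm_num
    obtain ⟨K, hK⟩ := Sylow.exists_subgroup_card_pow_prime 2 hdvd
    have hn : K.Normal := ⟨fun n hn g => by
      have : g * n * g⁻¹ = n := by rw [hcomm g n]; group
      rwa [this]⟩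
    rcases IsSimpleGroup.eq_bot_or_eq_top_of_normal K hn with h1 | h1
    · rw [h1] at hK
      simp at hK
    · rw [h1, Subgroup.card_top, hc] at hK
      norm_num at hK
  · exact h0

/-- Elements of the group generated by a central involution. -/
theorem mem_zp_aux {e x : G} (he2 : e * e = 1) (hx : x ∈ zpowers e) : x = 1 ∨ x = e := by
  obtain ⟨k, rfl⟩ := Subgroup.mem_zpowers_iff.1 hx
  have hz2 : e ^ (2 : ℤ) = 1 := by
    rw [zpow_two, he2]
  rcases Int.even_or_odd' k with ⟨m, rfl | rfl⟩
  · left
    rw [zpow_mul, hz2, one_zpow]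
  · right
    rw [zpow_add, zpow_mul, hz2, one_zpow, one_mul, zpow_one]

theorem ker_aux {e : G} [(zpowers e).Normal] (he2 : e * e = 1) (x : G) :
    (QuotientGroup.mk' (zpowers e)) x = 1 ↔ x = 1 ∨ x = e := by
  constructor
  · intro hx
    exact mem_zp_aux he2 ((QuotientGroup.eq_one_iff x).1 hx)
  · rintro (h0 | h0)
    · rw [h0]
      exact map_one _
    · rw [h0]
      exact (QuotientGroup.eq_one_iff e).2 (mem_zpowers e)

section main

variable (h : Hyp t S) {e : G} (he : orderOf e = 2) (hez : ∀ g : G, e * g = g * e) [(zpowers e).Normal]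

include h he hez

/-- The hypotheses in the quotient. -/
theorem hyp_quot :
    Hyp ((QuotientGroup.mk' (zpowers e)) t) (S.mapSurjective (QuotientGroup.mk'_surjective (zpowers e))) := by
  set π := QuotientGroup.mk' (zpowers e) with hπ
  have he1 : e ≠ 1 := by
    rintro rfl
    simp at he
  have he2 : e * e = 1 := by rw [← pow_two, ← he, pow_orderOf_eq_one]
  have hker : ∀ x : G, π x = 1 ↔ x = 1 ∨ x = e := fun x => ker_aux he2 x
  obtain ⟨hW, hne⟩ := QuotAux.e_not_mem_W h he2 he1 hez
  have ht1 : t ≠ 1 := by
    rintro rfl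
    have := h.ord
    simp at this
  have ht2 : t * t = 1 := by rw [← pow_two, ← h.ord, pow_orderOf_eq_one]
  have hord : orderOf (π t) = 2 := by
    apply orderOf_eq_prime
    · rw [← map_pow, pow_two, ht2, map_one]
    · intro hc
      rcases (hker t).1 hc with hc | hc
      · exact ht1 hc
      · exact hne hc
  -- `Dt` in the quotient
  have hDt : Dt (π t) = π '' Dt t := by
    ext x
    constructor
    · rintro ⟨g, rfl, hc⟩
      obtain ⟨g, rfl⟩ := QuotientGroup.mk'_surjective _ g
      refine ⟨g * t * g⁻¹, ⟨g, rfl, ?_⟩, by simp only [map_mul, map_inv]; rfl⟩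
      by_contra hnc
      set x := g * t * g⁻¹ with hx
      have h1 : π (x * t * x⁻¹ * t⁻¹) = 1 := by
        have h2 : π x * π t = π t * π x := by
          have : π x = π g * π t * (π g)⁻¹ := by rw [hx]; simp [map_mul, map_inv]
          rw [this]
          exact hc
        simp only [map_mul, map_inv]
        rw [h2]
        group
      rcases (hker _).1 h1 with h3 | h3
      · apply hnc
        have h4 : x * t * x⁻¹ = t := by
          calc x * t * x⁻¹ = (x * t * x⁻¹ * t⁻¹) * t := by group
            _ = t := by rw [h3, one_mul]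
        calc x * t = (x * t * x⁻¹) * x := by group
          _ = t * x := by rw [h4]
      · apply QuotAux.no_flip h he2 he1 hez (y := x)
        calc x * t * x⁻¹ = (x * t * x⁻¹ * t⁻¹) * t := by group
          _ = e * t := by rw [h3]
    · rintro ⟨_, ⟨g, rfl, hc⟩, rfl⟩
      refine ⟨π g, by simp [map_mul, map_inv], ?_⟩
      rw [← map_mul, hc, map_mul]
  have hWq : W (π t) = (W t).map π := by
    unfold W
    rw [hDt, MonoidHom.map_closure]
  refine ⟨hord, ⟨t, h.mem, rfl⟩, ?_, ?_⟩
  · rintro _ ⟨s, hs, rfl⟩
    rw [← map_mul, h.cent s hs, map_mul]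
  · obtain ⟨f⟩ := h.iso
    have hinj : Function.Injective (π.subgroupMap (W t)) := by
      rw [injective_iff_map_eq_one]
      rintro ⟨x, hx⟩ hx1
      have h2 : π x = 1 := congrArg Subtype.val hx1
      rcases (hker x).1 h2 with h3 | h3
      · exact Subtype.ext h3
      · exact absurd (h3 ▸ hx) hW
    have hsurj := π.subgroupMap_surjective (W t)
    exact ⟨(MulEquiv.subgroupCongr hWq).trans
      ((MulEquiv.ofBijective (π.subgroupMap (W t)) ⟨hinj, hsurj⟩).symm.trans f)⟩

/-- The central involution is not in the normal closure of `t`. -/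
theorem e_not_mem_closure (hJ : Cfsg.Spor.IsoJ1 ↥((normalClosure ({t} : Set G)).map (QuotientGroup.mk' (zpowers e)))) :
    e ∉ normalClosure ({t} : Set G) := by
  intro heK
  set π := QuotientGroup.mk' (zpowers e) with hπ
  set K : Subgroup G := normalClosure ({t} : Set G) with hK
  have he1 : e ≠ 1 := by
    rintro rfl
    simp at he
  have he2 : e * e = 1 := by rw [← pow_two, ← he, pow_orderOf_eq_one]
  have hker : ∀ x : G, π x = 1 ↔ x = 1 ∨ x = e := fun x => ker_aux he2 x
  obtain ⟨hW, hne⟩ := QuotAux.e_not_mem_W h he2 he1 hez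
  obtain ⟨fJ⟩ := hJ
  have htK : t ∈ K := Subgroup.subset_normalClosure rfl
  have hKn : K.Normal := Subgroup.normalClosure_normal
  have hconjK : ∀ g : G, g * t * g⁻¹ ∈ K := fun g => hKn.conj_mem t htK g
  have hTK : TT t S ≤ K := by
    intro x hx
    by_cases hx1 : x = 1
    · rw [hx1]
      exact one_mem _
    · obtain ⟨g, rfl⟩ := h.T_conj hx hx1
      exact hconjK g
  -- the derived subgroup of `K`
  set K' : Subgroup G := ⁅K, K⁆ with hK'
  have hK'n : K'.Normal := Subgroup.commutator_normal K K
  have hK'K : K' ≤ K := by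
    rw [hK', Subgroup.commutator_le]
    intro a ha b hb
    exact mul_mem (mul_mem (mul_mem ha hb) (inv_mem ha)) (inv_mem hb)
  have hperf : K'.map π = K.map π := by
    rw [hK', Subgroup.map_commutator]
    have h1 : commutator ↥(K.map π) = ⊤ := by
      have h2 : commutator ↥(K.map π) = (commutator Cfsg.Spor.J1).map fJ.symm.toMonoidHom := by
        rw [commutator_def, commutator_def, Subgroup.map_commutator,
          Subgroup.map_top_of_surjective _ fJ.symm.surjective]
      rw [h2, J1_perfect, Subgroup.map_top_of_surjective _ fJ.symm.surjective]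
    have h2 := Subgroup.map_subtype_commutator (K.map π)
    rw [h1, ← MonoidHom.range_eq_map, Subgroup.range_subtype] at h2
    exact h2.symm
  have hdec : ∀ x ∈ K, x ∈ K' ∨ x * e ∈ K' := by
    intro x hx
    have h1 : π x ∈ K'.map π := by
      rw [hperf]
      exact ⟨x, hx, rfl⟩
    obtain ⟨x', hx', hxx⟩ := h1
    have h2 : π (x'⁻¹ * x) = 1 := by rw [map_mul, map_inv, hxx, inv_mul_cancel]
    rcases (hker _).1 h2 with h3 | h3
    · left
      have : x = x' := (inv_mul_eq_one.1 h3).symm
      rwa [this]
    · right
      have : x * e = x' := by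
        have h4 : x = x' * e := by
          rw [← h3]
          group
        rw [h4, mul_assoc, he2, mul_one]
      rwa [this]
  by_cases heK' : e ∈ K'
  · -- transfer
    let Γ : Type u := ↥K
    let z : Γ := ⟨e, heK⟩
    have hzc : z ∈ center Γ := by
      rw [mem_center_iff]
      rintro ⟨g, hg⟩
      exact Subtype.ext (hez g).symm
    have hzK : z ∈ commutator Γ := by
      have h1 : e ∈ (commutator Γ).map K.subtype := by
        rw [Subgroup.map_subtype_commutator]
        exact heK'
      obtain ⟨w, hw, hwe⟩ := h1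
      have : w = z := Subtype.ext hwe
      rwa [← this]
    let A : Subgroup G := TT t S ⊔ zpowers e
    have hAK : A ≤ K := sup_le hTK (by
      rw [zpowers_le]
      exact heK)
    let H : Subgroup Γ := A.subgroupOf K
    have hinf : TT t S ⊓ zpowers e = ⊥ := by
      rw [eq_bot_iff]
      rintro x ⟨hx1, hx2⟩
      rcases mem_zp_aux he2 hx2 with h3 | h3
      · exact h3
      · exfalso
        rw [h3] at hx1
        exact hW hx1.2
    have hcard : Nat.card A = 16 := by
      have h1 := Cfsg.Agent.Lib.QuadAct.Basic.card_sup_mul_card_inf_of_le_normalizer (TT t S) (zpowers e)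
        (by rw [Subgroup.normalizer_eq_top_iff.2 inferInstance]; exact le_top)
      rw [hinf] at h1
      simp only [Subgroup.card_bot, mul_one, h.card_T, Nat.card_zpowers, he] at h1
      exact h1
    have hAcomm : ∀ x ∈ A, ∀ y ∈ A, x * y = y * x := by
      have hT0 : ∀ a ∈ ((TT t S : Set G) ∪ (zpowers e : Set G)), ∀ b ∈ ((TT t S : Set G) ∪ (zpowers e : Set G)), a * b = b * a := by
        have hecomm : ∀ w ∈ zpowers e, ∀ g : G, w * g = g * w := by
          intro w hw g
          rcases mem_zp_aux he2 hw with h3 | h3
          · rw [h3]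
            group
          · rw [h3, hez]
        rintro a (ha | ha) b (hb | hb)
        · exact h.T_comm a ha b hb
        · exact (hecomm b hb a).symm
        · exact hecomm a ha b
        · exact hecomm a ha b
      have hcomm := Subgroup.isMulCommutative_closure hT0
      have hA : A = closure ((TT t S : Set G) ∪ (zpowers e : Set G)) := by
        rw [Subgroup.closure_union, Subgroup.closure_eq, Subgroup.closure_eq]
      intro x hx y hy
      rw [hA] at hx hy
      have := mul_comm' (⟨x, hx⟩ : closure ((TT t S : Set G) ∪ (zpowers e : Set G))) ⟨y, hy⟩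
      exact congrArg Subtype.val this
    have hHbot : commutator H = ⊥ := by
      rw [eq_bot_iff, commutator_def, Subgroup.commutator_le]
      rintro ⟨⟨a, ha⟩, ha'⟩ _ ⟨⟨b, hb⟩, hb'⟩ _
      rw [Subgroup.mem_bot, commutatorElement_eq_one_iff_mul_comm]
      apply Subtype.ext
      apply Subtype.ext
      exact hAcomm a ha' b hb'
    have hcardK : Nat.card K = 351120 := by
      let φ := π.subgroupMap K
      have hsurj : Function.Surjective φ := π.subgroupMap_surjective K
      have h1 : Nat.card φ.ker * φ.ker.index = Nat.card K := Subgroup.card_mul_index φ.ker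
      have h2 : φ.ker.index = 175560 := by
        rw [Subgroup.index_ker, MonoidHom.range_eq_top.2 hsurj, Subgroup.card_top,
          Nat.card_congr fJ.toEquiv, Cfsg.Agent.Lib.J1Rec.JSide.card_J]
      have h3 : φ.ker = zpowers z := by
        ext x
        constructor
        · intro hx
          have h4 : π x.1 = 1 := congrArg Subtype.val hx
          rcases (hker _).1 h4 with h5 | h5
          · have : x = 1 := Subtype.ext h5
            rw [this]
            exact one_mem _
          · have : x = z := Subtype.ext h5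
            rw [this]
            exact mem_zpowers z
        · intro hx
          have hzz : z * z = 1 := Subtype.ext he2
          have hmem : z ∈ φ.ker := by
            apply Subtype.ext
            exact (hker e).2 (Or.inr rfl)
          exact (zpowers_le.2 hmem) hx
      have h4 : Nat.card φ.ker = 2 := by
        rw [h3, Nat.card_zpowers]
        have : orderOf z = orderOf e := Subgroup.orderOf_mk e heK
        rw [this, he]
      rw [h4, h2] at h1
      omega
    have hindex : H.index = 21945 := by
      have h1 : Nat.card H * H.index = Nat.card K := Subgroup.card_mul_index H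
      have h2 : Nat.card H = 16 := by
        rw [← hcard]
        exact Nat.card_congr (Subgroup.subgroupOfEquivOfLe hAK).toEquiv
      rw [h2, hcardK] at h1
      omega
    have hpow := Cfsg.Agent.Lib.Schur.Stem.pow_index_mem_commutator H hzc hzK
    rw [hHbot, Subgroup.map_bot, Subgroup.mem_bot, hindex] at hpow
    have h5 : e ^ 21945 = 1 := congrArg Subtype.val hpow
    have h6 := orderOf_dvd_of_pow_eq_one h5
    rw [he] at h6
    omega
  · -- a subgroup of index two
    have ht1 : t ≠ 1 := by
      rintro rfl
      have := h.ord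
      simp at this
    have ht2 : t * t = 1 := by rw [← pow_two, ← h.ord, pow_orderOf_eq_one]
    have htK' : t ∉ K' := by
      intro hc
      apply heK'
      have : K ≤ K' := by
        have := Subgroup.normalClosure_le_normal (N := K') (s := ({t} : Set G)) (by
          rintro _ rfl
          exact hc)
        exact this
      exact this heK
    have hcK' : ∀ g : G, g * t * g⁻¹ ∉ K' := by
      intro g hg
      apply htK'
      have := hK'n.conj_mem _ hg g⁻¹
      have e1 : g⁻¹ * (g * t * g⁻¹) * g⁻¹⁻¹ = t := by group
      rwa [e1] at this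
    have hex : ∃ x ∈ TT t S, x ≠ 1 ∧ x ≠ t := by
      by_contra hcon
      push Not at hcon
      have h1 : TT t S ≤ zpowers t := by
        intro x hx
        by_cases hx1 : x = 1
        · rw [hx1]
          exact one_mem _
        · rw [hcon x hx hx1]
          exact mem_zpowers t
      have h2 := Subgroup.card_le_of_le h1
      rw [h.card_T, Nat.card_zpowers, h.ord] at h2
      omega
    obtain ⟨x, hxT, hx1, hxt⟩ := hex
    have htT := h.t_mem_T
    obtain ⟨g1, hg1⟩ := h.T_conj hxT hx1
    have htx : t * x ≠ 1 := by
      intro hc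
      apply hxt
      have : x = t⁻¹ := eq_inv_of_mul_eq_one_right hc
      rw [this]
      exact inv_eq_of_mul_eq_one_left ht2
    obtain ⟨g2, hg2⟩ := h.T_conj (mul_mem htT hxT) htx
    have h1 := (hdec t htK).resolve_left htK'
    have h2 := (hdec x (hTK hxT)).resolve_left (by rw [hg1]; exact hcK' g1)
    have h3 := mul_mem h1 h2
    have h4 : t * e * (x * e) = t * x := by
      calc t * e * (x * e) = t * (e * x) * e := by group
        _ = t * (x * e) * e := by rw [hez x]
        _ = t * x * (e * e) := by group
        _ = t * x := by rw [he2, mul_one]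
    rw [h4, hg2] at h3
    exact hcK' g2 h3

end main

/-- Case 0: `G` has a central involution `e`; we pass to `G/⟨e⟩`. -/
theorem case0 (h : Hyp t S) {e : G} (he : orderOf e = 2) (hez : ∀ g : G, e * g = g * e)
    [(zpowers e).Normal] (IH : Main (G ⧸ zpowers e)) :
    Cfsg.Spor.IsoJ1 ↥(normalClosure ({t} : Set G)) := by
  set π := QuotientGroup.mk' (zpowers e) with hπ
  have he1 : e ≠ 1 := by
    rintro rfl
    simp at he
  have he2 : e * e = 1 := by rw [← pow_two, ← he, pow_orderOf_eq_one]
  have hI := IH (π t) _ (hyp_quot h he hez)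
  have hmap : (normalClosure ({t} : Set G)).map π = normalClosure ({π t} : Set (G ⧸ zpowers e)) := by
    rw [Subgroup.map_normalClosure _ _ (QuotientGroup.mk'_surjective _), Set.image_singleton]
  have hJ : Cfsg.Spor.IsoJ1 ↥((normalClosure ({t} : Set G)).map π) := by
    obtain ⟨f⟩ := hI
    exact ⟨(MulEquiv.subgroupCongr hmap).trans f⟩
  have hne := e_not_mem_closure h he hez hJ
  obtain ⟨f⟩ := hJ
  have hinj : Function.Injective (π.subgroupMap (normalClosure ({t} : Set G))) := by
    rw [injective_iff_map_eq_one]
    rintro ⟨x, hx⟩ hx1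
    have h2 : π x = 1 := congrArg Subtype.val hx1
    rcases mem_zp_aux he2 ((QuotientGroup.eq_one_iff x).1 h2) with h3 | h3
    · exact Subtype.ext h3
    · exact absurd (h3 ▸ hx) hne
  exact ⟨(MulEquiv.ofBijective _ ⟨hinj, π.subgroupMap_surjective _⟩).trans f⟩

end Cfsg.Agent.Lib.WC
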