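import Cfsg.Agent.Lib.WC.Base
import Cfsg.Agent.Lib.QuadAct.Basic

/-!
# The subgroup `T = S ∩ W`: order 8, central in `S`, `N(T)` transitive on `T#`.
-/

set_option autoImplicit false
set_option linter.unusedSectionVars false

namespace Cfsg.Agent.Lib.WC

open Subgroup

universe u

variable {G : Type u} [Group G] [Finite G] {t : G} {S : Sylow 2 G}

/-- The part of a Sylow 2-subgroup in a subgroup it normalizes. -/
theorem card_inf_sylow (S : Sylow 2 G) (Y : Subgroup G) (hY : (S : Subgroup G) ≤ normalizer (Y : Set G))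
    (a b : ℕ) (hb : Odd b) (hc : Nat.card Y = 2 ^ a * b) : Nat.card ↥((S : Subgroup G) ⊓ Y) = 2 ^ a := by
  have h1 := Cfsg.Agent.Lib.QuadAct.Basic.card_sup_mul_card_inf_of_le_normalizer (S : Subgroup G) Y hY
  set K := (S : Subgroup G) ⊔ Y with hK
  have hle : (S : Subgroup G) ≤ K := le_sup_left
  have h2 : Nat.card K = Nat.card (S : Subgroup G) * (S : Subgroup G).relIndex K := by
    have h := Subgroup.card_mul_index ((S : Subgroup G).subgroupOf K)
    rw [Nat.card_congr (Subgroup.subgroupOfEquivOfLe hle).toEquiv] at h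
    exact h.symm
  have h3 : (S : Subgroup G).relIndex K ∣ (S : Subgroup G).index :=
    ⟨K.index, (Subgroup.relIndex_mul_index hle).symm⟩
  have hro : ¬ 2 ∣ (S : Subgroup G).relIndex K := fun hd => S.not_dvd_index (hd.trans h3)
  obtain ⟨n, hn⟩ := IsPGroup.iff_card.mp (S.isPGroup'.to_le (inf_le_left : (S : Subgroup G) ⊓ Y ≤ S))
  rw [h2, hc, hn] at h1
  have hS : 0 < Nat.card (S : Subgroup G) := Nat.card_pos
  have h4 : (S : Subgroup G).relIndex K * 2 ^ n = 2 ^ a * b := by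
    apply Nat.eq_of_mul_eq_mul_left hS
    rw [← h1]; ring
  have hbo : Nat.Coprime (2 ^ n) b := Nat.Coprime.pow_left _ (Nat.coprime_two_left.mpr hb)
  have hro' : Nat.Coprime (2 ^ a) ((S : Subgroup G).relIndex K) :=
    Nat.Coprime.pow_left _ ((Nat.Prime.coprime_iff_not_dvd Nat.prime_two).mpr hro)
  have h5 : 2 ^ n ∣ 2 ^ a := hbo.dvd_of_dvd_mul_right ⟨_, by rw [← h4]; ring⟩
  have h6 : 2 ^ a ∣ 2 ^ n := hro'.dvd_of_dvd_mul_left ⟨b, h4⟩
  rw [hn]
  exact Nat.dvd_antisymm h5 h6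

theorem mem_norm_of_comm (t c : G) (hc : c * t = t * c) (Y : G → Subgroup G)
    (hY : ∀ c' : G, c' * t = t * c' → ∀ x ∈ Y t, c' * x * c'⁻¹ ∈ Y t) : c ∈ normalizer (Y t : Set G) := by
  rw [mem_normalizer_iff]
  intro x
  constructor
  · exact hY c hc x
  · intro hx
    have hc' : c⁻¹ * t = t * c⁻¹ := by
      have : c⁻¹ * (c * t) * c⁻¹ = c⁻¹ * (t * c) * c⁻¹ := by rw [hc]
      simpa [mul_assoc] using this.symm
    have := hY c⁻¹ hc' _ hx
    simpa [mul_assoc] using this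

namespace Hyp

variable (h : Hyp t S)
include h

theorem S_le_norm_W : (S : Subgroup G) ≤ normalizer (W t : Set G) :=
  fun c hc => mem_norm_of_comm t c (h.cent c hc) W (W_norm t)

theorem S_le_norm_L : (S : Subgroup G) ≤ normalizer (L t : Set G) :=
  fun c hc => mem_norm_of_comm t c (h.cent c hc) L (L_norm t)

theorem card_T : Nat.card (TT t S) = 8 := by
  obtain ⟨e⟩ := h.iso
  have hc : Nat.card (W t) = 2 ^ 3 * 15 := by
    rw [Nat.card_congr e.toEquiv, Nat.card_prod]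
    have h1 : Nat.card (Multiplicative (ZMod 2)) = 2 := by
      rw [Nat.card_congr (Multiplicative.toAdd (α := ZMod 2)), Nat.card_zmod]
    have h2 : Nat.card A5 = 60 := A5F.card_eq (MulEquiv.refl A5)
    rw [h1, h2]; norm_num
  exact card_inf_sylow S (W t) h.S_le_norm_W 3 15 (by decide) hc

theorem card_S_L : Nat.card ↥((S : Subgroup G) ⊓ L t) = 4 := by
  obtain ⟨e⟩ := h.L_iso
  have hc : Nat.card (L t) = 2 ^ 2 * 15 := by
    rw [A5F.card_eq e]; norm_num
  exact card_inf_sylow S (L t) h.S_le_norm_L 2 15 (by decide) hc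

theorem T_inf_L : TT t S ⊓ L t = (S : Subgroup G) ⊓ L t := by
  unfold TT
  rw [inf_assoc, inf_eq_right.mpr (L_le_W t)]

theorem card_T_L : Nat.card ↥(TT t S ⊓ L t) = 4 := by
  rw [h.T_inf_L]; exact h.card_S_L

theorem t_mem_T : t ∈ TT t S := ⟨h.mem, t_mem_W' t⟩

theorem T_cases : ∀ x ∈ TT t S, x ∈ L t ∨ t * x ∈ L t := fun x hx => h.W_cases x hx.2

theorem t_sq : t * t = 1 := by
  have := pow_orderOf_eq_one t
  rw [h.ord, pow_two] at this
  exact this

theorem T_exp : ∀ x ∈ TT t S, x * x = 1 := by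
  obtain ⟨e⟩ := h.L_iso
  have hV := A5F.four_exp e (V := (TT t S ⊓ L t).subgroupOf (L t))
  have hc : Nat.card ((TT t S ⊓ L t).subgroupOf (L t)) = 4 := by
    rw [← h.card_T_L]
    exact Nat.card_congr (Subgroup.subgroupOfEquivOfLe inf_le_right).toEquiv
  have hv : ∀ v ∈ TT t S, v ∈ L t → v * v = 1 := by
    intro v hv1 hv2
    have := hV hc ⟨v, hv2⟩ (mem_subgroupOf.mpr ⟨hv1, hv2⟩)
    exact congrArg Subtype.val this
  intro x hx
  rcases h.T_cases x hx with h1 | h1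
  · exact hv x hx h1
  · have h2 := hv (t * x) ((TT t S).mul_mem h.t_mem_T hx) h1
    have h3 : x * t = t * x := t_comm_W t x hx.2
    have h4 : t * x * (t * x) = t * t * (x * x) := by
      calc t * x * (t * x) = t * (x * t) * x := by group
        _ = t * (t * x) * x := by rw [h3]
        _ = t * t * (x * x) := by group
    rw [h4, h.t_sq, one_mul] at h2
    exact h2

theorem T_comm : ∀ x ∈ TT t S, ∀ y ∈ TT t S, x * y = y * x := by
  intro x hx y hy
  have h1 := h.T_exp x hx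
  have h2 := h.T_exp y hy
  have h3 := h.T_exp (x * y) ((TT t S).mul_mem hx hy)
  have hxi : x⁻¹ = x := inv_eq_of_mul_eq_one_left h1
  have hyi : y⁻¹ = y := inv_eq_of_mul_eq_one_left h2
  have := inv_eq_of_mul_eq_one_left h3
  rw [mul_inv_rev, hxi, hyi] at this
  exact this.symm

/-- A conjugate of `t` in `S` lies in `T`. -/
theorem conj_mem_T (g : G) (hg : g * t * g⁻¹ ∈ (S : Subgroup G)) : g * t * g⁻¹ ∈ TT t S :=
  ⟨hg, Subgroup.subset_closure ⟨g, rfl, h.cent _ hg⟩⟩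

theorem orderOf_T {k : G} (hk : k ∈ TT t S) (h1 : k ≠ 1) : orderOf k = 2 :=
  orderOf_eq_prime (by rw [pow_two]; exact h.T_exp k hk) h1

/-- All non-identity elements of `T` are conjugate to `t`. -/
theorem T_conj {k : G} (hk : k ∈ TT t S) (h1 : k ≠ 1) : ∃ g : G, k = g * t * g⁻¹ := by
  obtain ⟨g, hg, -⟩ := h.mem_Dt_iff.mpr ⟨h.orderOf_T hk h1, hk.2⟩
  exact ⟨g, hg⟩

/-- `T` is weakly closed in `S`. -/
theorem weak_closed (g : G) (hg : (TT t S).map (MulAut.conj g).toMonoidHom ≤ (S : Subgroup G)) :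
    g ∈ normalizer (TT t S : Set G) := by
  have hle : (TT t S).map (MulAut.conj g).toMonoidHom ≤ TT t S := by
    rintro _ ⟨x, hx, rfl⟩
    by_cases h1 : x = 1
    · subst h1
      simp [(TT t S).one_mem]
    · obtain ⟨a, rfl⟩ := h.T_conj hx h1
      have e1 : (MulAut.conj g).toMonoidHom (a * t * a⁻¹) = (g * a) * t * (g * a)⁻¹ := by
        simp [MulAut.conj_apply]; group
      rw [e1]
      apply h.conj_mem_T
      rw [← e1]
      exact hg ⟨_, hx, rfl⟩
  have heq : (TT t S).map (MulAut.conj g).toMonoidHom = TT t S := by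
    apply Subgroup.eq_of_le_of_card_ge hle
    rw [Subgroup.card_map_of_injective (MulAut.conj g).injective]
  rw [mem_normalizer_iff]
  intro x
  constructor
  · intro hx
    rw [← heq]
    exact ⟨x, hx, rfl⟩
  · intro hx
    have : g * x * g⁻¹ ∈ (TT t S).map (MulAut.conj g).toMonoidHom := by rw [heq]; exact hx
    obtain ⟨y, hy, hyx⟩ := this
    have : y = x := (MulAut.conj g).injective hyx
    exact this ▸ hy

theorem T_eq_closure : TT t S = closure ({x : G | ∃ g : G, x = g * t * g⁻¹} ∩ (S : Subgroup G)) := by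
  apply le_antisymm
  · intro x hx
    by_cases h1 : x = 1
    · subst h1; exact one_mem _
    · exact Subgroup.subset_closure ⟨h.T_conj hx h1, hx.1⟩
  · rw [closure_le]
    rintro x ⟨⟨g, rfl⟩, hx⟩
    exact h.conj_mem_T g hx

/-- `N(T)` is transitive on `T#`. -/
theorem T_fusion {a b : G} (ha : a ∈ TT t S) (ha1 : a ≠ 1) (hb : b ∈ TT t S) (hb1 : b ≠ 1) :
    ∃ n ∈ normalizer (TT t S : Set G), n * a * n⁻¹ = b := by
  obtain ⟨g₁, hg₁⟩ := h.T_conj ha ha1
  obtain ⟨g₂, hg₂⟩ := h.T_conj hb hb1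
  apply burnside_fusion {x : G | ∃ g : G, x = g * t * g⁻¹} _ S (TT t S) h.T_eq_closure h.T_comm ha hb
  · refine ⟨g₂ * g₁⁻¹, ?_⟩
    rw [hg₁, hg₂]; group
  · rintro g _ ⟨a, rfl⟩
    exact ⟨g * a, by group⟩

/-- For `k ∈ T#` the hypotheses hold for `k` up to `S` normalizing `T`-data (weak form, before `T_central`). -/
theorem hyp_conj {k : G} (hk : k ∈ TT t S) (h1 : k ≠ 1) :
    Nonempty (↥(W k) ≃* (Multiplicative (ZMod 2) × A5)) ∧ TT t S ≤ W k := by
  obtain ⟨g, rfl⟩ := h.T_conj hk h1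
  constructor
  · obtain ⟨e⟩ := h.iso
    rw [W_conj]
    exact ⟨((W t).equivMapOfInjective _ (MulAut.conj g).injective).symm.trans e⟩
  · intro x hx
    by_cases hx1 : x = 1
    · subst hx1; exact one_mem _
    · obtain ⟨a, rfl⟩ := h.T_conj hx hx1
      apply Subgroup.subset_closure
      refine ⟨a * g⁻¹, by group, h.T_comm _ hx _ hk⟩

/-- `k ∉ L k`, and `T = ⟨k⟩ × (T ∩ L k)`. -/
theorem T_dec {k : G} (hk : k ∈ TT t S) (h1 : k ≠ 1) : k ∉ L k ∧ ∀ x ∈ TT t S, x ∈ L k ∨ k * x ∈ L k := by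
  obtain ⟨n, hn, rfl⟩ := h.T_fusion h.t_mem_T (by
    intro ht; have := h.ord; rw [ht, orderOf_one] at this; omega) hk h1
  rw [L_conj]
  constructor
  · rintro ⟨y, hy, hyx⟩
    have : y = t := (MulAut.conj n).injective hyx
    exact h.t_not_mem_L (this ▸ hy)
  · intro x hx
    have hn' : n⁻¹ ∈ normalizer (TT t S : Set G) := inv_mem hn
    have hx' : n⁻¹ * x * n⁻¹⁻¹ ∈ TT t S := (mem_normalizer_iff.mp hn' x).mp hx
    rw [inv_inv] at hx'
    rcases h.T_cases _ hx' with h2 | h2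
    · left
      exact ⟨_, h2, by change n * (n⁻¹ * x * n) * n⁻¹ = x; group⟩
    · right
      exact ⟨_, h2, by change n * (t * (n⁻¹ * x * n)) * n⁻¹ = n * t * n⁻¹ * x; group⟩

/-- `S` normalizes `T`. -/
theorem S_norm_T {s : G} (hs : s ∈ (S : Subgroup G)) {x : G} (hx : x ∈ TT t S) : s * x * s⁻¹ ∈ TT t S :=
  ⟨(S : Subgroup G).mul_mem ((S : Subgroup G).mul_mem hs hx.1) ((S : Subgroup G).inv_mem hs),
    W_norm t s (h.cent s hs) x hx.2⟩

/-- `S` centralizes `T`. -/
theorem T_central : ∀ x ∈ TT t S, ∀ s ∈ (S : Subgroup G), s * x = x * s := by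
  by_contra hcon
  push_neg at hcon
  obtain ⟨x, hx, s, hs, hsx⟩ := hcon
  have ht1 : t ≠ 1 := by
    intro ht; have := h.ord; rw [ht, orderOf_one] at this; omega
  have hst := h.cent s hs
  -- a moved element of `V = T ∩ L t`
  obtain ⟨v₁, hv₁T, hv₁L, hv₁m⟩ : ∃ v₁ ∈ TT t S, v₁ ∈ L t ∧ s * v₁ * s⁻¹ ≠ v₁ := by
    rcases h.T_cases x hx with h2 | h2
    · refine ⟨x, hx, h2, fun hh => hsx ?_⟩
      rw [mul_inv_eq_iff_eq_mul] at hh
      exact hh
    · refine ⟨t * x, (TT t S).mul_mem h.t_mem_T hx, h2, fun hh => hsx ?_⟩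
      rw [mul_inv_eq_iff_eq_mul] at hh
      have : t * (s * x) = t * (x * s) := by
        calc t * (s * x) = (t * s) * x := by group
          _ = (s * t) * x := by rw [hst]
          _ = s * (t * x) := by group
          _ = t * x * s := hh
          _ = t * (x * s) := by group
      exact mul_left_cancel this
  have hNL : ∀ y ∈ L t, s * y * s⁻¹ ∈ L t := L_norm t s hst
  set v₂ := s * v₁ * s⁻¹ with hv₂
  have hv₂T : v₂ ∈ TT t S := h.S_norm_T hs hv₁T
  have hv₂L : v₂ ∈ L t := hNL _ hv₁L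
  have hv₁1 : v₁ ≠ 1 := by
    intro h0
    apply hv₁m
    rw [hv₂, h0]
    group
  have hv₂1 : v₂ ≠ 1 := by
    intro h0
    apply hv₁1
    rw [hv₂] at h0
    have : s * v₁ = s := by
      rw [mul_inv_eq_one] at h0
      exact h0
    simpa using this
  have hne : v₁ ≠ v₂ := fun hh => hv₁m hh.symm
  set v₃ := v₁ * v₂ with hv₃
  have hv₃T : v₃ ∈ TT t S := (TT t S).mul_mem hv₁T hv₂T
  have hv₃L : v₃ ∈ L t := (L t).mul_mem hv₁L hv₂L
  have hv₁i : v₁ * v₁ = 1 := h.T_exp _ hv₁T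
  have hv₂i : v₂ * v₂ = 1 := h.T_exp _ hv₂T
  have hv₃1 : v₃ ≠ 1 := by
    intro h0
    apply hne
    have : v₁ * v₂ = v₁ * v₁ := by rw [hv₁i]; exact h0
    exact (mul_left_cancel this).symm
  have hv₃ne₁ : v₃ ≠ v₁ := by
    intro h0
    apply hv₂1
    have : v₁ * v₂ = v₁ * 1 := by rw [mul_one]; exact h0
    exact mul_left_cancel this
  have hv₃ne₂ : v₃ ≠ v₂ := by
    intro h0
    apply hv₁1
    have : v₁ * v₂ = 1 * v₂ := by rw [one_mul]; exact h0
    exact mul_right_cancel this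
  -- `V = {1, v₁, v₂, v₃}`
  have hVset : ∀ w ∈ TT t S, w ∈ L t → w = 1 ∨ w = v₁ ∨ w = v₂ ∨ w = v₃ := by
    classical
    intro w hw1 hw2
    by_contra hcontra
    push_neg at hcontra
    have hsub : ({w, 1, v₁, v₂, v₃} : Finset G) ⊆ ((TT t S ⊓ L t : Subgroup G) : Set G).toFinite.toFinset := by
      intro z hz
      simp only [Finset.mem_insert, Finset.mem_singleton] at hz
      simp only [Set.Finite.mem_toFinset]
      rcases hz with rfl | rfl | rfl | rfl | rfl
      · exact ⟨hw1, hw2⟩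
      · exact one_mem _
      · exact ⟨hv₁T, hv₁L⟩
      · exact ⟨hv₂T, hv₂L⟩
      · exact ⟨hv₃T, hv₃L⟩
    have hcard := Finset.card_le_card hsub
    have h5 : ({w, 1, v₁, v₂, v₃} : Finset G).card = 5 := by
      rw [Finset.card_insert_of_notMem, Finset.card_insert_of_notMem, Finset.card_insert_of_notMem,
        Finset.card_insert_of_notMem, Finset.card_singleton]
      · simp [hne.symm, hv₃ne₂.symm]
      · simp [hne, hv₃ne₁.symm]
      · simp [hv₁1.symm, hv₂1.symm, hv₃1.symm]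
      · simp [hcontra.1, hcontra.2.1, hcontra.2.2.1, hcontra.2.2.2]
    have h4 : ((TT t S ⊓ L t : Subgroup G) : Set G).toFinite.toFinset.card = 4 := by
      rw [← h.card_T_L, ← Set.ncard_eq_toFinset_card, ← Nat.card_coe_set_eq]
      rfl
    omega
  have hsv₂T : s * v₂ * s⁻¹ ∈ TT t S := h.S_norm_T hs hv₂T
  have hsv₂L : s * v₂ * s⁻¹ ∈ L t := hNL _ hv₂L
  have hsv₃ : s * v₃ * s⁻¹ = v₂ * (s * v₂ * s⁻¹) := by
    rw [hv₃, hv₂]; group
  -- the two cases
  have hcases : s * v₂ * s⁻¹ = v₁ := by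
    rcases hVset _ hsv₂T hsv₂L with h2 | h2 | h2 | h2
    · exfalso
      apply hv₂1
      have : s * v₂ = s := by
        rw [mul_inv_eq_one] at h2
        exact h2
      simpa using this
    · exact h2
    · exfalso
      apply hne
      have : s * v₂ * s⁻¹ = s * v₁ * s⁻¹ := h2
      have h6 : s * v₂ = s * v₁ := mul_right_cancel this
      exact (mul_left_cancel h6).symm
    · exfalso
      -- a 3-cycle: `s³` fixes `v₁`, so `s` does.
      have h3 : s ^ 3 * v₁ = v₁ * s ^ 3 := by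
        have e1 : s * v₁ = v₂ * s := by rw [hv₂]; group
        have e2 : s * v₂ = v₃ * s := by
          rw [mul_inv_eq_iff_eq_mul] at h2
          exact h2
        have hcomm : v₁ * v₂ = v₂ * v₁ := h.T_comm _ hv₁T _ hv₂T
        have e3 : s * v₃ = v₁ * s := by
          rw [hv₃, ← mul_assoc, e1, mul_assoc, e2, ← mul_assoc, hv₃, ← mul_assoc]
          rw [show v₂ * v₁ = v₁ * v₂ from hcomm.symm, mul_assoc v₁, hv₂i, mul_one]
        calc s ^ 3 * v₁ = s * (s * (s * v₁)) := by simp only [pow_succ, pow_zero, one_mul, mul_assoc]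
          _ = s * (s * (v₂ * s)) := by rw [e1]
          _ = s * ((s * v₂) * s) := by group
          _ = s * ((v₃ * s) * s) := by rw [e2]
          _ = (s * v₃) * (s * s) := by group
          _ = (v₁ * s) * (s * s) := by rw [e3]
          _ = v₁ * s ^ 3 := by simp only [pow_succ, pow_zero, one_mul, mul_assoc]
      obtain ⟨m, hm⟩ := (IsPGroup.iff_orderOf.mp (S.isPGroup') ⟨s, hs⟩)
      have hord : orderOf s = 2 ^ m := by
        rw [← Subgroup.orderOf_mk s hs]; exact hm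
      have hco : Nat.Coprime 3 (orderOf s) := by
        rw [hord]
        exact Nat.Coprime.pow_right _ (by decide)
      obtain ⟨r, hr⟩ := exists_pow_eq_self_of_coprime hco
      apply hv₁m
      have hc3 : Commute (s ^ 3) v₁ := h3
      have : Commute s v₁ := by
        rw [← hr]
        exact hc3.pow_left r
      rw [hv₂, this.eq]
      group
  have hv₃fix : s * v₃ * s⁻¹ = v₃ := by
    rw [hsv₃, hcases, hv₃]
    exact h.T_comm _ hv₂T _ hv₁T
  have hsv₃c : s * v₃ = v₃ * s := by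
    rw [mul_inv_eq_iff_eq_mul] at hv₃fix
    exact hv₃fix
  -- now `L v₃`
  obtain ⟨hd1, hd2⟩ := h.T_dec hv₃T hv₃1
  have hNL₃ : ∀ y ∈ L v₃, s * y * s⁻¹ ∈ L v₃ := L_norm v₃ s hsv₃c
  have hboth : v₁ ∈ L v₃ ∧ v₂ ∈ L v₃ := by
    rcases hd2 v₁ hv₁T with h2 | h2
    · exact ⟨h2, hNL₃ _ h2⟩
    · have e : v₃ * v₁ = v₂ := by
        rw [hv₃, h.T_comm _ hv₁T _ hv₂T, mul_assoc, hv₁i, mul_one]
      rw [e] at h2
      refine ⟨?_, h2⟩
      have := hNL₃ _ h2
      rwa [hcases] at this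
  exact hd1 ((L v₃).mul_mem hboth.1 hboth.2)

/-- All `k ∈ T#` satisfy the hypotheses with the same `T`. -/
theorem hyp_T {k : G} (hk : k ∈ TT t S) (h1 : k ≠ 1) : Hyp k S ∧ TT k S = TT t S := by
  obtain ⟨hi, hle⟩ := h.hyp_conj hk h1
  have hH : Hyp k S :=
    ⟨h.orderOf_T hk h1, hk.1, fun s hs => h.T_central k hk s hs, hi⟩
  refine ⟨hH, ?_⟩
  symm
  apply Subgroup.eq_of_le_of_card_ge
  · exact le_inf (fun x hx => hx.1) hle
  · rw [hH.card_T, h.card_T]

/-- Every Sylow 2-subgroup containing `T` is an `N(T)`-conjugate of `S` and centralizes `T`. -/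
theorem sylow_over (S' : Sylow 2 G) (hT : TT t S ≤ (S' : Subgroup G)) :
    (∃ n ∈ normalizer (TT t S : Set G), (S' : Subgroup G) = (S : Subgroup G).map (MulAut.conj n).toMonoidHom) ∧
      ∀ s ∈ (S' : Subgroup G), ∀ x ∈ TT t S, s * x = x * s := by
  obtain ⟨g, hg⟩ := MulAction.exists_smul_eq G S S'
  have hS' : (S' : Subgroup G) = (S : Subgroup G).map (MulAut.conj g).toMonoidHom := by
    rw [← hg]
    rfl
  have hgN : g ∈ normalizer (TT t S : Set G) := by
    have hi : g⁻¹ ∈ normalizer (TT t S : Set G) := by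
      apply h.weak_closed
      rintro _ ⟨x, hx, rfl⟩
      have := hT hx
      rw [hS'] at this
      obtain ⟨y, hy, hyx⟩ := this
      have e : (MulAut.conj g⁻¹).toMonoidHom x = y := by
        rw [← hyx]; simp [MulAut.conj_apply]; group
      rw [e]
      exact hy
    simpa using inv_mem hi
  refine ⟨⟨g, hgN, hS'⟩, ?_⟩
  intro s hs x hx
  rw [hS'] at hs
  obtain ⟨s₀, hs₀, rfl⟩ := hs
  have hx₀ : g⁻¹ * x * g⁻¹⁻¹ ∈ TT t S := (mem_normalizer_iff.mp (inv_mem hgN) x).mp hx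
  rw [inv_inv] at hx₀
  have hc := h.T_central _ hx₀ s₀ hs₀
  have e : (MulAut.conj g).toMonoidHom s₀ = g * s₀ * g⁻¹ := rfl
  rw [e]
  calc g * s₀ * g⁻¹ * x = g * (s₀ * (g⁻¹ * x * g)) * g⁻¹ := by group
    _ = g * ((g⁻¹ * x * g) * s₀) * g⁻¹ := by rw [hc]
    _ = x * (g * s₀ * g⁻¹) := by group

/-- Conjugates of `t` in `S^m` lie in `T^m`. -/
theorem conj_mem_conj (g m : G) (hg : g * t * g⁻¹ ∈ (S : Subgroup G).map (MulAut.conj m).toMonoidHom) :
    g * t * g⁻¹ ∈ (TT t S).map (MulAut.conj m).toMonoidHom := by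
  obtain ⟨y, hy, hyx⟩ := hg
  have e : y = (m⁻¹ * g) * t * (m⁻¹ * g)⁻¹ := by
    have : m * y * m⁻¹ = g * t * g⁻¹ := hyx
    rw [mul_inv_eq_iff_eq_mul] at this
    have h2 : y = m⁻¹ * (g * t * g⁻¹ * m) := by
      rw [← this]; group
    rw [h2]; group
  have : y ∈ TT t S := by
    rw [e]
    apply h.conj_mem_T
    rw [← e]
    exact hy
  exact ⟨y, this, hyx⟩

end Hyp

end Cfsg.Agent.Lib.WC
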