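import Cfsg.Agent.Lib.WC.A5F

set_option autoImplicit false

namespace Cfsg.Agent.Lib.WC

open Subgroup

universe u

variable {G : Type u} [Group G] [Finite G]

namespace TriAux

theorem closure_smul (D : Set G) (hD : ∀ g : G, ∀ x ∈ D, g * x * g⁻¹ ∈ D) (P : Sylow 2 G) (h : G) :
    closure (D ∩ ((h • P : Sylow 2 G) : Subgroup G)) =
      (closure (D ∩ (P : Subgroup G))).map (MulAut.conj h).toMonoidHom := by
  have hmem : ∀ x : G, x ∈ ((h • P : Sylow 2 G) : Subgroup G) ↔ h⁻¹ * x * h ∈ (P : Subgroup G) := by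
    intro x
    rw [Sylow.coe_subgroup_smul, Subgroup.mem_pointwise_smul_iff_inv_smul_mem]
    simp [MulAut.smul_def, MulAut.conj_apply]
  apply le_antisymm
  · rw [closure_le]
    rintro x ⟨hx, hxP⟩
    refine ⟨h⁻¹ * x * h, subset_closure ⟨?_, (hmem x).1 hxP⟩, ?_⟩
    · simpa using hD h⁻¹ x hx
    · simp [MulAut.conj_apply]; group
  · rw [map_le_iff_le_comap, closure_le]
    rintro x ⟨hx, hxP⟩
    refine subset_closure ⟨?_, ?_⟩
    · exact hD h x hx
    · exact (hmem (h * x * h⁻¹)).2 (by
        have h3 : h⁻¹ * (h * x * h⁻¹) * h = x := by group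
        rw [h3]; exact hxP)

theorem card_map_conj (T : Subgroup G) (h : G) :
    Nat.card (T.map (MulAut.conj h).toMonoidHom) = Nat.card T := by
  exact Subgroup.card_map_of_injective (MulAut.conj h).injective

theorem mem_smul {H : Type*} [Group H] (P : Sylow 2 H) (h x : H) :
    x ∈ ((h • P : Sylow 2 H) : Subgroup H) ↔ h⁻¹ * x * h ∈ (P : Subgroup H) := by
  rw [Sylow.coe_subgroup_smul, Subgroup.mem_pointwise_smul_iff_inv_smul_mem]
  simp [MulAut.smul_def]

theorem orderOf_conj' (g x : G) : orderOf (g * x * g⁻¹) = orderOf x := by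
  have := (MulAut.conj g).orderOf_eq x
  simpa [MulAut.conj_apply] using this

end TriAux

/-- Burnside's fusion lemma for a subgroup generated by conjugates. Let `D` be a conjugation invariant
set, `P` a Sylow 2-subgroup, `T = ⟨D ∩ P⟩` abelian. Elements of `T` conjugate in `G` are conjugate in `N(T)`. -/
theorem burnside_fusion (D : Set G) (hD : ∀ g : G, ∀ x ∈ D, g * x * g⁻¹ ∈ D) (P : Sylow 2 G)
    (T : Subgroup G) (hT : T = closure (D ∩ (P : Subgroup G)))
    (hTc : ∀ x ∈ T, ∀ y ∈ T, x * y = y * x) {a b : G} (ha : a ∈ T) (hb : b ∈ T)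
    (hab : ∃ g : G, g * a * g⁻¹ = b) :
    ∃ n ∈ normalizer (T : Set G), n * a * n⁻¹ = b := by
  obtain ⟨g, hg⟩ := hab
  have hTP : T ≤ (P : Subgroup G) := by
    rw [hT, closure_le]; exact fun x hx => hx.2
  have hpT : IsPGroup 2 T := P.isPGroup'.to_le hTP
  set C : Subgroup G := centralizer ({b} : Set G) with hC
  set T' : Subgroup G := T.map (MulAut.conj g).toMonoidHom with hT'
  have hpT' : IsPGroup 2 T' := hpT.map _
  have hTC : T ≤ C := by
    intro x hx
    rw [hC, mem_centralizer_singleton_iff]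
    exact hTc x hx b hb
  have hbT' : b ∈ T' := ⟨a, ha, by simp [MulAut.conj_apply, hg]⟩
  have hT'c : ∀ x ∈ T', ∀ y ∈ T', x * y = y * x := by
    rintro _ ⟨x, hx, rfl⟩ _ ⟨y, hy, rfl⟩
    have := hTc x hx y hy
    simp only [MulEquiv.coe_toMonoidHom, ← map_mul, this]
  have hT'C : T' ≤ C := by
    intro x hx
    rw [hC, mem_centralizer_singleton_iff]
    exact hT'c x hx b hbT'
  obtain ⟨Q₁, hQ₁⟩ : ∃ Q : Sylow 2 C, T.subgroupOf C ≤ Q :=
    (hpT.comap_of_injective C.subtype C.subtype_injective).exists_le_sylow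
  obtain ⟨Q₂, hQ₂⟩ : ∃ Q : Sylow 2 C, T'.subgroupOf C ≤ Q :=
    (hpT'.comap_of_injective C.subtype C.subtype_injective).exists_le_sylow
  obtain ⟨c, hc⟩ := MulAction.exists_smul_eq C Q₂ Q₁
  have hpQ : IsPGroup 2 ((Q₁ : Subgroup C).map C.subtype) := Q₁.isPGroup'.map _
  obtain ⟨P', hP'⟩ := hpQ.exists_le_sylow
  obtain ⟨h, hh⟩ := MulAction.exists_smul_eq G P P'
  have hτ : closure (D ∩ (P' : Subgroup G)) = T.map (MulAut.conj h).toMonoidHom := by
    rw [← hh, TriAux.closure_smul D hD, ← hT]
  have hcardτ : Nat.card (closure (D ∩ (P' : Subgroup G))) = Nat.card T := by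
    rw [hτ, TriAux.card_map_conj]
  -- `T ≤ P'`
  have hTP' : T ≤ (P' : Subgroup G) := by
    intro x hx
    apply hP'
    refine ⟨⟨x, hTC hx⟩, hQ₁ ?_, rfl⟩
    simpa [mem_subgroupOf] using hx
  have hT_eq : T = closure (D ∩ (P' : Subgroup G)) := by
    apply Subgroup.eq_of_le_of_card_ge
    · conv_lhs => rw [hT]
      rw [closure_le]
      rintro x ⟨hx, hxP⟩
      refine subset_closure ⟨hx, hTP' ?_⟩
      rw [hT]; exact subset_closure ⟨hx, hxP⟩
    · rw [hcardτ]
  set n : G := (c : G) * g with hn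
  set U : Subgroup G := T.map (MulAut.conj n).toMonoidHom with hU
  have hU_eq : U = closure (D ∩ ((n • P : Sylow 2 G) : Subgroup G)) := by
    rw [TriAux.closure_smul D hD, ← hT]
  have hUP' : U ≤ (P' : Subgroup G) := by
    rintro _ ⟨x, hx, rfl⟩
    apply hP'
    have hx' : g * x * g⁻¹ ∈ T' := ⟨x, hx, by simp [MulAut.conj_apply]⟩
    have hmem : (⟨g * x * g⁻¹, hT'C hx'⟩ : C) ∈ (Q₂ : Subgroup C) := hQ₂ (by simpa [mem_subgroupOf] using hx')
    have hmem2 : c * (⟨g * x * g⁻¹, hT'C hx'⟩ : C) * c⁻¹ ∈ (Q₁ : Subgroup C) := by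
      rw [← hc, Sylow.coe_subgroup_smul]
      refine ⟨_, hmem, ?_⟩
      simp [MulAut.smul_def, MulAut.conj_apply]
    refine ⟨_, hmem2, ?_⟩
    simp [hn, MulAut.conj_apply, mul_assoc]
  have hU_T : U = T := by
    apply Subgroup.eq_of_le_of_card_ge
    · rw [hT_eq]
      conv_lhs => rw [hU_eq]
      rw [closure_le]
      rintro x ⟨hx, hxP⟩
      refine subset_closure ⟨hx, hUP' ?_⟩
      rw [hU_eq]; exact subset_closure ⟨hx, hxP⟩
    · rw [hU, TriAux.card_map_conj]
  refine ⟨n, ?_, ?_⟩
  · rw [mem_normalizer_iff]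
    intro x
    constructor
    · intro hx
      have : n * x * n⁻¹ ∈ U := ⟨x, hx, by simp [MulAut.conj_apply]⟩
      rwa [hU_T] at this
    · intro hx
      change n * x * n⁻¹ ∈ T at hx
      rw [← hU_T] at hx
      obtain ⟨y, hy, hyx⟩ := hx
      have : y = x := by
        have h2 : n * y * n⁻¹ = n * x * n⁻¹ := by simpa [MulAut.conj_apply] using hyx
        simpa using h2
      exact this ▸ hy
  · have hcb : (c : G) * b = b * c := mem_centralizer_singleton_iff.1 c.2
    calc n * a * n⁻¹ = (c : G) * (g * a * g⁻¹) * (c : G)⁻¹ := by simp [hn]; group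
      _ = b := by rw [hg, hcb]; group

/-- **Trichotomy.** `i` is a 2-central involution, `Λ ≅ A₅` centralizes `i`, `i ∉ Λ`, and all conjugates of `i`
commuting with `i` lie in `⟨i⟩ × Λ`. Then either `i` is isolated or all involutions of `⟨i⟩ × Λ` are conjugates of `i`. -/
theorem tri {i : G} (hi : orderOf i = 2) (P : Sylow 2 G) (hiP : i ∈ (P : Subgroup G))
    (hc : ∀ s ∈ (P : Subgroup G), s * i = i * s)
    (Λ : Subgroup G) (e : Λ ≃* A5) (hΛ : ∀ l ∈ Λ, l * i = i * l) (hiΛ : i ∉ Λ)
    (hsub : ∀ x ∈ Dt i, x = i ∨ x ∈ Λ ∨ i * x ∈ Λ) :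
    Dt i = {i} ∨ ∀ x : G, orderOf x = 2 → (x ∈ Λ ∨ i * x ∈ Λ) → x ∈ Dt i := by
  have hii : i * i = 1 := by rw [← pow_two, ← hi, pow_orderOf_eq_one]
  have hi_inv : i⁻¹ = i := by rw [inv_eq_iff_mul_eq_one]; exact hii
  have hi_ne : i ≠ 1 := by
    rintro rfl; simp at hi
  have hiD : i ∈ Dt i := ⟨1, by simp, rfl⟩
  have hordD : ∀ x ∈ Dt i, orderOf x = 2 := by
    rintro x ⟨g, rfl, -⟩
    rw [TriAux.orderOf_conj', hi]
  have hcommD : ∀ x ∈ Dt i, x * i = i * x := by
    rintro x ⟨g, -, h⟩; exact h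
  -- conjugacy inside `Λ`
  have hconjΛ : ∀ a ∈ Λ, ∀ a' ∈ Λ, orderOf a = 2 → orderOf a' = 2 →
      ∃ l ∈ Λ, l * a * l⁻¹ = a' := by
    intro a ha a' ha' h1 h2
    obtain ⟨g, hg⟩ := A5F.conj_inv e (a := ⟨a, ha⟩) (b := ⟨a', ha'⟩)
      (by rw [Subgroup.orderOf_mk]; exact h1) (by rw [Subgroup.orderOf_mk]; exact h2)
    exact ⟨g, g.2, by simpa using congrArg Subtype.val hg⟩
  have hA_all : (∃ a ∈ Λ, orderOf a = 2 ∧ a ∈ Dt i) → ∀ a' ∈ Λ, orderOf a' = 2 → a' ∈ Dt i := by
    rintro ⟨a, ha, ha2, g, hag, -⟩ a' ha' ha'2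
    obtain ⟨l, hl, hla⟩ := hconjΛ a ha a' ha' ha2 ha'2
    refine ⟨l * g, ?_, hΛ a' ha'⟩
    rw [← hla, hag]; group
  have hB_all : (∃ a ∈ Λ, orderOf a = 2 ∧ i * a ∈ Dt i) → ∀ a' ∈ Λ, orderOf a' = 2 → i * a' ∈ Dt i := by
    rintro ⟨a, ha, ha2, g, hag, hagc⟩ a' ha' ha'2
    obtain ⟨l, hl, hla⟩ := hconjΛ a ha a' ha' ha2 ha'2
    refine ⟨l * g, ?_, ?_⟩
    · have h1 : i * a' = l * (i * a) * l⁻¹ := by
        rw [← hla]
        have : l * i = i * l := hΛ l hl
        calc i * (l * a * l⁻¹) = (i * l) * a * l⁻¹ := by group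
          _ = (l * i) * a * l⁻¹ := by rw [this]
          _ = l * (i * a) * l⁻¹ := by group
      rw [h1, hag]; group
    · have : a' * i = i * a' := hΛ a' ha'
      rw [mul_assoc, this]
  -- the element `i * x`
  have hord_ix : ∀ x : G, x * i = i * x → x ≠ i → orderOf x = 2 → orderOf (i * x) = 2 := by
    intro x hxc hxi hx2
    have hxx : x * x = 1 := by rw [← pow_two, ← hx2, pow_orderOf_eq_one]
    apply orderOf_eq_prime
    · rw [pow_two]
      calc i * x * (i * x) = i * (x * i) * x := by group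
        _ = i * (i * x) * x := by rw [hxc]
        _ = (i * i) * (x * x) := by group
        _ = 1 := by rw [hii, hxx, one_mul]
    · intro h
      apply hxi
      have : x = i⁻¹ := by
        rw [eq_inv_iff_mul_eq_one, hxc]; exact h
      rw [this, hi_inv]
  have hi_ix : ∀ x : G, i * (i * x) = x := by
    intro x; rw [← mul_assoc, hii, one_mul]
  by_cases hA : ∃ a ∈ Λ, orderOf a = 2 ∧ a ∈ Dt i
  · by_cases hB : ∃ a ∈ Λ, orderOf a = 2 ∧ i * a ∈ Dt i
    · right
      intro x hx hx'
      rcases hx' with hxΛ | hxΛ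
      · exact hA_all hA x hxΛ hx
      · by_cases hxi : x = i
        · rw [hxi]; exact hiD
        · have hc1 : (i * x) * i = i * (i * x) := hΛ _ hxΛ
          have hc2 : x * i = i * x := by
            have h2 : i * (x * i) = i * (i * x) := by rw [← mul_assoc]; exact hc1
            exact mul_left_cancel h2
          have := hB_all hB (i * x) hxΛ (hord_ix x hc2 hxi hx)
          rwa [hi_ix] at this
    · exfalso
      have hsubA : ∀ x ∈ Dt i, x ≠ i → x ∈ Λ := by
        intro x hx hxi
        rcases hsub x hx with h | h | h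
        · exact absurd h hxi
        · exact h
        · exfalso
          apply hB
          refine ⟨i * x, h, hord_ix x (hcommD x hx) hxi (hordD x hx), ?_⟩
          rwa [hi_ix]
      obtain ⟨v, hvΛ, hv2, g, hvg, hvc⟩ := hA
      set y : G := g⁻¹ * i * g with hy
      have hgy : g * y * g⁻¹ = i := by rw [hy]; group
      have hyD : y ∈ Dt i := by
        refine ⟨g⁻¹, by rw [hy]; group, ?_⟩
        have h1 : g * (y * i) * g⁻¹ = g * (i * y) * g⁻¹ := by
          calc g * (y * i) * g⁻¹ = (g * y * g⁻¹) * (g * i * g⁻¹) := by group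
            _ = i * v := by rw [hgy, hvg]
            _ = v * i := (hvc).symm
            _ = (g * i * g⁻¹) * (g * y * g⁻¹) := by rw [hgy, hvg]
            _ = g * (i * y) * g⁻¹ := by group
        exact mul_left_cancel (mul_right_cancel h1)
      have hyi : y ≠ i := by
        intro h
        apply hiΛ
        have h3 : g * i * g⁻¹ = i := by
          have h4 := hgy
          rwa [h] at h4
        rw [← h3, ← hvg]; exact hvΛ
      have hyΛ : y ∈ Λ := hsubA y hyD hyi
      have hy2 : orderOf y = 2 := hordD y hyD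
      obtain ⟨b, hb2, hby, hybc, hyb2⟩ := A5F.exists_four e (a := ⟨y, hyΛ⟩) (by rw [Subgroup.orderOf_mk]; exact hy2)
      have hbΛ : (b : G) ∈ Λ := b.2
      have hb2' : orderOf (b : G) = 2 := by
        rw [← Subgroup.orderOf_coe] at hb2; exact hb2
      have hybc' : y * (b : G) = b * y := by simpa using congrArg Subtype.val hybc
      have hyb2' : orderOf (y * (b : G)) = 2 := by
        have := hyb2
        rw [← Subgroup.orderOf_coe] at this
        simpa using this
      have hbne : (b : G) ≠ y := by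
        intro h; apply hby; exact Subtype.ext h
      have hb1 : (b : G) ≠ 1 := by
        intro h; rw [h] at hb2'; simp at hb2'
      have hybΛ : y * (b : G) ∈ Λ := Λ.mul_mem hyΛ hbΛ
      have hbD : (b : G) ∈ Dt i := hA_all ⟨v, hvΛ, hv2, g, hvg, hvc⟩ _ hbΛ hb2'
      have hybD : y * (b : G) ∈ Dt i := hA_all ⟨v, hvΛ, hv2, g, hvg, hvc⟩ _ hybΛ hyb2'
      obtain ⟨g₁, hg₁, -⟩ := hbD
      obtain ⟨g₂, hg₂, -⟩ := hybD
      set a : G := g * b * g⁻¹ with ha
      have hia : a * i = i * a := by
        calc a * i = g * b * g⁻¹ * (g * y * g⁻¹) := by rw [hgy]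
          _ = g * (b * y) * g⁻¹ := by group
          _ = g * (y * b) * g⁻¹ := by rw [hybc']
          _ = (g * y * g⁻¹) * (g * b * g⁻¹) := by group
          _ = i * a := by rw [hgy]
      have haD : a ∈ Dt i := by
        refine ⟨g * g₁, ?_, hia⟩
        rw [ha, hg₁]; group
      have hai : a ≠ i := by
        intro h
        apply hbne
        have h2 : g * (b : G) * g⁻¹ = g * y * g⁻¹ := by rw [hgy]; exact h
        exact mul_left_cancel (mul_right_cancel h2)
      have hia_eq : i * a = g * (y * b) * g⁻¹ := by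
        rw [ha]; nth_rewrite 1 [← hgy]; group
      have hiaD : i * a ∈ Dt i := by
        refine ⟨g * g₂, ?_, ?_⟩
        · rw [hia_eq, hg₂]; group
        · rw [mul_assoc, hia]
      have hiai : i * a ≠ i := by
        intro h
        apply hb1
        have h2 : a = 1 := by simpa using h
        have h3 : g * (b : G) * g⁻¹ = 1 := h2
        have h4 : (b : G) = g⁻¹ * (g * (b : G) * g⁻¹) * g := by group
        rw [h4, h3]; group
      have haΛ := hsubA a haD hai
      have hiaΛ := hsubA (i * a) hiaD hiai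
      apply hiΛ
      have : i = (i * a) * a⁻¹ := by group
      rw [this]
      exact Λ.mul_mem hiaΛ (Λ.inv_mem haΛ)
  · by_cases hB : ∃ a ∈ Λ, orderOf a = 2 ∧ i * a ∈ Dt i
    · exfalso
      have hB_all' := hB_all hB
      -- a subgroup of order 4
      have hcard : Nat.card Λ = 60 := A5F.card_eq e
      obtain ⟨V₀, hV₀⟩ := Sylow.exists_subgroup_card_pow_prime (G := Λ) 2 (n := 2)
        (by rw [hcard]; norm_num)
      -- move `P` inside the centralizer of `i`
      set C : Subgroup G := centralizer ({i} : Set G) with hC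
      have hPC : (P : Subgroup G) ≤ C := fun s hs => by
        rw [hC, mem_centralizer_singleton_iff]; exact hc s hs
      have hΛC : Λ ≤ C := fun s hs => by
        rw [hC, mem_centralizer_singleton_iff]; exact hΛ s hs
      set V₀G : Subgroup G := V₀.map Λ.subtype with hV₀G
      have hpV₀ : IsPGroup 2 V₀ := by
        rw [IsPGroup.iff_card]; exact ⟨2, hV₀⟩
      have hpV₀G : IsPGroup 2 V₀G := hpV₀.map _
      have hV₀GC : V₀G ≤ C := by
        rintro _ ⟨x, -, rfl⟩; exact hΛC x.2
      obtain ⟨Q, hQ⟩ : ∃ Q : Sylow 2 C, V₀G.subgroupOf C ≤ Q :=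
        (hpV₀G.comap_of_injective C.subtype C.subtype_injective).exists_le_sylow
      obtain ⟨c, hcQ⟩ := MulAction.exists_smul_eq C (P.subtype hPC) Q
      set P₁ : Sylow 2 G := (c : G) • P with hP₁
      have hcc : (c : G) * i = i * c := mem_centralizer_singleton_iff.1 c.2
      have hmemP₁ : ∀ x : G, x ∈ (P₁ : Subgroup G) ↔ (c : G)⁻¹ * x * c ∈ (P : Subgroup G) :=
        fun x => TriAux.mem_smul P c x
      have hcc' : (c : G)⁻¹ * i * c = i := by
        rw [mul_assoc, ← hcc]; group
      have hiP₁ : i ∈ (P₁ : Subgroup G) := by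
        rw [hmemP₁, hcc']; exact hiP
      have hc₁ : ∀ s ∈ (P₁ : Subgroup G), s * i = i * s := by
        intro s hs
        rw [hmemP₁] at hs
        have h1 := hc _ hs
        have h2 : (c : G)⁻¹ * (s * i) * c = (c : G)⁻¹ * (i * s) * c := by
          calc (c : G)⁻¹ * (s * i) * c = ((c : G)⁻¹ * s * c) * ((c : G)⁻¹ * i * c) := by group
            _ = ((c : G)⁻¹ * s * c) * i := by rw [hcc']
            _ = i * ((c : G)⁻¹ * s * c) := h1
            _ = ((c : G)⁻¹ * i * c) * ((c : G)⁻¹ * s * c) := by rw [hcc']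
            _ = (c : G)⁻¹ * (i * s) * c := by group
        exact mul_left_cancel (mul_right_cancel h2)
      have hV₀P₁ : V₀G ≤ (P₁ : Subgroup G) := by
        intro x hx
        rw [hmemP₁]
        have hxC : x ∈ C := hV₀GC hx
        have h1 : (⟨x, hxC⟩ : C) ∈ (Q : Subgroup C) := hQ (by simpa [mem_subgroupOf] using hx)
        rw [← hcQ, TriAux.mem_smul] at h1
        have h2 := h1
        rw [Sylow.coe_subtype, mem_subgroupOf] at h2
        simpa using h2
      -- `V₁ = P₁ ∩ Λ` has order 4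
      set V₁ : Subgroup Λ := (P₁ : Subgroup G).subgroupOf Λ with hV₁
      have hmemV₁ : ∀ x : Λ, x ∈ V₁ ↔ (x : G) ∈ (P₁ : Subgroup G) := fun x => mem_subgroupOf
      have hV₀V₁ : V₀ ≤ V₁ := by
        intro x hx
        rw [hmemV₁]
        exact hV₀P₁ ⟨x, hx, rfl⟩
      have hcardV₁ : Nat.card V₁ = 4 := by
        have hp : IsPGroup 2 V₁ := P₁.isPGroup'.comap_of_injective Λ.subtype Λ.subtype_injective
        obtain ⟨k, hk⟩ := (IsPGroup.iff_card).1 hp
        have h1 : Nat.card V₁ ∣ 60 := by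
          rw [← hcard]; exact Subgroup.card_subgroup_dvd_card _
        have h2 : Nat.card V₀ ∣ Nat.card V₁ := Subgroup.card_dvd_of_le hV₀V₁
        rw [hV₀, hk] at h2
        rw [hk] at h1 ⊢
        have hk2 : 2 ≤ k := (Nat.pow_dvd_pow_iff_le_right (by norm_num)).1 h2
        have hk3 : k < 3 := by
          by_contra h
          have : 2 ^ 3 ∣ 2 ^ k := pow_dvd_pow 2 (by omega)
          have := this.trans h1
          norm_num at this
        have : k = 2 := by omega
        rw [this]; norm_num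
      have hexp : ∀ v : G, v ∈ (P₁ : Subgroup G) → v ∈ Λ → v * v = 1 := by
        intro v hv hvΛ
        have := A5F.four_exp e hcardV₁ ⟨v, hvΛ⟩ ((hmemV₁ _).2 hv)
        simpa using congrArg Subtype.val this
      have hVcomm : ∀ v w : G, v ∈ (P₁ : Subgroup G) → v ∈ Λ → w ∈ (P₁ : Subgroup G) → w ∈ Λ →
          v * w = w * v := by
        intro v w hv hvΛ hw hwΛ
        have h1 := hexp v hv hvΛ
        have h2 := hexp w hw hwΛ
        have h3 := hexp (v * w) ((P₁ : Subgroup G).mul_mem hv hw) (Λ.mul_mem hvΛ hwΛ)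
        have hv' : v⁻¹ = v := inv_eq_of_mul_eq_one_left h1
        have hw' : w⁻¹ = w := inv_eq_of_mul_eq_one_left h2
        have h4 : (v * w)⁻¹ = v * w := inv_eq_of_mul_eq_one_left h3
        rw [mul_inv_rev, hw', hv'] at h4
        exact h4.symm
      set D : Set G := {x | ∃ g : G, x = g * i * g⁻¹} with hD
      have hDinv : ∀ g : G, ∀ x ∈ D, g * x * g⁻¹ ∈ D := by
        rintro g x ⟨g', rfl⟩; exact ⟨g * g', by group⟩
      have hiDD : i ∈ D := ⟨1, by simp⟩
      have hDP : ∀ x ∈ D, x ∈ (P₁ : Subgroup G) → i * x ∈ Λ := by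
        rintro x ⟨g, hg⟩ hxP
        have hxD : x ∈ Dt i := ⟨g, hg, hc₁ x hxP⟩
        rcases hsub x hxD with h | h | h
        · rw [h, hii]; exact Λ.one_mem
        · exact absurd ⟨x, h, hordD x hxD, hxD⟩ hA
        · exact h
      set T : Subgroup G := closure (D ∩ (P₁ : Subgroup G)) with hT
      have hTP : T ≤ (P₁ : Subgroup G) := (closure_le _).2 (fun x hx => hx.2)
      have hgencomm : ∀ x ∈ D ∩ (P₁ : Subgroup G), ∀ y ∈ D ∩ (P₁ : Subgroup G), x * y = y * x := by
        rintro x ⟨hx, hxP⟩ y ⟨hy, hyP⟩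
        have hv := hDP x hx hxP
        have hw := hDP y hy hyP
        have hvP : i * x ∈ (P₁ : Subgroup G) := (P₁ : Subgroup G).mul_mem hiP₁ hxP
        have hwP : i * y ∈ (P₁ : Subgroup G) := (P₁ : Subgroup G).mul_mem hiP₁ hyP
        have h1 := hVcomm _ _ hvP hv hwP hw
        have hxi := hc₁ x hxP
        have hyi := hc₁ y hyP
        have e1 : (i * x) * (i * y) = x * y := by
          calc (i * x) * (i * y) = i * (x * i) * y := by group
            _ = i * (i * x) * y := by rw [hxi]
            _ = x * y := by rw [← mul_assoc i i, hii, one_mul]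
        have e2 : (i * y) * (i * x) = y * x := by
          calc (i * y) * (i * x) = i * (y * i) * x := by group
            _ = i * (i * y) * x := by rw [hyi]
            _ = y * x := by rw [← mul_assoc i i, hii, one_mul]
        rw [← e1, ← e2]; exact h1
      have hTc : ∀ a ∈ T, ∀ b ∈ T, a * b = b * a := by
        intro a ha b hb
        letI := closureCommGroupOfComm hgencomm
        have h1 := mul_comm (⟨a, ha⟩ : closure (D ∩ (P₁ : Subgroup G))) ⟨b, hb⟩
        exact congrArg Subtype.val h1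
      have hiT : i ∈ T := subset_closure ⟨hiDD, hiP₁⟩
      set M : Subgroup G := normalizer (T : Set G) with hM
      have hnorm : ∀ p ∈ (P₁ : Subgroup G), ∀ x ∈ T, p * x * p⁻¹ ∈ T := by
        intro p hp x hx
        have h1 : T ≤ T.comap (MulAut.conj p).toMonoidHom := (closure_le _).2 (fun y hy => by
          refine subset_closure ⟨hDinv p y hy.1, ?_⟩
          exact (P₁ : Subgroup G).mul_mem ((P₁ : Subgroup G).mul_mem hp hy.2)
            ((P₁ : Subgroup G).inv_mem hp))
        exact h1 hx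
      have hP₁M : (P₁ : Subgroup G) ≤ M := by
        intro p hp
        rw [hM, mem_normalizer_iff]
        intro x
        refine ⟨fun h => hnorm p hp x h, fun h => ?_⟩
        have h1 := hnorm p⁻¹ ((P₁ : Subgroup G).inv_mem hp) _ h
        have h2 : p⁻¹ * (p * x * p⁻¹) * p⁻¹⁻¹ = x := by group
        rwa [h2] at h1
      have hfus : ∀ v ∈ Λ, v ∈ (P₁ : Subgroup G) → ∃ n ∈ M, n * i * n⁻¹ = i * v := by
        intro v hvΛ hvP
        by_cases hv1 : v = 1
        · exact ⟨1, M.one_mem, by simp [hv1]⟩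
        · have hv2 : orderOf v = 2 := by
            apply orderOf_eq_prime _ hv1
            rw [pow_two]; exact hexp v hvP hvΛ
          obtain ⟨g, hg, -⟩ := hB_all' v hvΛ hv2
          have hivT : i * v ∈ T := subset_closure ⟨⟨g, hg⟩, (P₁ : Subgroup G).mul_mem hiP₁ hvP⟩
          exact burnside_fusion D hDinv P₁ T rfl hTc hiT hivT ⟨g, hg.symm⟩
      letI act : MulAction M G := MulAction.compHom G ((MulAut.conj : G →* MulAut G).comp M.subtype)
      have hsmul : ∀ (m : M) (x : G), m • x = (m : G) * x * (m : G)⁻¹ := fun m x => rfl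
      have horb : MulAction.orbit M i = (fun l : Λ => i * (l : G)) '' (V₁ : Set Λ) := by
        ext x
        constructor
        · rintro ⟨m, rfl⟩
          change m • i ∈ _
          rw [hsmul]
          have h1 : (m : G) * i * (m : G)⁻¹ ∈ T := (mem_normalizer_iff.1 m.2 i).1 hiT
          have h2 : (m : G) * i * (m : G)⁻¹ ∈ D := hDinv _ _ hiDD
          have h3 := hDP _ h2 (hTP h1)
          refine ⟨⟨_, h3⟩, ?_, ?_⟩
          · rw [SetLike.mem_coe, hmemV₁]
            exact (P₁ : Subgroup G).mul_mem hiP₁ (hTP h1)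
          · simp only
            rw [hi_ix]
        · rintro ⟨l, hl, rfl⟩
          rw [SetLike.mem_coe, hmemV₁] at hl
          obtain ⟨n, hn, hnn⟩ := hfus l l.2 hl
          exact ⟨⟨n, hn⟩, hnn⟩
      have hncard : (MulAction.orbit M i).ncard = 4 := by
        rw [horb, Set.ncard_image_of_injective]
        · rw [← Nat.card_coe_set_eq]; exact hcardV₁
        · intro a b hab
          exact Subtype.ext (mul_left_cancel hab)
      have hidx := MulAction.index_stabilizer M i
      rw [hncard] at hidx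
      set St := MulAction.stabilizer M i with hSt
      have hP₁St : (P₁ : Subgroup G).subgroupOf M ≤ St := by
        intro p hp
        rw [hSt, MulAction.mem_stabilizer_iff, hsmul]
        have h1 : (p : G) * i = i * p := hc₁ _ (mem_subgroupOf.1 hp)
        rw [h1]; group
      have h1 : Nat.card ((P₁ : Subgroup G).subgroupOf M) = Nat.card (P₁ : Subgroup G) :=
        Nat.card_congr (subgroupOfEquivOfLe hP₁M).toEquiv
      have h2 : Nat.card (P₁ : Subgroup G) ∣ Nat.card St := by
        rw [← h1]; exact Subgroup.card_dvd_of_le hP₁St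
      have h3 : Nat.card St * St.index = Nat.card M := Subgroup.card_mul_index St
      have h4 : Nat.card M ∣ Nat.card G := Subgroup.card_subgroup_dvd_card M
      have h5 : Nat.card (P₁ : Subgroup G) * (P₁ : Subgroup G).index = Nat.card G :=
        Subgroup.card_mul_index _
      have hpos : 0 < Nat.card (P₁ : Subgroup G) := Nat.card_pos
      have h6 : Nat.card (P₁ : Subgroup G) * 4 ∣ Nat.card (P₁ : Subgroup G) * (P₁ : Subgroup G).index := by
        rw [h5]
        refine dvd_trans ?_ h4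
        rw [← h3, hidx]
        exact mul_dvd_mul_right h2 4
      have h7 : 4 ∣ (P₁ : Subgroup G).index := Nat.dvd_of_mul_dvd_mul_left hpos h6
      exact P₁.not_dvd_index (dvd_trans (by norm_num) h7)
    · left
      ext x
      simp only [Set.mem_singleton_iff]
      constructor
      · intro hx
        by_contra hxi
        rcases hsub x hx with h | h | h
        · exact hxi h
        · exact hA ⟨x, h, hordD x hx, hx⟩
        · apply hB
          refine ⟨i * x, h, hord_ix x (hcommD x hx) hxi (hordD x hx), ?_⟩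
          rwa [hi_ix]
      · rintro rfl; exact hiD

end Cfsg.Agent.Lib.WC
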